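import Cfsg.Agent.H864.RC.Def3
import Cfsg.Agent.H106.RC.Use

/-!
# S3510, triality type iii (helper338): a quasisimple classical subgroup normalised by all members

`n2` : if `M ≤ N` is quasisimple of classical type, normalised by `x₁` and the `x i`, not centralised by `x₁`, and has
an element of order three, contradiction (`NoN`).
-/

set_option autoImplicit false
open Cfsg

namespace Cfsg.Agent.H338.RC

open Module QuadraticMap MulAction
open Cfsg.Agent.LieClassical.OrthCore Cfsg.Agent.LieClassical.OrthTrans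
open Cfsg.Agent.LieClassical.OrthSimple Cfsg.Agent.LieClassical.QuadForms
open Cfsg.Agent.ClassicalGeometry.Triality Cfsg.Agent.H106.RC Cfsg.Agent.H93.RC Cfsg.Agent.H566.RC
open Cfsg.Agent.H198.TriAut Cfsg.Agent.H864.RC
open scoped commutatorElement

theorem n2 {F : Type} [Field F] {G Ω ι : Type} [Group G] [MulAction G Ω] {N : Subgroup G}
    {hG : Good (plusForm 4 F)} {κ : P8 F →* G} {s : F ≃+* F} {x₁ : G} {x : ι → G} {r : ι → ℕ}
    {g : ι → (V8 F ≃ₗ[F] V8 F)} [Finite G] [Finite ι]
    (h : T3 hG N κ s Ω x₁ x r g) (hIH : IH (Nat.card N)) (hN : NoN Ω N) {S' : Type} [Group S'] [Finite S']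
    {M : Subgroup G} (hMN : M ≤ N) (hne : M ≠ N) (hperf : ⁅M, M⁆ = M) (π : M →* S')
    (hπ : Function.Surjective π) (hker : π.ker ≤ Subgroup.center M) (h1 : IsSimpleGroup S')
    (h2 : ¬ IsMulCommutative S') (h3 : Cl S') (h4 : ¬ Exc S')
    (hn1 : x₁ ∈ Subgroup.normalizer (M : Set G)) (hn : ∀ i, x i ∈ Subgroup.normalizer (M : Set G))
    (hx1 : ∃ m ∈ M, x₁ * m ≠ m * x₁) {y : G} (hy : y ∈ M) (hy3 : y ^ 3 = 1) (hy1 : y ≠ 1) : False := by
  have hx₁ : x₁ ≠ 1 := by
    rintro rfl
    obtain ⟨m, -, hm⟩ := hx1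
    exact hm (by rw [one_mul, mul_one])
  have hPF : PF (fun o : Option ι => o.elim x₁ x) (fun o => o.elim 3 r) := by
    refine ⟨?_, ?_, ?_, ?_, ?_⟩
    · rintro (_ | i)
      · exact Nat.prime_three
      · exact h.prime i
    · rintro (_ | i) (_ | j) hij
      · rfl
      · exact absurd hij.symm (h.three j)
      · exact absurd hij (h.three i)
      · exact congrArg some (h.inj hij)
    · rintro (_ | i)
      · exact h.x1_cube
      · exact h.x_pow i
    · rintro (_ | i)
      · exact hx₁
      · exact h.x_ne i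
    · rintro (_ | i) (_ | j)
      · rfl
      · exact h.x1_comm j
      · exact (h.x1_comm i).symm
      · exact h.x_comm i j
  have hCov : Cov Ω (fun o : Option ι => o.elim x₁ x) := by
    intro ω
    rcases h.cov ω with hω | ⟨i, hω⟩
    · exact ⟨none, hω⟩
    · exact ⟨some i, hω⟩
  have hrule := mrule_IH hIH (MulEquiv.refl N) hMN hne hperf π hπ hker h1 h2 h3 h4 hPF hCov (by
    rintro (_ | i)
    · exact hn1
    · exact hn i)
  let J : Type := {j : ι // ∀ m ∈ M, x j * m = m * x j}
  refine hN (Option J) (fun o => o.elim y (fun j => x j.1)) (fun o => o.elim 3 (fun j => r j.1)) ?_ ?_ ?_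
  · refine ⟨?_, ?_, ?_, ?_, ?_⟩
    · rintro (_ | j)
      · exact Nat.prime_three
      · exact h.prime j.1
    · rintro (_ | i) (_ | j) hij
      · rfl
      · exact absurd hij.symm (h.three j.1)
      · exact absurd hij (h.three i.1)
      · exact congrArg some (Subtype.ext (h.inj hij))
    · rintro (_ | j)
      · exact hy3
      · exact h.x_pow j.1
    · rintro (_ | j)
      · exact hy1
      · exact h.x_ne j.1
    · rintro (_ | i) (_ | j)
      · rfl
      · exact (j.2 y hy).symm
      · exact i.2 y hy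
      · exact h.x_comm i.1 j.1
  · intro ω
    rcases hrule ω with hω | ⟨o, ho, hω⟩
    · exact ⟨none, hω hy⟩
    · rcases o with _ | j
      · exfalso
        obtain ⟨m, hm, hm'⟩ := hx1
        exact hm' (ho m hm)
      · exact ⟨some ⟨j, ho⟩, hω⟩
  · rintro (_ | j)
    · exact hMN hy
    · exact h.x_mem j.1

end Cfsg.Agent.H338.RC
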