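import Cfsg.Agent.LieClassical.OrthFourPlus
import Cfsg.Agent.LieClassical.OrthTrans

/-!
# Four-dimensional quadratic spaces of plus type as `M_2(K)` (helper338, for helper31, box D4p of S3510)
-/

set_option autoImplicit false

namespace Cfsg.Agent.H338.RC

open QuadraticMap Module
open Cfsg.Agent.LieClassical.OrthCore Cfsg.Agent.LieClassical.OrthTrans
open Cfsg.Agent.LieClassical.OrthFourPlus Cfsg.Agent.LieClassical.OrthFourCommon

/-- coordinates adapted to a totally singular plane -/
theorem exists_coord {K V : Type} [Field K] [AddCommGroup V] [Module K V] {QL : QuadraticForm K V}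
    (hQ : Nondeg QL) (h4 : Module.finrank K V = 4) (U : Submodule K V) (hU : ∀ v ∈ U, QL v = 0)
    (hU2 : Module.finrank K U = 2) :
    ∃ θ : V ≃ₗ[K] Matrix (Fin 2) (Fin 2) K, (∀ v, (θ v).det = QL v) ∧ ∀ v, v ∈ U ↔ θ v 0 1 = 0 ∧ θ v 1 1 = 0 := by
  have hfin : FiniteDimensional K V := Module.finite_of_finrank_pos (by omega)
  have hfinU : Module.Finite K U := Module.finite_of_finrank_pos (by omega)
  have hUp : ∀ a ∈ U, ∀ b ∈ U, polar QL a b = 0 := by
    intro a ha b hb
    have h1 := Q_add (Q := QL) a b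
    rw [hU _ (U.add_mem ha hb), hU a ha, hU b hb] at h1
    simpa using h1.symm
  let bU := Module.finBasisOfFinrankEq K U hU2
  set e : V := (bU 0 : V) with he
  set w : V := (bU 1 : V) with hw
  have heU : e ∈ U := (bU 0).2
  have hwU : w ∈ U := (bU 1).2
  have hli : ∀ a b : K, a • e + b • w = 0 → a = 0 ∧ b = 0 := by
    intro a b hab
    have h1 : a • bU 0 + b • bU 1 = 0 := Subtype.ext hab
    have h2 := bU.linearIndependent
    rw [Fintype.linearIndependent_iff] at h2
    have h3 := h2 ![a, b] (by rw [Fin.sum_univ_two]; exact h1)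
    exact ⟨h3 0, h3 1⟩
  have hspan : ∀ v ∈ U, ∃ a b : K, v = a • e + b • w := by
    intro v hv
    refine ⟨bU.repr ⟨v, hv⟩ 0, bU.repr ⟨v, hv⟩ 1, ?_⟩
    have h1 := bU.sum_repr ⟨v, hv⟩
    rw [Fin.sum_univ_two] at h1
    exact (congrArg Subtype.val h1).symm
  have he0 : e ≠ 0 := by
    intro h0
    have := (hli 1 0 (by rw [h0, smul_zero, zero_smul, add_zero])).1
    exact one_ne_zero this
  obtain ⟨f, hf⟩ := Cfsg.Agent.LieClassical.OrthTrans.exists_hyp hQ (hU e heU) he0
  set w' : V := w - polar QL f w • e with hw'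
  have hw'U : w' ∈ U := U.sub_mem hwU (U.smul_mem _ heU)
  have hw'0 : w' ≠ 0 := by
    intro h0
    have h1 : (-polar QL f w) • e + (1 : K) • w = 0 := by
      rw [← h0, hw']
      module
    exact one_ne_zero (hli _ _ h1).2
  have hfw' : polar QL f w' = 0 := by
    rw [hw', polar_sub_right, polar_smul_right, hf.pair', smul_eq_mul, mul_one, sub_self]
  obtain ⟨z, hz, hez, hfz⟩ := exists_hyp_perp hQ hf (hU w' hw'U) hw'0 (hUp e heU w' hw'U) hfw'
  -- the values of the polar form
  have pee : polar QL e e = 0 := hf.polar_left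
  have pff : polar QL f f = 0 := hf.polar_right
  have pef : polar QL e f = 1 := hf.pair
  have pfe : polar QL f e = 1 := hf.pair'
  have pww : polar QL w' w' = 0 := hz.polar_left
  have pzz : polar QL z z = 0 := hz.polar_right
  have pwz : polar QL w' z = 1 := hz.pair
  have pzw : polar QL z w' = 1 := hz.pair'
  have pew : polar QL e w' = 0 := hUp e heU w' hw'U
  have pwe : polar QL w' e = 0 := hUp w' hw'U e heU
  have pwf : polar QL w' f = 0 := by rw [polar_comm]; exact hfw'
  have pze : polar QL z e = 0 := by rw [polar_comm]; exact hez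
  have pzf : polar QL z f = 0 := by rw [polar_comm]; exact hfz
  -- the four vectors form a basis
  have hbas : LinearIndependent K ![e, f, w', z] := by
    rw [Fintype.linearIndependent_iff]
    intro g hg
    rw [Fin.sum_univ_four] at hg
    change g 0 • e + g 1 • f + g 2 • w' + g 3 • z = 0 at hg
    have h0 := congrArg (polar QL f) hg
    have h1 := congrArg (polar QL e) hg
    have h2 := congrArg (polar QL z) hg
    have h3 := congrArg (polar QL w') hg
    simp only [polar_add_right, polar_smul_right, polar_zero_right, pee, pff, pef, pfe, pww, pzz, pwz, pzw, pew, pwe,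
      pwf, pze, pzf, hfw', hez, hfz, smul_eq_mul, mul_zero, mul_one, add_zero, zero_add] at h0 h1 h2 h3
    intro i
    fin_cases i
    · exact h0
    · exact h1
    · exact h2
    · exact h3
  have htop : Submodule.span K (Set.range ![e, f, w', z]) = ⊤ :=
    hbas.span_eq_top_of_card_eq_finrank' (by rw [Fintype.card_fin, h4])
  have hzero : ∀ v, polar QL e v = 0 → polar QL f v = 0 → polar QL w' v = 0 → polar QL z v = 0 → v = 0 := by
    intro v h0 h1 h2 h3
    apply hQ
    intro y
    have hy : y ∈ Submodule.span K (Set.range ![e, f, w', z]) := by rw [htop]; trivial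
    rw [polar_comm]
    induction hy using Submodule.span_induction with
    | mem y hy =>
      obtain ⟨i, rfl⟩ := hy
      fin_cases i
      · exact h0
      · exact h1
      · exact h2
      · exact h3
    | zero => rw [polar_zero_left]
    | add a b _ _ ha hb => rw [polar_add_left, ha, hb, add_zero]
    | smul a b _ hb => rw [polar_smul_left, hb, smul_zero]
  have hdec : ∀ v, v = polar QL f v • e + polar QL e v • f + polar QL z v • w' + polar QL w' v • z := by
    intro v
    rw [← sub_eq_zero]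
    apply hzero
    all_goals
      simp only [polar_sub_right, polar_add_right, polar_smul_right, pee, pff, pef, pfe, pww, pzz, pwz, pzw, pew, pwe,
        pwf, pze, pzf, hfw', hez, hfz, smul_eq_mul, mul_zero, mul_one, add_zero, zero_add, sub_self]
  let θ₀ : V →ₗ[K] Matrix (Fin 2) (Fin 2) K :=
    { toFun := fun v => !![polar QL f v, - polar QL w' v; polar QL z v, polar QL e v]
      map_add' := fun a b => by
        ext i j
        fin_cases i <;> fin_cases j <;> simp [polar_add_right, add_comm]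
      map_smul' := fun c a => by
        ext i j
        fin_cases i <;> fin_cases j <;> simp [polar_smul_right] }
  have hθ₀ : ∀ v, θ₀ v = !![polar QL f v, - polar QL w' v; polar QL z v, polar QL e v] := fun v => rfl
  have hinj : Function.Injective θ₀ := by
    rw [injective_iff_map_eq_zero]
    intro v hv
    rw [hθ₀] at hv
    have h00 := congrFun (congrFun hv 0) 0
    have h01 := congrFun (congrFun hv 0) 1
    have h10 := congrFun (congrFun hv 1) 0
    have h11 := congrFun (congrFun hv 1) 1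
    simp at h00 h01 h10 h11
    exact hzero v h11 h00 h01 h10
  have hfr : finrank K V = finrank K (Matrix (Fin 2) (Fin 2) K) := by
    rw [h4, Module.finrank_matrix]
    simp
  let θ : V ≃ₗ[K] Matrix (Fin 2) (Fin 2) K := LinearEquiv.ofInjectiveOfFinrankEq θ₀ hinj hfr
  have hθ : ∀ v, θ v = !![polar QL f v, - polar QL w' v; polar QL z v, polar QL e v] := fun v => rfl
  refine ⟨θ, fun v => ?_, fun v => ?_⟩
  · rw [hθ, Matrix.det_fin_two_of]
    conv_rhs => rw [hdec v]
    simp only [Q_add, QuadraticMap.map_smul, polar_add_left, polar_smul_left, polar_add_right, polar_smul_right,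
      hf.left, hf.right, hz.left, hz.right, pef, pwz, pew, pwf, pwe, hez, hfz, hfw', smul_eq_mul, mul_zero, mul_one,
      add_zero, zero_add]
    ring
  · rw [hθ]
    change v ∈ U ↔ -polar QL w' v = 0 ∧ polar QL e v = 0
    rw [neg_eq_zero]
    constructor
    · intro hv
      exact ⟨hUp w' hw'U v hv, hUp e heU v hv⟩
    · rintro ⟨h1, h2⟩
      rw [hdec v, h1, h2, zero_smul, zero_smul, add_zero, add_zero]
      exact U.add_mem (U.smul_mem _ heU) (U.smul_mem _ hw'U)

/-- similitudes of the determinant -/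
theorem simil {K : Type} [Field K] (T : Matrix (Fin 2) (Fin 2) K ≃ₗ[K] Matrix (Fin 2) (Fin 2) K) (c : K) (hc : c ≠ 0)
    (h : ∀ A, (T A).det = c * A.det) :
    ∃ P R : GL (Fin 2) K, (∀ A, T A = P.1 * A * R.1) ∨ (∀ A, T A = P.1 * A.adjugate * R.1) := by
  have hD : (!![c⁻¹, 0; 0, 1] : Matrix (Fin 2) (Fin 2) K).det ≠ 0 := by
    rw [Matrix.det_fin_two_of]
    simpa using hc
  let D : GL (Fin 2) K := Matrix.GeneralLinearGroup.mkOfDetNeZero !![c⁻¹, 0; 0, 1] hD
  have hDv : (D : Matrix (Fin 2) (Fin 2) K).det = c⁻¹ := by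
    change (!![c⁻¹, 0; 0, 1] : Matrix (Fin 2) (Fin 2) K).det = c⁻¹
    rw [Matrix.det_fin_two_of]
    ring
  let g : isom (dt K) := ⟨conjLin (D, 1) * T, fun A => by
    change ((D : Matrix (Fin 2) (Fin 2) K) * (T A) * ((1⁻¹ : GL (Fin 2) K) : Matrix (Fin 2) (Fin 2) K)).det = A.det
    rw [inv_one, Units.val_one, mul_one, Matrix.det_mul, hDv, h, ← mul_assoc, inv_mul_cancel₀ hc, one_mul]⟩
  have hg : ∀ A, g.1 A = (D : Matrix (Fin 2) (Fin 2) K) * T A := by
    intro A
    change (D : Matrix (Fin 2) (Fin 2) K) * (T A) * ((1⁻¹ : GL (Fin 2) K) : Matrix (Fin 2) (Fin 2) K) = _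
    rw [inv_one, Units.val_one, mul_one]
  have hT : ∀ A, T A = ((D⁻¹ : GL (Fin 2) K) : Matrix (Fin 2) (Fin 2) K) * g.1 A := by
    intro A
    rw [hg, ← mul_assoc, Units.inv_mul, one_mul]
  obtain ⟨p, hp | hp⟩ := exists_eq g
  · refine ⟨D⁻¹ * p.1.1, p.1.2⁻¹, Or.inl fun A => ?_⟩
    rw [hT, hp, psi_apply, Units.val_mul, mul_assoc, mul_assoc, mul_assoc]
  · refine ⟨D⁻¹ * p.1.1, p.1.2⁻¹, Or.inr fun A => ?_⟩
    have h1 : g.1 A = (psi p).1 (A.adjugate) := by rw [hp]; rfl
    rw [hT, h1, psi_apply, Units.val_mul, mul_assoc, mul_assoc, mul_assoc]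

/-- `A ↦ P adj(A) R` neither preserves the matrices with zero second column nor moves all of them away -/
theorem noswap_of {K : Type} [Field K] (P R : GL (Fin 2) K) :
    (∃ A : Matrix (Fin 2) (Fin 2) K, A ≠ 0 ∧ A 0 1 = 0 ∧ A 1 1 = 0 ∧ (P.1 * A.adjugate * R.1) 0 1 = 0 ∧
      (P.1 * A.adjugate * R.1) 1 1 = 0) ∧
    (∃ A : Matrix (Fin 2) (Fin 2) K, A 0 1 = 0 ∧ A 1 1 = 0 ∧
      ¬ ((P.1 * A.adjugate * R.1) 0 1 = 0 ∧ (P.1 * A.adjugate * R.1) 1 1 = 0)) := by
  obtain ⟨a, b, c, d, hP⟩ : ∃ a b c d : K, P.1 = !![a, b; c, d] := ⟨_, _, _, _, Matrix.eta_fin_two _⟩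
  obtain ⟨a', b', c', d', hR⟩ : ∃ a b c d : K, R.1 = !![a, b; c, d] := ⟨_, _, _, _, Matrix.eta_fin_two _⟩
  have hPd : a * d - b * c ≠ 0 := by
    have h1 := P.det.ne_zero
    rw [Matrix.GeneralLinearGroup.val_det_apply] at h1
    have h2 : (P : Matrix (Fin 2) (Fin 2) K) = !![a, b; c, d] := hP
    rwa [h2, Matrix.det_fin_two_of] at h1
  have hRd : a' * d' - b' * c' ≠ 0 := by
    have h1 := R.det.ne_zero
    rw [Matrix.GeneralLinearGroup.val_det_apply] at h1
    have h2 : (R : Matrix (Fin 2) (Fin 2) K) = !![a', b'; c', d'] := hR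
    rwa [h2, Matrix.det_fin_two_of] at h1
  have key : ∀ x y : K, P.1 * (!![x, 0; y, 0] : Matrix (Fin 2) (Fin 2) K).adjugate * R.1 =
      !![b * (-y * a' + x * c'), b * (-y * b' + x * d'); d * (-y * a' + x * c'), d * (-y * b' + x * d')] := by
    intro x y
    rw [hP, hR, Matrix.adjugate_fin_two_of]
    ext i j
    fin_cases i <;> fin_cases j <;> simp [Matrix.mul_apply, Fin.sum_univ_two] <;> ring
  have hbd : ¬ (b = 0 ∧ d = 0) := by
    rintro ⟨rfl, rfl⟩
    exact hPd (by ring)
  have hbd' : ¬ (b' = 0 ∧ d' = 0) := by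
    rintro ⟨rfl, rfl⟩
    exact hRd (by ring)
  constructor
  · refine ⟨!![b', 0; d', 0], ?_, rfl, rfl, ?_, ?_⟩
    · intro h0
      apply hbd'
      have h1 := congrFun (congrFun h0 0) 0
      have h2 := congrFun (congrFun h0 1) 0
      exact ⟨by simpa using h1, by simpa using h2⟩
    · rw [key]
      change b * (-d' * b' + b' * d') = 0
      ring
    · rw [key]
      change d * (-d' * b' + b' * d') = 0
      ring
  · obtain ⟨x, y, hxy⟩ : ∃ x y : K, -y * b' + x * d' ≠ 0 := by
      by_cases hb : b' = 0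
      · refine ⟨1, 0, ?_⟩
        intro h0
        apply hbd'
        refine ⟨hb, ?_⟩
        linear_combination h0
      · refine ⟨0, 1, ?_⟩
        intro h0
        apply hb
        linear_combination -h0
    refine ⟨!![x, 0; y, 0], rfl, rfl, ?_⟩
    rw [key]
    change ¬ (b * (-y * b' + x * d') = 0 ∧ d * (-y * b' + x * d') = 0)
    rintro ⟨h1, h2⟩
    exact hbd ⟨(mul_eq_zero.1 h1).resolve_right hxy, (mul_eq_zero.1 h2).resolve_right hxy⟩

end Cfsg.Agent.H338.RC
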