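import Mathlib
import Cfsg.Agent.LieClassical.HermBasic

/-!
# The field generated by an endomorphism with an irreducible quadratic equation (helper338)
-/

set_option autoImplicit false

namespace Cfsg.Agent.H338.RC

open Module Polynomial

/-- the field `F[κ]` -/
theorem exists_quadK {F V : Type} [Field F] [Finite F] [AddCommGroup V] [Module F V] (κ : V →ₗ[F] V) (s t : F)
    (hκ : ∀ v, κ (κ v) = s • κ v - t • v) (hirr : ∀ a : F, a * a - s * a + t ≠ 0) :
    ∃ (K : Type) (_ : Field K) (_ : Fintype K) (_ : Algebra F K) (_ : Module K V) (_ : IsScalarTower F K V) (α : K),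
      Fintype.card K = Nat.card F ^ 2 ∧ (∀ v : V, α • v = κ v) ∧ α * α = algebraMap F K s * α - algebraMap F K t ∧
      ∀ a : K, ∃ c d : F, a = algebraMap F K c + algebraMap F K d * α := by
  classical
  let f : F[X] := X ^ 2 - C s * X + C t
  have hfm : f.Monic := by
    change (X ^ 2 - C s * X + C t).Monic
    monicity!
  have hfd : f.natDegree = 2 := by
    change (X ^ 2 - C s * X + C t).natDegree = 2
    compute_degree!
  have hfi : Irreducible f := by
    rw [hfm.irreducible_iff_roots_eq_zero_of_degree_le_three (by rw [hfd]) (by rw [hfd]; norm_num)]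
    rw [Multiset.eq_zero_iff_forall_notMem]
    intro a ha
    have h1 : f.IsRoot a := (mem_roots hfm.ne_zero).1 ha
    apply hirr a
    have h2 : f.eval a = 0 := h1
    simp only [f, eval_add, eval_sub, eval_pow, eval_X, eval_mul, eval_C] at h2
    linear_combination h2
  have : Fact (Irreducible f) := ⟨hfi⟩
  let pb := AdjoinRoot.powerBasis hfi.ne_zero
  have hdim : pb.dim = 2 := by
    rw [AdjoinRoot.powerBasis_dim, hfd]
  have hfin : Module.Finite F (AdjoinRoot f) := pb.finite
  have hfinite : Finite (AdjoinRoot f) := Module.finite_of_finite F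
  let ft : Fintype (AdjoinRoot f) := Fintype.ofFinite _
  have hfr : finrank F (AdjoinRoot f) = 2 := by rw [pb.finrank, hdim]
  -- the action
  have hker : ∀ a ∈ Ideal.span {f}, (aeval κ : F[X] →ₐ[F] Module.End F V).toRingHom a = 0 := by
    intro a ha
    obtain ⟨b, rfl⟩ := Ideal.mem_span_singleton'.1 ha
    change aeval κ (b * f) = 0
    rw [map_mul]
    have h1 : aeval κ f = (0 : Module.End F V) := by
      refine LinearMap.ext fun v => ?_
      simp only [f, map_add, map_sub, map_mul, aeval_X, aeval_C, LinearMap.add_apply, LinearMap.sub_apply,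
        Module.End.mul_apply, Module.algebraMap_end_apply, pow_two, hκ, LinearMap.zero_apply]
      abel
    rw [h1, mul_zero]
  let ψ : AdjoinRoot f →+* Module.End F V := Ideal.Quotient.lift (Ideal.span {f})
    (aeval κ : F[X] →ₐ[F] Module.End F V).toRingHom hker
  have hψ : ∀ g : F[X], ψ (AdjoinRoot.mk f g) = aeval κ g := fun g => rfl
  let md : Module (AdjoinRoot f) V := Module.compHom V ψ
  have hsm : ∀ (a : AdjoinRoot f) (v : V), a • v = ψ a v := fun a v => rfl
  have hof : ∀ (c : F) (v : V), (algebraMap F (AdjoinRoot f) c) • v = c • v := by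
    intro c v
    rw [hsm]
    have h1 : algebraMap F (AdjoinRoot f) c = AdjoinRoot.mk f (C c) := rfl
    rw [h1, hψ, aeval_C, Module.algebraMap_end_apply]
  have htower : IsScalarTower F (AdjoinRoot f) V := by
    constructor
    intro c a v
    rw [Algebra.smul_def, mul_smul, hof]
  refine ⟨AdjoinRoot f, inferInstance, ft, inferInstance, md, htower, AdjoinRoot.root f, ?_, ?_, ?_, ?_⟩
  · rw [← Nat.card_eq_fintype_card, Module.natCard_eq_pow_finrank (K := F), hfr]
  · intro v
    rw [hsm]
    have h1 : AdjoinRoot.root f = AdjoinRoot.mk f X := rfl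
    rw [h1, hψ, aeval_X]
  · have h1 : AdjoinRoot.mk f f = 0 := AdjoinRoot.mk_self
    have h2 : AdjoinRoot.mk f f = AdjoinRoot.root f * AdjoinRoot.root f -
        algebraMap F (AdjoinRoot f) s * AdjoinRoot.root f + algebraMap F (AdjoinRoot f) t := by
      conv_lhs => arg 2; change X ^ 2 - C s * X + C t
      rw [map_add, map_sub, map_mul, map_pow, AdjoinRoot.mk_X, pow_two]
      rfl
    rw [h2] at h1
    linear_combination h1
  · intro a
    induction a using AdjoinRoot.induction_on with
    | ih g =>
      have h1 : AdjoinRoot.mk f g = AdjoinRoot.mk f (g %ₘ f) := by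
        rw [AdjoinRoot.mk_eq_mk]
        have := modByMonic_add_div g f
        exact ⟨g /ₘ f, by linear_combination -this⟩
      have h2 : (g %ₘ f).natDegree < 2 := by
        rw [← hfd]
        exact natDegree_modByMonic_lt g hfm (by
          intro h0
          rw [h0, natDegree_one] at hfd
          omega)
      refine ⟨(g %ₘ f).coeff 0, (g %ₘ f).coeff 1, ?_⟩
      rw [h1]
      conv_lhs => rw [eq_X_add_C_of_natDegree_le_one (by omega : (g %ₘ f).natDegree ≤ 1)]
      rw [map_add, map_mul, AdjoinRoot.mk_X, add_comm]
      rfl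

end Cfsg.Agent.H338.RC
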