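import Cfsg.Agent.H338.RC.HermC
import Cfsg.Agent.H338.RC.QuadK

/-!
# S3510, row F, box C (helper338), final form
-/

set_option autoImplicit false
open Cfsg

namespace Cfsg.Agent.H338.RC

open QuadraticMap Module MulAction
open Cfsg.Agent.LieClassical.OrthCore Cfsg.Agent.LieClassical.HermBasic
open Cfsg.Agent.LieClassical.OrthTrans Cfsg.Agent.ClassicalGeometry.OrthSemi Cfsg.Agent.ClassicalGeometry.OrthAut1
open Cfsg.Agent.H106.RC Cfsg.Agent.H93.RC Cfsg.Agent.H138.RC

section alg

variable {F V : Type} [Field F] [Finite F] [AddCommGroup V] [Module F V] {Q : QuadraticForm F V}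

/-- the form `polar Q v (κ v)` -/
theorem polar_kappa {κ : V →ₗ[F] V} {s t : F} (hκ : ∀ v, κ (κ v) = s • κ v - t • v)
    (hirr : ∀ a : F, a * a - s * a + t ≠ 0) (hQκ : ∀ v, Q (κ v) = t * Q v) (v : V) :
    polar Q v (κ v) = s * Q v := by
  have ht : t ≠ 0 := by
    rintro rfl
    exact hirr 0 (by ring)
  have hp : ∀ u v, polar Q (κ u) (κ v) = t * polar Q u v := by
    intro u v
    rw [polar, polar, ← map_add, hQκ, hQκ, hQκ]
    ring
  -- the adjoint
  have hadj : ∀ u v, polar Q (κ u) v = s * polar Q u v - polar Q u (κ v) := by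
    intro u v
    have h1 : κ (s • v - κ v) = t • v := by
      rw [map_sub, map_smul, hκ]
      abel
    have h2 := hp u (s • v - κ v)
    rw [h1, polar_smul_right, polar_sub_right, polar_smul_right, smul_eq_mul, smul_eq_mul] at h2
    exact mul_left_cancel₀ ht h2
  by_cases h2 : (2 : F) = 0
  · let D : V → F := fun v => polar Q v (κ v) - s * Q v
    have hadd : ∀ u v, D (u + v) = D u + D v := by
      intro u v
      change polar Q (u + v) (κ (u + v)) - s * Q (u + v) = (polar Q u (κ u) - s * Q u) + (polar Q v (κ v) - s * Q v)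
      rw [map_add, polar_add_left, polar_add_right, polar_add_right, Q_add]
      have h3 := hadj u v
      rw [polar_comm] at h3
      linear_combination h3
    have hneg : ∀ v, D (-v) = D v := by
      intro v
      change polar Q (-v) (κ (-v)) - s * Q (-v) = polar Q v (κ v) - s * Q v
      rw [map_neg, polar_neg_left, polar_neg_right, QuadraticMap.map_neg, neg_neg]
    have hsm : ∀ (c : F) v, D (c • v) = c * c * D v := by
      intro c v
      change polar Q (c • v) (κ (c • v)) - s * Q (c • v) = c * c * (polar Q v (κ v) - s * Q v)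
      rw [map_smul, polar_smul_left, polar_smul_right, QuadraticMap.map_smul, smul_eq_mul, smul_eq_mul, smul_eq_mul]
      ring
    have hDκ : ∀ v, D (κ v) = t * D v := by
      intro v
      change polar Q (κ v) (κ (κ v)) - s * Q (κ v) = t * (polar Q v (κ v) - s * Q v)
      rw [hp, hQκ]
      ring
    have h3 : D (κ (κ v)) = t * (t * D v) := by rw [hDκ, hDκ]
    rw [hκ, sub_eq_add_neg, hadd, hneg, hsm, hsm, hDκ] at h3
    have h4 : s * s * (t * D v) = 0 := by linear_combination h3
    have hs : s ≠ 0 := by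
      rintro rfl
      have h5 : Function.Injective (fun a : F => a * a) := by
        intro a b hab
        have h6 : (a - b) * (a - b) = 0 := by
          have hab' : a * a = b * b := hab
          linear_combination hab' - a * b * h2 + b * b * h2
        exact sub_eq_zero.1 (mul_self_eq_zero.1 h6)
      obtain ⟨a, ha⟩ := Finite.injective_iff_surjective.1 h5 t
      have ha' : a * a = t := ha
      apply hirr a
      linear_combination ha' + t * h2
    have h5 : D v = 0 := by
      rcases mul_eq_zero.1 h4 with h6 | h6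
      · exact (mul_ne_zero hs hs h6).elim
      · exact (mul_eq_zero.1 h6).resolve_left ht
    exact sub_eq_zero.1 h5
  · have h3 := hadj v v
    rw [polar_comm Q (κ v) v, polar_self' v] at h3
    have h4 : 2 * (polar Q v (κ v) - s * Q v) = 0 := by linear_combination h3
    exact sub_eq_zero.1 ((mul_eq_zero.1 h4).resolve_left h2)

end alg

/-- the hypotheses `HK` for `F[κ]` -/
theorem exists_HK {F V : Type} [Field F] [Finite F] [AddCommGroup V] [Module F V] {Q : QuadraticForm F V}
    (hQ : Nondeg Q) (κ : V →ₗ[F] V) (s t : F) (hκ : ∀ v, κ (κ v) = s • κ v - t • v)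
    (hirr : ∀ a : F, a * a - s * a + t ≠ 0) (hQκ : ∀ v, Q (κ v) = t * Q v) :
    ∃ (K : Type) (_ : Field K) (_ : Fintype K) (_ : Algebra F K) (_ : Module K V) (_ : IsScalarTower F K V) (α : K),
      HK Q K (Nat.card F) ∧ (∀ v : V, α • v = κ v) ∧ finrank F K = 2 ∧
      ∀ a : K, ∃ c d : F, a = algebraMap F K c + algebraMap F K d * α := by
  obtain ⟨K, _, _, _, _, _, α, hcard, hα, hαα, hdec⟩ := exists_quadK κ s t hκ hirr
  have : Fintype F := Fintype.ofFinite F
  have hbase : ∀ c : F, (algebraMap F K c) ^ Nat.card F = algebraMap F K c := by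
    intro c
    rw [← map_pow, Nat.card_eq_fintype_card, FiniteField.pow_card]
  have hfr : finrank F K = 2 := by
    have h1 := Module.natCard_eq_pow_finrank (K := F) (V := K)
    rw [Nat.card_eq_fintype_card, hcard] at h1
    exact (Nat.pow_right_injective (Finite.one_lt_card : 2 ≤ Nat.card F) h1).symm
  have hfix : ∀ a : K, a ^ Nat.card F = a → ∃ c : F, algebraMap F K c = a := by
    have h1 := card_fixed hcard
    let g : F → {x : K // x ^ Nat.card F = x} := fun c => ⟨algebraMap F K c, hbase c⟩
    have hg : Function.Injective g := fun c d hcd => (algebraMap F K).injective (congrArg Subtype.val hcd)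
    have hg' : Function.Bijective g := hg.bijective_of_nat_card_le h1.le
    intro a ha
    obtain ⟨c, hc⟩ := hg'.2 ⟨a, ha⟩
    exact ⟨c, congrArg Subtype.val hc⟩
  have hαq : α ^ Nat.card F = algebraMap F K s - α := by
    have h1 : α ^ Nat.card F * α ^ Nat.card F = algebraMap F K s * α ^ Nat.card F - algebraMap F K t := by
      have h2 : (α * α) ^ Nat.card F = (algebraMap F K s * α - algebraMap F K t) ^ Nat.card F :=
        congrArg (fun a => a ^ Nat.card F) hαα
      rw [mul_pow, sub_pow_q hcard, mul_pow, hbase, hbase] at h2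
      exact h2
    have h2 : (α ^ Nat.card F - α) * (α ^ Nat.card F - (algebraMap F K s - α)) = 0 := by
      linear_combination h1 - hαα
    rcases mul_eq_zero.1 h2 with h3 | h3
    · exfalso
      obtain ⟨c, hc⟩ := hfix α (sub_eq_zero.1 h3)
      apply hirr c
      apply (algebraMap F K).injective
      rw [map_add, map_sub, map_mul, map_mul, hc, map_zero, hαα]
      ring
    · exact sub_eq_zero.1 h3
  refine ⟨K, inferInstance, inferInstance, inferInstance, inferInstance, inferInstance, α,
    ⟨hcard, hfix, hbase, ?_, hQ⟩, hα, hfr, hdec⟩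
  intro a v
  obtain ⟨c, d, rfl⟩ := hdec a
  have h1 : (algebraMap F K c + algebraMap F K d * α) • v = c • v + d • κ v := by
    rw [add_smul, mul_smul, algebraMap_smul, algebraMap_smul, hα]
  rw [h1, add_pow_q hcard, mul_pow, hbase, hbase, hαq, Q_add, QuadraticMap.map_smul, QuadraticMap.map_smul,
    polar_smul_left, polar_smul_right, polar_kappa hκ hirr hQκ, hQκ]
  simp only [smul_eq_mul, map_add, map_mul]
  linear_combination ((algebraMap F K (Q v)) * (algebraMap F K d) * (algebraMap F K d)) * hαα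

variable {F V : Type} [Field F] [Finite F] [AddCommGroup V] [Module F V] [FiniteDimensional F V]
  {Q : QuadraticForm F V} {G Ω : Type} [Group G] [MulAction G Ω] [Finite G] [Nonempty Ω] {N : Subgroup G}
  {ρ : ↥(E Q) →* G}

/-- **box C** : `κ` generates a field with `q ^ 2` elements, `Q (κ v) = t Q v`, all lifts are linear and commute
with `κ`. -/
theorem box_C (hG : Good Q) (hE : Env G Ω N) (hρ : Rep Q N ρ) {p : ℕ} [CharP F p] (hLR : LR Q Ω ρ p) {ι : Type}
    [Finite ι] {x : ι → G} {M : ι → Gam Q} {r : ι → ℕ} (hx : PF x r) (hcov : Cov Ω x) (hl : ∀ i, Lf ρ (x i) (M i))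
    (hlin : ∀ i, IsLin (M i)) (hIH : IH (Nat.card N)) (h6 : 6 ≤ finrank F V)
    (h62 : ¬ (finrank F V = 6 ∧ Nat.card F = 2)) (κ : V →ₗ[F] V) (s t : F)
    (hκ : ∀ v, κ (κ v) = s • κ v - t • v) (hirr : ∀ a : F, a * a - s * a + t ≠ 0) (hQκ : ∀ v, Q (κ v) = t * Q v)
    (hcomm : ∀ i v, (M i).1 (κ v) = κ ((M i).1 v)) : False := by
  obtain ⟨K, _, _, _, _, _, α, hK, hα, hfr, hdec⟩ := exists_HK hG.nondeg κ s t hκ hirr hQκ
  have h1 : finrank F K * finrank K V = finrank F V := Module.finrank_mul_finrank F K V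
  rw [hfr] at h1
  refine no_herm hK hG hE hρ hLR hx hcov hl (by omega) (fun h => h62 ⟨by omega, h.2⟩) ?_ hIH
  intro i a v
  obtain ⟨c, d, rfl⟩ := hdec a
  obtain ⟨σ, c', hM⟩ := (M i).2
  rw [add_smul, mul_smul, algebraMap_smul, algebraMap_smul, hα, hM.add, hlin i, hlin i, hcomm, add_smul, mul_smul,
    algebraMap_smul, algebraMap_smul, hα]

/-- **box C**, statement of the stub file (with `box_LR` as a hypothesis) -/
theorem box_C_of (hG : Good Q) (hE : Env G Ω N) (hρ : Rep Q N ρ) (hIH : IH (Nat.card (P Q)))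
    {p : ℕ} [CharP F p] (hLR : LR Q Ω ρ p) {ι : Type} [Finite ι] {x : ι → G} {M : ι → Gam Q} {r : ι → ℕ}
    (hl : ∀ i, Lf ρ (x i) (M i)) (hlin : ∀ i, IsLin (M i)) (hx : PF x r) (hcov : Cov Ω x)
    (h8 : 8 ≤ Module.finrank F V) (κ : V →ₗ[F] V) (s t : F)
    (hκ : ∀ v, κ (κ v) = s • κ v - t • v) (hirr : ∀ a : F, a * a - s * a + t ≠ 0)
    (hQκ : ∀ v, Q (κ v) = t * Q v) (hcom : ∀ i v, (M i).1 (κ v) = κ ((M i).1 v)) : False := by
  have h1 : Nonempty (P Q ≃* N) := by
    rw [← hρ.range]
    exact ⟨(QuotientGroup.quotientMulEquivOfEq hρ.ker.symm).trans (QuotientGroup.quotientKerEquivRange ρ)⟩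
  obtain ⟨e⟩ := h1
  rw [Nat.card_congr e.toEquiv] at hIH
  exact box_C hG hE hρ hLR hx hcov hl hlin hIH (by omega) (fun h => by omega) κ s t hκ hirr hQκ hcom

end Cfsg.Agent.H338.RC
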