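import Cfsg.Agent.H253.RC.T3Tools
import Cfsg.Agent.H297.RC.LR
import Cfsg.Agent.H587.KB8.Geo

/-!
# S3510, triality type iii (helper338): two dual totally singular planes

`dead_G1_of` : the alternative (G1) is impossible (inputs `BQ` and `ZA` as hypotheses).
-/

set_option autoImplicit false
open Cfsg

namespace Cfsg.Agent.H338.RC.G1

open Module QuadraticMap MulAction
open Cfsg.Agent.LieClassical.OrthCore Cfsg.Agent.LieClassical.OrthTrans
open Cfsg.Agent.LieClassical.OrthSimple Cfsg.Agent.ClassicalGeometry.OrthSemi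
open Cfsg.Agent.ClassicalGeometry.OrthAut1 Cfsg.Agent.H106.RC Cfsg.Agent.H93.RC Cfsg.Agent.H566.RC
open Cfsg.Agent.LieClassical.QuadForms Cfsg.Agent.ClassicalGeometry.TrialityOct
open Cfsg.Agent.ClassicalGeometry.Triality
open Cfsg.Agent.H198.TriBase Cfsg.Agent.H198.TriAut Cfsg.Agent.H206.Balance Cfsg.Agent.H198.TriDia
open Cfsg.Agent.H864.RC

/-! ### Arithmetic -/

theorem exists_prime {q : ℕ} (hq : 2 ≤ q) :
    ∃ l : ℕ, l.Prime ∧ l ≠ 2 ∧ l ≠ 3 ∧ l ∣ q ^ 2 + q + 1 ∧ ¬ l ∣ q ^ 2 - 1 := by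
  obtain ⟨l, hl, h3, hd⟩ : ∃ l : ℕ, l.Prime ∧ l ≠ 3 ∧ l ∣ q ^ 2 + q + 1 := by
    by_contra hcon
    push Not at hcon
    have h1 : ∀ {d : ℕ}, d.Prime → d ∣ q ^ 2 + q + 1 → d = 3 := by
      intro d hd hdd
      by_contra hne
      exact hcon d hd hne hdd
    have h2 := Nat.eq_prime_pow_of_unique_prime_dvd (by positivity) h1
    set k := (q ^ 2 + q + 1).primeFactorsList.length with hk
    have h7 : 7 ≤ q ^ 2 + q + 1 := by nlinarith
    have hk2 : 2 ≤ k := by
      by_contra hlt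
      have : k = 0 ∨ k = 1 := by omega
      rcases this with h | h <;> rw [h] at h2 <;> omega
    have h9 : 9 ∣ q ^ 2 + q + 1 := by
      rw [h2]
      exact pow_dvd_pow 3 hk2
    have h10 : (q ^ 2 + q + 1) % 9 = 0 := Nat.mod_eq_zero_of_dvd h9
    have h11 : q % 9 < 9 := Nat.mod_lt _ (by norm_num)
    rw [Nat.add_mod, Nat.add_mod (q ^ 2), Nat.pow_mod] at h10
    interval_cases (q % 9) <;> omega
  refine ⟨l, hl, ?_, h3, hd, ?_⟩
  · rintro rfl
    have h1 : Even (q * (q + 1)) := Nat.even_mul_succ_self q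
    have h2 : q ^ 2 + q + 1 = q * (q + 1) + 1 := by ring
    rw [h2] at hd
    have h3 : 2 ∣ q * (q + 1) := h1.two_dvd
    have h4 := (Nat.dvd_add_right h3).1 hd
    omega
  · intro h
    have h1 : q ^ 2 - 1 = (q + 1) * (q - 1) := by
      have := Nat.sq_sub_sq q 1
      rwa [one_pow] at this
    rw [h1, hl.dvd_mul] at h
    rcases h with h | h
    · have h2 : q ^ 2 + q + 1 = (q + 1) * q + 1 := by ring
      rw [h2] at hd
      have h4 := (Nat.dvd_add_right (h.mul_right q)).1 hd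
      exact hl.one_lt.ne' (Nat.dvd_one.1 h4)
    · obtain ⟨m, rfl⟩ : ∃ m, q = m + 1 := ⟨q - 1, by omega⟩
      have h5 : m + 1 - 1 = m := by omega
      rw [h5] at h
      have h2 : (m + 1) ^ 2 + (m + 1) + 1 = m * (m + 3) + 3 := by ring
      rw [h2] at hd
      have h4 := (Nat.dvd_add_right (h.mul_right _)).1 hd
      exact h3 ((Nat.prime_dvd_prime_iff_eq hl Nat.prime_three).1 h4)

/-! ### The torus of two dual planes -/

section torus

variable {F V : Type*} [Field F] [AddCommGroup V] [Module F V] {Q : QuadraticForm F V}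

/-- hyperbolic frame -/
structure Fr2 (Q : QuadraticForm F V) (e₁ e₂ f₁ f₂ : V) : Prop where
  s1 : Q e₁ = 0
  s2 : Q e₂ = 0
  t1 : Q f₁ = 0
  t2 : Q f₂ = 0
  ee : polar Q e₁ e₂ = 0
  ff : polar Q f₁ f₂ = 0
  p11 : polar Q e₁ f₁ = 1
  p22 : polar Q e₂ f₂ = 1
  p12 : polar Q e₁ f₂ = 0
  p21 : polar Q e₂ f₁ = 0

variable {e₁ e₂ f₁ f₂ : V}

/-- `z` on `⟨e₁, e₂⟩`, `w` on `⟨f₁, f₂⟩` -/
def DL (Q : QuadraticForm F V) (e₁ e₂ f₁ f₂ : V) (z w : F) : V →ₗ[F] V where
  toFun x := x + ((z - 1) * polar Q x f₁) • e₁ + ((z - 1) * polar Q x f₂) • e₂ +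
    ((w - 1) * polar Q x e₁) • f₁ + ((w - 1) * polar Q x e₂) • f₂
  map_add' x y := by
    simp only [polar_add_left]
    module
  map_smul' a x := by
    simp only [polar_smul_left, RingHom.id_apply, smul_eq_mul]
    module

theorem DL_apply (z w : F) (x : V) : DL Q e₁ e₂ f₁ f₂ z w x =
    x + ((z - 1) * polar Q x f₁) • e₁ + ((z - 1) * polar Q x f₂) • e₂ +
    ((w - 1) * polar Q x e₁) • f₁ + ((w - 1) * polar Q x e₂) • f₂ := rfl

section

variable (h : Fr2 Q e₁ e₂ f₁ f₂)

include h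

theorem DL_f1 (z w : F) (x : V) : polar Q (DL Q e₁ e₂ f₁ f₂ z w x) f₁ = z * polar Q x f₁ := by
  rw [DL_apply]
  simp only [polar_add_left, polar_smul_left, h.p11, h.p21, polar_self_of_sing h.t1, polar_comm Q f₂ f₁, h.ff,
    smul_eq_mul]
  ring

theorem DL_f2 (z w : F) (x : V) : polar Q (DL Q e₁ e₂ f₁ f₂ z w x) f₂ = z * polar Q x f₂ := by
  rw [DL_apply]
  simp only [polar_add_left, polar_smul_left, h.p12, h.p22, polar_self_of_sing h.t2, h.ff, smul_eq_mul]
  ring

theorem DL_e1 (z w : F) (x : V) : polar Q (DL Q e₁ e₂ f₁ f₂ z w x) e₁ = w * polar Q x e₁ := by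
  rw [DL_apply]
  simp only [polar_add_left, polar_smul_left, polar_comm Q f₁ e₁, polar_comm Q f₂ e₁, polar_comm Q e₂ e₁, h.p11, h.p12,
    h.ee, polar_self_of_sing h.s1, smul_eq_mul]
  ring

theorem DL_e2 (z w : F) (x : V) : polar Q (DL Q e₁ e₂ f₁ f₂ z w x) e₂ = w * polar Q x e₂ := by
  rw [DL_apply]
  simp only [polar_add_left, polar_smul_left, polar_comm Q f₁ e₂, polar_comm Q f₂ e₂, h.p21, h.p22, h.ee,
    polar_self_of_sing h.s2, smul_eq_mul]
  ring

theorem DL_mul (z w z' w' : F) (x : V) : DL Q e₁ e₂ f₁ f₂ z w (DL Q e₁ e₂ f₁ f₂ z' w' x) =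
    DL Q e₁ e₂ f₁ f₂ (z * z') (w * w') x := by
  rw [DL_apply z w, DL_f1 h, DL_f2 h, DL_e1 h, DL_e2 h, DL_apply z' w', DL_apply (z * z')]
  module

omit h in
theorem DL_one (x : V) : DL Q e₁ e₂ f₁ f₂ 1 1 x = x := by
  rw [DL_apply]
  simp

theorem DL_Q {z w : F} (hzw : z * w = 1) (x : V) : Q (DL Q e₁ e₂ f₁ f₂ z w x) = Q x := by
  rw [DL_apply]
  simp only [Q_add, QuadraticMap.map_smul, polar_add_left, polar_smul_left, polar_smul_right, h.s1, h.s2, h.t1,
    h.t2, h.ee, h.ff, h.p11, h.p12, h.p21, h.p22, smul_eq_mul]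
  linear_combination (polar Q x f₁ * polar Q x e₁ + polar Q x f₂ * polar Q x e₂) * hzw

end

/-- the torus -/
noncomputable def D (h : Fr2 Q e₁ e₂ f₁ f₂) : Fˣ →* (V ≃ₗ[F] V) where
  toFun z := LinearEquiv.ofLinearMap (DL Q e₁ e₂ f₁ f₂ (z : F) ((z⁻¹ : Fˣ) : F))
    (DL Q e₁ e₂ f₁ f₂ ((z⁻¹ : Fˣ) : F) (z : F))
    (by
      ext x
      rw [LinearMap.comp_apply, DL_mul h, Units.mul_inv, Units.inv_mul, DL_one]
      rfl)
    (by
      ext x
      rw [LinearMap.comp_apply, DL_mul h, Units.mul_inv, Units.inv_mul, DL_one]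
      rfl)
  map_one' := LinearEquiv.ext fun x => by
    change DL Q e₁ e₂ f₁ f₂ ((1 : Fˣ) : F) (((1 : Fˣ)⁻¹ : Fˣ) : F) x = x
    rw [inv_one, Units.val_one, DL_one]
  map_mul' z w := LinearEquiv.ext fun x => by
    change DL Q e₁ e₂ f₁ f₂ ((z * w : Fˣ) : F) (((z * w)⁻¹ : Fˣ) : F) x =
      DL Q e₁ e₂ f₁ f₂ (z : F) ((z⁻¹ : Fˣ) : F) (DL Q e₁ e₂ f₁ f₂ (w : F) ((w⁻¹ : Fˣ) : F) x)
    rw [DL_mul h, mul_inv, Units.val_mul, Units.val_mul]

theorem D_apply (h : Fr2 Q e₁ e₂ f₁ f₂) (z : Fˣ) (x : V) :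
    D h z x = DL Q e₁ e₂ f₁ f₂ (z : F) ((z⁻¹ : Fˣ) : F) x := rfl

theorem D_mem_O (h : Fr2 Q e₁ e₂ f₁ f₂) (z : Fˣ) : D h z ∈ O Q := fun x => by
  rw [D_apply]
  exact DL_Q h (Units.mul_inv z) x

theorem D_perp (h : Fr2 Q e₁ e₂ f₁ f₂) (z : Fˣ) {x : V} (h1 : polar Q x e₁ = 0) (h2 : polar Q x e₂ = 0)
    (h3 : polar Q x f₁ = 0) (h4 : polar Q x f₂ = 0) : D h z x = x := by
  rw [D_apply, DL_apply, h1, h2, h3, h4]
  simp

theorem D_L (h : Fr2 Q e₁ e₂ f₁ f₂) (z : Fˣ) {x : V} (hx : x ∈ Submodule.span F {e₁, e₂}) :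
    D h z x = (z : F) • x := by
  obtain ⟨a, b, rfl⟩ := Submodule.mem_span_pair.1 hx
  rw [D_apply, DL_apply]
  simp only [polar_add_left, polar_smul_left, h.p11, h.p12, h.p21, h.p22, polar_self_of_sing h.s1,
    polar_self_of_sing h.s2, h.ee, polar_comm Q e₂ e₁, smul_eq_mul]
  module

theorem D_L' (h : Fr2 Q e₁ e₂ f₁ f₂) (z : Fˣ) {x : V} (hx : x ∈ Submodule.span F {f₁, f₂}) :
    D h z x = ((z⁻¹ : Fˣ) : F) • x := by
  obtain ⟨a, b, rfl⟩ := Submodule.mem_span_pair.1 hx
  rw [D_apply, DL_apply]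
  simp only [polar_add_left, polar_smul_left, polar_comm Q f₁ e₁, polar_comm Q f₁ e₂, polar_comm Q f₂ e₁,
    polar_comm Q f₂ e₂, h.p11, h.p12, h.p21, h.p22, polar_self_of_sing h.t1, polar_self_of_sing h.t2, h.ff,
    polar_comm Q f₂ f₁, smul_eq_mul]
  module

/-- the decomposition of a vector -/
theorem exists_dec (h : Fr2 Q e₁ e₂ f₁ f₂) (x : V) : ∃ l ∈ Submodule.span F {e₁, e₂}, ∃ m ∈ Submodule.span F {f₁, f₂},
    ∃ w : V, x = l + m + w ∧ polar Q w e₁ = 0 ∧ polar Q w e₂ = 0 ∧ polar Q w f₁ = 0 ∧ polar Q w f₂ = 0 := by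
  refine ⟨polar Q x f₁ • e₁ + polar Q x f₂ • e₂, Submodule.mem_span_pair.2 ⟨_, _, rfl⟩,
    polar Q x e₁ • f₁ + polar Q x e₂ • f₂, Submodule.mem_span_pair.2 ⟨_, _, rfl⟩,
    x - (polar Q x f₁ • e₁ + polar Q x f₂ • e₂) - (polar Q x e₁ • f₁ + polar Q x e₂ • f₂), by abel, ?_, ?_, ?_, ?_⟩ <;>
  simp only [polar_sub_left, polar_add_left, polar_smul_left, polar_comm Q f₁ e₁, polar_comm Q f₁ e₂,
    polar_comm Q f₂ e₁, polar_comm Q f₂ e₂, h.p11, h.p12, h.p21, h.p22, polar_self_of_sing h.t1,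
    polar_self_of_sing h.t2, polar_self_of_sing h.s1, polar_self_of_sing h.s2, h.ff, h.ee, polar_comm Q f₂ f₁,
    polar_comm Q e₂ e₁, smul_eq_mul] <;>
  ring

/-- the torus commutes with the isometries preserving the two planes -/
theorem D_comm (h : Fr2 Q e₁ e₂ f₁ f₂) (z : Fˣ) {g : V ≃ₗ[F] V} (hg : g ∈ O Q)
    (h1 : ∀ x ∈ Submodule.span F {e₁, e₂}, g x ∈ Submodule.span F {e₁, e₂})
    (h2 : ∀ x ∈ Submodule.span F {f₁, f₂}, g x ∈ Submodule.span F {f₁, f₂})
    (h1' : ∀ x ∈ Submodule.span F {e₁, e₂}, ∃ y ∈ Submodule.span F {e₁, e₂}, g y = x)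
    (h2' : ∀ x ∈ Submodule.span F {f₁, f₂}, ∃ y ∈ Submodule.span F {f₁, f₂}, g y = x) :
    D h z * g = g * D h z := by
  apply LinearEquiv.ext
  intro x
  obtain ⟨l, hl, m, hm, w, rfl, w1, w2, w3, w4⟩ := exists_dec h x
  have k1 : ∀ y ∈ Submodule.span F {e₁, e₂}, polar Q w y = 0 := by
    intro y hy
    obtain ⟨a, b, rfl⟩ := Submodule.mem_span_pair.1 hy
    rw [polar_add_right, polar_smul_right, polar_smul_right, w1, w2, smul_zero, smul_zero, add_zero]
  have k2 : ∀ y ∈ Submodule.span F {f₁, f₂}, polar Q w y = 0 := by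
    intro y hy
    obtain ⟨a, b, rfl⟩ := Submodule.mem_span_pair.1 hy
    rw [polar_add_right, polar_smul_right, polar_smul_right, w3, w4, smul_zero, smul_zero, add_zero]
  have k1' : ∀ y ∈ Submodule.span F {e₁, e₂}, polar Q (g w) y = 0 := by
    intro y hy
    obtain ⟨y', hy', rfl⟩ := h1' y hy
    rw [polar_map hg]
    exact k1 y' hy'
  have k2' : ∀ y ∈ Submodule.span F {f₁, f₂}, polar Q (g w) y = 0 := by
    intro y hy
    obtain ⟨y', hy', rfl⟩ := h2' y hy
    rw [polar_map hg]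
    exact k2 y' hy'
  have me1 : e₁ ∈ Submodule.span F {e₁, e₂} := Submodule.subset_span (by simp)
  have me2 : e₂ ∈ Submodule.span F {e₁, e₂} := Submodule.subset_span (by simp)
  have mf1 : f₁ ∈ Submodule.span F {f₁, f₂} := Submodule.subset_span (by simp)
  have mf2 : f₂ ∈ Submodule.span F {f₁, f₂} := Submodule.subset_span (by simp)
  change D h z (g (l + m + w)) = g (D h z (l + m + w))
  rw [map_add, map_add, map_add, map_add, map_add, map_add, map_add, map_add, D_L h z hl, D_L' h z hm,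
    D_perp h z w1 w2 w3 w4, D_L h z (h1 l hl), D_L' h z (h2 m hm),
    D_perp h z (k1' _ me1) (k1' _ me2) (k2' _ mf1) (k2' _ mf2), map_smul, map_smul]

/-- bases of two dual planes -/
theorem exists_fr2 {L L' : Submodule F V} (hL2 : finrank F L = 2) (hL2' : finrank F L' = 2) (hs : ∀ v ∈ L, Q v = 0)
    (hs' : ∀ v ∈ L', Q v = 0) (hd : ∀ v ∈ L, (∀ w ∈ L', polar Q v w = 0) → v = 0) :
    ∃ e₁ e₂ f₁ f₂ : V, Fr2 Q e₁ e₂ f₁ f₂ ∧ L = Submodule.span F {e₁, e₂} ∧ L' = Submodule.span F {f₁, f₂} := by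
  have i1 : FiniteDimensional F L := FiniteDimensional.of_finrank_pos (by omega)
  have i2 : FiniteDimensional F L' := FiniteDimensional.of_finrank_pos (by omega)
  have hts : ∀ {U : Submodule F V}, (∀ v ∈ U, Q v = 0) → ∀ v ∈ U, ∀ w ∈ U, polar Q v w = 0 := by
    intro U hU v hv w hw
    rw [polar, hU _ (U.add_mem hv hw), hU v hv, hU w hw, sub_zero, sub_zero]
  let b := finBasisOfFinrankEq F L' hL2'
  let Φ : L →ₗ[F] Dual F L' :=
    { toFun := fun v => (polarBilin Q v.1).comp L'.subtype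
      map_add' := fun v w => by
        ext x
        change polar Q (v.1 + w.1) x.1 = polar Q v.1 x.1 + polar Q w.1 x.1
        rw [polar_add_left]
      map_smul' := fun a v => by
        ext x
        change polar Q (a • v.1) x.1 = a • polar Q v.1 x.1
        rw [polar_smul_left] }
  have hΦ : ∀ v x, Φ v x = polar Q v.1 x.1 := fun _ _ => rfl
  have hinj : Function.Injective Φ := by
    rw [injective_iff_map_eq_zero]
    intro v hv
    apply Subtype.ext
    apply hd v.1 v.2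
    intro w hw
    rw [← hΦ v ⟨w, hw⟩, hv, LinearMap.zero_apply]
  have hsur : Function.Surjective Φ := by
    have h1 : finrank F L = finrank F (Dual F L') := by rw [Subspace.dual_finrank_eq, hL2, hL2']
    exact (LinearMap.injective_iff_surjective_of_finrank_eq_finrank h1).1 hinj
  obtain ⟨e₁, he₁⟩ := hsur (b.coord 0)
  obtain ⟨e₂, he₂⟩ := hsur (b.coord 1)
  have p11 : polar Q e₁.1 (b 0).1 = 1 := by rw [← hΦ, he₁]; simp
  have p12 : polar Q e₁.1 (b 1).1 = 0 := by rw [← hΦ, he₁]; simp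
  have p21 : polar Q e₂.1 (b 0).1 = 0 := by rw [← hΦ, he₂]; simp
  have p22 : polar Q e₂.1 (b 1).1 = 1 := by rw [← hΦ, he₂]; simp
  refine ⟨e₁, e₂, b 0, b 1, ⟨hs _ e₁.2, hs _ e₂.2, hs' _ (b 0).2, hs' _ (b 1).2, hts hs _ e₁.2 _ e₂.2,
    hts hs' _ (b 0).2 _ (b 1).2, p11, p22, p12, p21⟩, ?_, ?_⟩
  · symm
    apply Submodule.eq_of_le_of_finrank_eq
    · rw [Submodule.span_le]
      rintro x (rfl | rfl)
      · exact e₁.2
      · exact e₂.2
    · rw [hL2]
      have hli : LinearIndependent F ![e₁.1, e₂.1] := by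
        rw [LinearIndependent.pair_iff]
        intro s t hst
        have h1 := congrArg (fun x => polar Q x (b 0).1) hst
        have h2 := congrArg (fun x => polar Q x (b 1).1) hst
        beta_reduce at h1 h2
        rw [polar_add_left, polar_smul_left, polar_smul_left, p11, p21, polar_zero_left] at h1
        rw [polar_add_left, polar_smul_left, polar_smul_left, p12, p22, polar_zero_left] at h2
        exact ⟨by simpa using h1, by simpa using h2⟩
      have h3 := finrank_span_eq_card hli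
      rw [Matrix.range_cons, Matrix.range_cons, Matrix.range_empty, Set.union_empty, Set.singleton_union] at h3
      rw [h3]
      rfl
  · symm
    apply Submodule.eq_of_le_of_finrank_eq
    · rw [Submodule.span_le]
      rintro x (rfl | rfl)
      · exact (b 0).2
      · exact (b 1).2
    · rw [hL2']
      have hli : LinearIndependent F ![(b 0).1, (b 1).1] := by
        rw [LinearIndependent.pair_iff]
        intro s t hst
        have h1 := congrArg (fun x => polar Q e₁.1 x) hst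
        have h2 := congrArg (fun x => polar Q e₂.1 x) hst
        beta_reduce at h1 h2
        rw [polar_add_right, polar_smul_right, polar_smul_right, p11, p12, polar_zero_right] at h1
        rw [polar_add_right, polar_smul_right, polar_smul_right, p21, p22, polar_zero_right] at h2
        exact ⟨by simpa using h1, by simpa using h2⟩
      have h3 := finrank_span_eq_card hli
      rw [Matrix.range_cons, Matrix.range_cons, Matrix.range_empty, Set.union_empty, Set.singleton_union] at h3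
      rw [h3]
      rfl

/-- an injective linear map preserving a finite-dimensional subspace is onto it -/
theorem exists_pre [FiniteDimensional F V] {g : V ≃ₗ[F] V} {U : Submodule F V} (hg : ∀ x ∈ U, g x ∈ U) :
    ∀ x ∈ U, ∃ y ∈ U, g y = x := by
  intro x hx
  have h1 : Function.Injective ((g : V →ₗ[F] V).restrict hg) := by
    intro a b hab
    exact Subtype.ext (g.injective (congrArg Subtype.val hab))
  obtain ⟨y, hy⟩ := LinearMap.injective_iff_surjective.1 h1 ⟨x, hx⟩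
  exact ⟨y.1, y.2, congrArg Subtype.val hy⟩

end torus

/-! ### The death -/

section dead

variable {F : Type} [Field F] {G Ω ι : Type} [Group G] [MulAction G Ω] {N : Subgroup G} {hG : Good (plusForm 4 F)}
  {κ : P8 F →* G} {s : F ≃+* F} {x₁ : G} {x : ι → G} {r : ι → ℕ} {g : ι → (V8 F ≃ₗ[F] V8 F)}

/-- `{t} ∪ {y} ∪ {x i}`, everything preserving the plane `L` -/
theorem T3_lr [Finite F] [Finite G] [Finite ι] [Nonempty Ω] {p : ℕ} [CharP F p] (h : T3 hG N κ s Ω x₁ x r g)
    (hrp : ∀ i, r i ≠ p) {L : Submodule F (V8 F)} (h2 : finrank F L = 2) (hs : ∀ v ∈ L, plusForm 4 F v = 0)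
    (hinv : ∀ i, ∀ v ∈ L, g i v ∈ L) {l : ℕ} (hl : l.Prime) (hl2 : l ≠ 2) (hlp : l ≠ p)
    (c : ↥(E (plusForm 4 F))) (hcl : (c : V8 F ≃ₗ[F] V8 F) ^ l = 1) (hc1 : (c : V8 F ≃ₗ[F] V8 F) ≠ 1)
    (hcc : ∀ i, (c : V8 F ≃ₗ[F] V8 F) * g i = g i * c) (hcL : ∀ v ∈ L, (c : V8 F ≃ₗ[F] V8 F) v ∈ L)
    (hcov : ∀ ω : Ω, up κ c • ω = ω ∨ ∃ i, x i • ω = ω) : False := by
  have hfin : FiniteDimensional F L := FiniteDimensional.of_finrank_pos (by omega)
  let b := finBasisOfFinrankEq F L h2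
  have hts : ∀ v ∈ L, ∀ w ∈ L, polar (plusForm 4 F) v w = 0 := by
    intro v hv w hw
    rw [polar, hs _ (L.add_mem hv hw), hs v hv, hs w hw, sub_zero, sub_zero]
  have hli : LinearIndependent F ![(b 0).1, (b 1).1] := by
    rw [LinearIndependent.pair_iff]
    intro s t hst
    have h3 := b.linearIndependent
    rw [Fintype.linearIndependent_iff] at h3
    have h4 := h3 ![s, t] (by
      rw [Fin.sum_univ_two]
      exact Subtype.ext hst)
    exact ⟨h4 0, h4 1⟩
  have hspan : Submodule.span F {(b 0).1, (b 1).1} = L := by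
    apply Submodule.eq_of_le_of_finrank_eq
    · rw [Submodule.span_le]
      rintro x (rfl | rfl)
      · exact (b 0).2
      · exact (b 1).2
    · rw [h2]
      have h3 := finrank_span_eq_card hli
      rw [Matrix.range_cons, Matrix.range_cons, Matrix.range_empty, Set.union_empty, Set.singleton_union] at h3
      rw [h3]
      rfl
  have hodd : Odd l := hl.odd_of_ne_two hl2
  have hker : ∀ {d : ↥(E (plusForm 4 F))}, up κ d = 1 → ∃ a : F, ∀ v, (d : V8 F ≃ₗ[F] V8 F) v = a • v := by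
    intro d hd
    have h3 : d ∈ (up κ).ker := hd
    rw [h.rp.rep.ker] at h3
    exact center_scalar hG h3
  have hy1 : up κ c ≠ 1 := by
    intro hc
    obtain ⟨a, ha⟩ := hker hc
    have h3 : a * a = 1 := by
      have h4 := E_le_O c.2 (one8 F)
      rw [ha, QuadraticMap.map_smul, norm_one8, smul_eq_mul, mul_one] at h4
      exact h4
    have h4 : ∀ v, ((c : V8 F ≃ₗ[F] V8 F) ^ l) v = a ^ l • v := by
      intro v
      have := pow_of_smul (f := (c : V8 F ≃ₗ[F] V8 F)) (k := 1) (e := a) ha l v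
      rw [one_pow] at this
      exact this
    have h5 : a ^ l = 1 := by
      have h6 := h4 (one8 F)
      rw [hcl] at h6
      have h7 : (1 - a ^ l) • one8 F = 0 := by
        rw [sub_smul, one_smul, ← h6]
        exact sub_self _
      rcases smul_eq_zero.1 h7 with h8 | h8
      · exact (sub_eq_zero.1 h8).symm
      · exfalso
        have := norm_one8 (F := F)
        rw [h8, QuadraticMap.map_zero] at this
        exact zero_ne_one this
    have h6 := eq_one_of_odd h3 hodd h5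
    apply hc1
    apply LinearEquiv.ext
    intro v
    rw [ha, h6, one_smul]
    rfl
  refine H297.RC.box_LR (Q := plusForm 4 F) (Ω := Ω) hG h.env h.rp.rep (p := p) (ι := Option ι)
    (y := fun o => o.elim (up κ c) x)
    (M := fun o => o.elim (tg _ c) (fun i => tg _ ⟨g i, (h.mem i).1⟩)) (r := fun o => o.elim l r)
    ?_ ?_ ?_ ?_ ?_ ?_ (u := (b 0).1) (w := (b 1).1) (hs _ (b 0).2) (hs _ (b 1).2) (hts _ (b 0).2 _ (b 1).2) ?_ ?_ ?_ ?_
  · rintro (_ | i)
    · exact Lf.tg c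
    · change Lf (up κ) (x i) (tg _ ⟨g i, (h.mem i).1⟩)
      rw [h.x_eq]
      exact Lf.tg _
  · rintro (_ | i)
    · exact hl
    · exact h.prime i
  · rintro (_ | i)
    · exact hlp
    · exact hrp i
  · rintro (_ | i)
    · change up κ c ^ l = 1
      rw [← map_pow]
      have : c ^ l = 1 := Subtype.ext (by rw [Subgroup.coe_pow]; exact hcl)
      rw [this, map_one]
    · exact h.x_pow i
  · rintro (_ | i)
    · exact hy1
    · exact h.x_ne i
  · have hcx : ∀ i, up κ c * x i = x i * up κ c := by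
      intro i
      rw [h.x_eq, ← map_mul, ← map_mul]
      congr 1
      exact Subtype.ext (hcc i)
    rintro (_ | i) (_ | j)
    · rfl
    · exact hcx j
    · exact (hcx i).symm
    · exact h.x_comm i j
  · intro h0
    have := hli.ne_zero 0
    exact this h0
  · intro a ha
    have h3 := LinearIndependent.pair_iff.1 hli a (-1) (by
      rw [ha, neg_smul, one_smul, add_neg_cancel])
    exact neg_ne_zero.2 one_ne_zero h3.2
  · rintro (_ | i) v hv
    · rw [hspan] at hv ⊢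
      exact hcL v hv
    · rw [hspan] at hv ⊢
      exact hinv i v hv
  · intro ω
    right
    rcases hcov ω with h3 | ⟨i, h3⟩
    · exact ⟨none, h3⟩
    · exact ⟨some i, h3⟩

/-- two dual totally singular planes; `BQ`, `ZA` as hypotheses -/
theorem dead_G1_of [Finite F] [Finite G] [Finite ι] [Nonempty Ω] {p : ℕ} [CharP F p] (h : T3 hG N κ s Ω x₁ x r g)
    (hBQ : ∃ q0 : ℕ, 2 ≤ q0 ∧ Nat.card F = q0 ^ 3)
    (hZA : ∀ {q0 : ℕ} (_ : Nat.card F = q0 ^ 3) {c : V8 F ≃ₗ[F] V8 F} (_ : c ∈ AutD (fG s)) {l : ℕ} (_ : l.Prime)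
      (_ : l ∣ Nat.card F ^ 2 - 1) (_ : ¬ l ∣ q0 ^ 2 - 1) (_ : c ^ l = 1) (_ : c ≠ 1),
      finrank F (Eg c 1) = 0 ∨ finrank F (Eg c 1) = 2)
    (hN : NoN Ω N) (hrp : ∀ i, r i ≠ p) {L L' : Submodule F (V8 F)} (hL : G1 g L L') : False := by
  obtain ⟨q0, hq0, hq⟩ := hBQ
  obtain ⟨l, hl, hl2, hl3, hld, hln⟩ := exists_prime hq0
  have hpF := Fact.mk (CharP.char_is_prime F p)
  have hlF := Fact.mk hl
  have hodd : Odd l := hl.odd_of_ne_two hl2
  -- `l` divides `q - 1`
  have hq1 : l ∣ Nat.card F - 1 := by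
    refine hld.trans ⟨q0 - 1, ?_⟩
    obtain ⟨m, rfl⟩ : ∃ m, q0 = m + 1 := ⟨q0 - 1, by omega⟩
    rw [hq]
    have e1 : (m + 1) ^ 3 = ((m + 1) ^ 2 + (m + 1) + 1) * m + 1 := by ring
    have e2 : m + 1 - 1 = m := by omega
    rw [e1, e2]
    omega
  have hq2 : l ∣ Nat.card F ^ 2 - 1 := by
    have h1 : Nat.card F ^ 2 - 1 = (Nat.card F + 1) * (Nat.card F - 1) := by
      have := Nat.sq_sub_sq (Nat.card F) 1
      rwa [one_pow] at this
    rw [h1]
    exact hq1.mul_left _
  -- an element of order `l`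
  obtain ⟨z, hz⟩ : ∃ z : Fˣ, orderOf z = l := by
    apply exists_prime_orderOf_dvd_card'
    rw [Nat.card_units]
    exact hq1
  have hz1 : z ≠ 1 := by
    rintro rfl
    rw [orderOf_one] at hz
    exact hl.one_lt.ne hz
  have hzl : z ^ l = 1 := by rw [← hz]; exact pow_orderOf_eq_one z
  have hlp : l ≠ p := by
    rintro rfl
    apply hz1
    apply Units.ext
    have h1 : ((z : F) - 1) ^ l = 0 := by
      rw [sub_pow_char, one_pow, ← Units.val_pow_eq_pow_val, hzl, Units.val_one, sub_self]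
    exact sub_eq_zero.1 (pow_eq_zero_iff hl.ne_zero |>.1 h1)
  have hlF0 : (l : F) ≠ 0 := by
    intro h1
    rw [CharP.cast_eq_zero_iff F p] at h1
    exact hlp ((Nat.prime_dvd_prime_iff_eq hpF.out hl).1 h1).symm
  -- the torus element
  obtain ⟨e₁, e₂, f₁, f₂, hF, hLe, hLf⟩ := exists_fr2 hL.two hL.two' hL.sing hL.sing' hL.dual
  have hinv1 : ∀ i, ∀ v ∈ Submodule.span F {e₁, e₂}, g i v ∈ Submodule.span F {e₁, e₂} := by
    intro i
    rw [← hLe]
    exact hL.inv i
  have hinv2 : ∀ i, ∀ v ∈ Submodule.span F {f₁, f₂}, g i v ∈ Submodule.span F {f₁, f₂} := by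
    intro i
    rw [← hLf]
    exact hL.inv' i
  set c := D hF z with hc
  have hcl : c ^ l = 1 := by rw [hc, ← map_pow, hzl, map_one]
  have hcE : c ∈ E (plusForm 4 F) := H587.KB8.mem_E_of_odd hG (D_mem_O hF z) hodd hcl
  have hcg : ∀ i, c * g i = g i * c := fun i => D_comm hF z (E_le_O (h.mem i).1) (hinv1 i) (hinv2 i)
    (exists_pre (hinv1 i)) (exists_pre (hinv2 i))
  have hc1 : c ≠ 1 := by
    intro h1
    have h2 := D_L hF z (x := e₁) (Submodule.subset_span (by simp))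
    rw [← hc, h1] at h2
    have h3 : ((z : F) - 1) • e₁ = 0 := by rw [sub_smul, one_smul, ← h2]; exact sub_self _
    rcases smul_eq_zero.1 h3 with h4 | h4
    · exact hz1 (Units.ext (sub_eq_zero.1 h4))
    · have h5 := hF.p11
      rw [h4, polar_zero_left] at h5
      exact zero_ne_one h5
  -- the fixed space of `c` has dimension at least four
  have hfix : 4 ≤ finrank F (Eg c 1) := by
    let W : Submodule F (V8 F) := Submodule.span F {e₁, e₂} ⊔ Submodule.span F {f₁, f₂}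
    have h1 : finrank F W ≤ 4 := by
      have h2 := Submodule.finrank_add_le_finrank_add_finrank (Submodule.span F {e₁, e₂}) (Submodule.span F {f₁, f₂})
      have h3 := H297.RC.finrank_pair_le (F := F) e₁ e₂
      have h4 := H297.RC.finrank_pair_le (F := F) f₁ f₂
      exact h2.trans (by omega)
    have h8 : finrank F (V8 F) = 8 := by simp
    have h2 : finrank F ↥(LinearMap.BilinForm.orthogonal (polarBilin (plusForm 4 F)) W) = 8 - finrank F W := by
      rw [← h8]
      exact LinearMap.BilinForm.finrank_orthogonal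
        (ClassicalGeometry.TrialitySpaces.polarBilin_nondegenerate (F := F)) W
    have h3 : LinearMap.BilinForm.orthogonal (polarBilin (plusForm 4 F)) W ≤ Eg c 1 := by
      intro v hv
      rw [LinearMap.BilinForm.mem_orthogonal_iff] at hv
      have hv' : ∀ w ∈ W, polar (plusForm 4 F) v w = 0 := fun w hw => by
        rw [polar_comm]; exact hv w hw
      have hl : ∀ w ∈ Submodule.span F {e₁, e₂}, w ∈ W := fun w hw => Submodule.mem_sup_left hw
      have hr : ∀ w ∈ Submodule.span F {f₁, f₂}, w ∈ W := fun w hw => Submodule.mem_sup_right hw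
      rw [Module.End.mem_eigenspace_iff, one_smul]
      exact D_perp hF z (hv' _ (hl _ (Submodule.subset_span (by simp)))) (hv' _ (hl _ (Submodule.subset_span (by simp))))
        (hv' _ (hr _ (Submodule.subset_span (by simp)))) (hv' _ (hr _ (Submodule.subset_span (by simp))))
    have h4 : finrank F ↥(LinearMap.BilinForm.orthogonal (polarBilin (plusForm 4 F)) W) ≤ finrank F (Eg c 1) :=
      Submodule.finrank_mono h3
    have h5 : 4 ≤ 8 - finrank F W := by omega
    exact h5.trans (h2 ▸ h4)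
  -- `l` divides the order of `[C, x₁]`
  have hdvd : l ∣ Nat.card (comC (CN N x) x₁) := by
    by_contra hlD
    obtain ⟨d, hdE, hd⟩ := h.kl_lin hN hl hlD (fun h => absurd h hl2) (Subgroup.zpowers c)
      (by
        rintro ⟨a, ha⟩
        obtain ⟨n, rfl⟩ := Subgroup.mem_zpowers_iff.1 ha
        refine ⟨1, Subtype.ext ?_⟩
        rw [pow_one, Subgroup.coe_pow, Subgroup.coe_one]
        change (c ^ n) ^ l = 1
        rw [← zpow_natCast, ← zpow_mul, mul_comm, zpow_mul, zpow_natCast, hcl, one_zpow])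
      (by rw [Subgroup.zpowers_le]; exact hcE)
      (by
        intro a ha i
        obtain ⟨n, rfl⟩ := Subgroup.mem_zpowers_iff.1 ha
        exact ((show Commute c (g i) from hcg i).zpow_left n).eq)
    have hdc := hd c (Subgroup.mem_zpowers c)
    have h1 : (d * c * d⁻¹) ^ l = 1 := by rw [conj_pow, hcl, mul_one, mul_inv_cancel]
    have h2 : d * c * d⁻¹ ≠ 1 := by
      intro h3
      apply hc1
      have : c = d⁻¹ * (d * c * d⁻¹) * d := by group
      rw [this, h3]; group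
    have h3 := hZA hq hdc hl hq2 hln h1 h2
    -- dimension of the fixed space of the conjugate
    have h4 : (Eg c 1).map (d : V8 F →ₗ[F] V8 F) ≤ Eg (d * c * d⁻¹) 1 := by
      rintro _ ⟨v, hv, rfl⟩
      have hv' : c v = (1 : F) • v := Module.End.mem_eigenspace_iff.1 hv
      rw [one_smul] at hv'
      rw [Module.End.mem_eigenspace_iff, one_smul]
      change d (c (d.symm (d v))) = d v
      rw [LinearEquiv.symm_apply_apply, hv']
    have h5 : finrank F ↥((Eg c 1).map (d : V8 F →ₗ[F] V8 F)) ≤ finrank F (Eg (d * c * d⁻¹) 1) :=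
      Submodule.finrank_mono h4
    have h6 : finrank F ↥((Eg c 1).map (d : V8 F →ₗ[F] V8 F)) = finrank F (Eg c 1) := LinearEquiv.finrank_map_eq d _
    have h7 : 4 ≤ finrank F (Eg (d * c * d⁻¹) 1) := hfix.trans (h6 ▸ h5)
    rcases h3 with h3 | h3
    · rw [h3] at h7
      omega
    · rw [h3] at h7
      omega
  obtain ⟨y, hyl, hy1, hyc, hyD⟩ := h.cauchy hl hl2 hdvd
  exact T3_lr h hrp hL.two hL.sing hL.inv hl hl2 hlp y hyl hy1 hyc (hL.pres y y.2 hyc l hl hl2 hlF0 hyl) (h.mv hyD)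

end dead

end Cfsg.Agent.H338.RC.G1
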