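import Cfsg.Agent.H338.RC.DeadG1
import Cfsg.Agent.H393.RC.TriZ9

/-!
# S3510, triality type iii (helper338): `dead_G1`
-/

set_option autoImplicit false
open Cfsg

namespace Cfsg.Agent.H338.RC

open Module QuadraticMap MulAction
open Cfsg.Agent.LieClassical.OrthCore Cfsg.Agent.LieClassical.OrthTrans
open Cfsg.Agent.LieClassical.OrthSimple Cfsg.Agent.LieClassical.QuadForms
open Cfsg.Agent.ClassicalGeometry.Triality Cfsg.Agent.H106.RC Cfsg.Agent.H93.RC Cfsg.Agent.H566.RC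
open Cfsg.Agent.H198.TriAut Cfsg.Agent.H864.RC

/-- two dual totally singular planes -/
theorem dead_G1 {F : Type} [Field F] {G Ω ι : Type} [Group G] [MulAction G Ω] {N : Subgroup G}
    {hG : Good (plusForm 4 F)} {κ : P8 F →* G} {s : F ≃+* F} {x₁ : G} {x : ι → G} {r : ι → ℕ}
    {g : ι → (V8 F ≃ₗ[F] V8 F)} [Finite F] [Finite G] [Finite ι] [Nonempty Ω] {p : ℕ} [CharP F p]
    (h : T3 hG N κ s Ω x₁ x r g) (hN : NoN Ω N) (hrp : ∀ i, r i ≠ p) {L L' : Submodule F (V8 F)}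
    (hL : H864.RC.G1 g L L') : False := by
  obtain ⟨q0, h2, hq, -⟩ := H256.RC.BQ h.cube h.ne
  exact G1.dead_G1_of h ⟨q0, h2, hq⟩
    (fun hq c hc l hl h1 h2 hcl hc1 => H393.TZ.ZA h.cube h.ne hq hc hl h1 h2 hcl hc1) hN hrp hL

end Cfsg.Agent.H338.RC
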