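import Cfsg.Agent.H338.RC.N2
import Cfsg.Agent.H338.RC.HermM
import Cfsg.Agent.H253.RC.T3Tools
import Cfsg.Agent.H499.RC.ZU

/-!
# S3510, triality type iii, MIXED (helper338): abstract end

`m_end` : `φ : X → E Q` quasisimple classical, commuting with the member `g i` of odd order and containing the
commutators of the centraliser of `g i`, with a one-parameter group `1 + t Y`: contradiction.
-/

set_option autoImplicit false
open Cfsg

namespace Cfsg.Agent.H338.RC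

open Module QuadraticMap MulAction
open Cfsg.Agent.LieClassical.OrthCore Cfsg.Agent.LieClassical.OrthTrans
open Cfsg.Agent.LieClassical.OrthSimple Cfsg.Agent.ClassicalGeometry.OrthSemi
open Cfsg.Agent.ClassicalGeometry.OrthAut1 Cfsg.Agent.H106.RC Cfsg.Agent.H93.RC Cfsg.Agent.H566.RC
open Cfsg.Agent.LieClassical.QuadForms Cfsg.Agent.ClassicalGeometry.TrialityOct
open Cfsg.Agent.ClassicalGeometry.Triality Cfsg.Agent.ClassicalGeometry.TrialitySpaces
open Cfsg.Agent.H198.TriBase Cfsg.Agent.H198.TriAut Cfsg.Agent.H206.Balance Cfsg.Agent.H198.TriDia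
open Cfsg.Agent.H864.RC
open scoped commutatorElement

variable {F : Type} [Field F] {G Ω ι : Type} [Group G] [MulAction G Ω] {N : Subgroup G}
    {hG : Good (plusForm 4 F)} {κ : P8 F →* G} {s : F ≃+* F} {x₁ : G} {x : ι → G} {r : ι → ℕ}
    {g : ι → (V8 F ≃ₗ[F] V8 F)}

/-- commuting in `P8` with an element of odd order -/
theorem comm_lift (h : T3 hG N κ s Ω x₁ x r g) (i : ι) (hodd : r i ≠ 2) (c : ↥(E (plusForm 4 F)))
    (hc : up κ c * x i = x i * up κ c) : (c : V8 F ≃ₗ[F] V8 F) * g i = g i * c := by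
  have hr : Odd (r i) := (h.prime i).odd_of_ne_two hodd
  let g' : ↥(E (plusForm 4 F)) := ⟨g i, (h.mem i).1⟩
  have h1 : ((c * g' : ↥(E (plusForm 4 F))) : P8 F) = ((g' * c : ↥(E (plusForm 4 F))) : P8 F) := by
    apply h.up_eq
    rw [h.x_eq] at hc
    rw [map_mul (up κ) g' c, map_mul (up κ) c g']
    exact hc
  obtain ⟨e, he, hev⟩ := sign_of_mk_eq hG h1
  have h2 : ∀ v, g i ((c : V8 F ≃ₗ[F] V8 F) v) = e • (c : V8 F ≃ₗ[F] V8 F) (g i v) := hev
  have h3 : ∀ (n : ℕ) (v : V8 F), (g i ^ n) ((c : V8 F ≃ₗ[F] V8 F) v) = e ^ n • (c : V8 F ≃ₗ[F] V8 F) ((g i ^ n) v) := by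
    intro n
    induction n with
    | zero => intro v; rw [pow_zero, pow_zero, one_smul]; rfl
    | succ n ih =>
      intro v
      rw [pow_succ, LinearEquiv.mul_apply, h2, map_smul, ih, smul_smul, pow_succ', LinearEquiv.mul_apply]
  have h5 := h3 (r i) ((c : V8 F ≃ₗ[F] V8 F).symm (one8 F))
  rw [h.pow i] at h5
  have h7 : one8 F = e ^ r i • one8 F := by
    have h8 : (c : V8 F ≃ₗ[F] V8 F) ((c : V8 F ≃ₗ[F] V8 F).symm (one8 F)) =
      e ^ r i • (c : V8 F ≃ₗ[F] V8 F) ((c : V8 F ≃ₗ[F] V8 F).symm (one8 F)) := h5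
    rwa [LinearEquiv.apply_symm_apply] at h8
  have e8 : (1 - e ^ r i) • one8 F = 0 := by rw [sub_smul, one_smul, ← h7, sub_self]
  have e9 : one8 F ≠ 0 := fun h0 => by
    have h6 := norm_one8 (F := F)
    rw [h0, QuadraticMap.map_zero] at h6
    exact zero_ne_one h6
  have e10 := (smul_eq_zero.1 e8).resolve_right e9
  have he1 : e = 1 := eq_one_of_odd he hr (sub_eq_zero.1 e10).symm
  apply LinearEquiv.ext
  intro v
  have h9 := h2 v
  rw [he1, one_smul] at h9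
  exact h9.symm

variable {X : Type} [Group X]

theorem conj_range (h : T3 hG N κ s Ω x₁ x r g) (i : ι) (hodd : r i ≠ 2) (hperf : commutator X = ⊤)
    (φ : X →* ↥(E (plusForm 4 F)))
    (hcomm : ∀ s, ((φ s : ↥(E (plusForm 4 F))) : V8 F ≃ₗ[F] V8 F) * g i = g i * (φ s : V8 F ≃ₗ[F] V8 F))
    (hder : ∀ a b : ↥(E (plusForm 4 F)), (a : V8 F ≃ₗ[F] V8 F) * g i = g i * a →
      (b : V8 F ≃ₗ[F] V8 F) * g i = g i * b → ⁅a, b⁆ ∈ φ.range) {y : G} (hy : y * x i = x i * y) :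
    ∀ m ∈ ((up κ).comp φ).range, y * m * y⁻¹ ∈ ((up κ).comp φ).range := by
  have hNn : N.Normal := h.env.norm
  -- the conjugate of `μ a`
  have key : ∀ a : X, ∃ a' : ↥(E (plusForm 4 F)), up κ a' = y * up κ (φ a) * y⁻¹ ∧
      (a' : V8 F ≃ₗ[F] V8 F) * g i = g i * a' := by
    intro a
    obtain ⟨a', ha'⟩ := h.exists_up (hNn.conj_mem _ (h.up_mem (φ a)) y)
    refine ⟨a', ha', comm_lift h i hodd a' ?_⟩
    have h1 : up κ (φ a) * x i = x i * up κ (φ a) := by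
      rw [h.x_eq, ← map_mul, ← map_mul]
      congr 1
      exact Subtype.ext (hcomm a)
    have hy' : y⁻¹ * x i = x i * y⁻¹ := by
      rw [inv_mul_eq_iff_eq_mul, ← mul_assoc, hy, mul_inv_cancel_right]
    rw [ha']
    calc y * up κ (φ a) * y⁻¹ * x i = y * up κ (φ a) * (y⁻¹ * x i) := by group
      _ = y * (up κ (φ a) * x i) * y⁻¹ := by rw [hy']; group
      _ = (y * x i) * up κ (φ a) * y⁻¹ := by rw [h1]; group
      _ = _ := by rw [hy]; group
  let T : Subgroup X := (((up κ).comp φ).range).comap ((MulAut.conj y).toMonoidHom.comp ((up κ).comp φ))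
  have hT : commutator X ≤ T := by
    rw [commutator_def, Subgroup.commutator_le]
    intro a _ b _
    obtain ⟨a', ha, ha2⟩ := key a
    obtain ⟨b', hb, hb2⟩ := key b
    obtain ⟨t, ht⟩ := hder a' b' ha2 hb2
    refine ⟨t, ?_⟩
    change up κ (φ t) = y * up κ (φ ⁅a, b⁆) * y⁻¹
    rw [ht, commutatorElement_def, commutatorElement_def, map_mul, map_mul, map_mul, map_inv, map_inv, ha, hb]
    simp only [map_mul, map_inv]
    group
  rintro _ ⟨a, rfl⟩
  have h1 : a ∈ T := hT (by rw [hperf]; trivial)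
  exact h1

theorem not_cent [Finite F] (h : T3 hG N κ s Ω x₁ x r g) (hperf : commutator X = ⊤)
    (φ : X →* ↥(E (plusForm 4 F)))
    (hone : ∃ Y : V8 F →ₗ[F] V8 F, Y ≠ 0 ∧ ∀ t : F, ∃ s, ∀ v, (φ s : V8 F ≃ₗ[F] V8 F) v = v + t • Y v) :
    ∃ m ∈ ((up κ).comp φ).range, x₁ * m ≠ m * x₁ := by
  by_contra hcon
  push Not at hcon
  have key : ∀ a : X, ∃ c : ↥(E (plusForm 4 F)), c⁻¹ * φ a ∈ Subgroup.center ↥(E (plusForm 4 F)) ∧
      (c : V8 F ≃ₗ[F] V8 F) ∈ AutD (fG s) := by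
    intro a
    obtain ⟨c, hc, hcD⟩ := h.mem_of_comm (φ a) (hcon _ ⟨a, rfl⟩)
    exact ⟨c, QuotientGroup.eq.1 hc, hcD⟩
  let T : Subgroup X := (((AutD (fG s)).subgroupOf (E (plusForm 4 F)))).comap φ
  have hT : commutator X ≤ T := by
    rw [commutator_def, Subgroup.commutator_le]
    intro a _ b _
    obtain ⟨c, hc, hcD⟩ := key a
    obtain ⟨d, hd, hdD⟩ := key b
    have h1 : φ ⁅a, b⁆ = ⁅c, d⁆ := by
      have e1 : φ a = c * (c⁻¹ * φ a) := by group
      have e2 : φ b = d * (d⁻¹ * φ b) := by group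
      rw [map_commutatorElement, e1, e2]
      set z := c⁻¹ * φ a with hz
      set w := d⁻¹ * φ b with hw
      rw [Subgroup.mem_center_iff] at hc hd
      rw [commutatorElement_def, commutatorElement_def]
      have f1 : c * z * (d * w) * (c * z)⁻¹ * (d * w)⁻¹ = c * (z * d) * (w * z⁻¹) * c⁻¹ * (w⁻¹ * d⁻¹) := by group
      rw [f1, ← hc d]
      have f2 : c * (d * z) * (w * z⁻¹) * c⁻¹ * (w⁻¹ * d⁻¹) = c * d * (z * w * z⁻¹) * c⁻¹ * w⁻¹ * d⁻¹ := by group
      rw [f2, hd z, mul_inv_cancel_right]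
      have f3 : c * d * w * c⁻¹ * w⁻¹ * d⁻¹ = c * d * (w * c⁻¹) * w⁻¹ * d⁻¹ := by group
      rw [f3, ← hd c⁻¹]
      group
    change ((φ ⁅a, b⁆ : ↥(E (plusForm 4 F))) : V8 F ≃ₗ[F] V8 F) ∈ AutD (fG s)
    rw [h1]
    have h2 : ((⁅c, d⁆ : ↥(E (plusForm 4 F))) : V8 F ≃ₗ[F] V8 F) = (c : V8 F ≃ₗ[F] V8 F) * d * (c : V8 F ≃ₗ[F] V8 F)⁻¹ *
      (d : V8 F ≃ₗ[F] V8 F)⁻¹ := rfl
    rw [h2]
    exact (AutD (fG s)).mul_mem ((AutD (fG s)).mul_mem ((AutD (fG s)).mul_mem hcD hdD) ((AutD (fG s)).inv_mem hcD))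
      ((AutD (fG s)).inv_mem hdD)
  have hall : ∀ a : X, ((φ a : ↥(E (plusForm 4 F))) : V8 F ≃ₗ[F] V8 F) ∈ AutD (fG s) := by
    intro a
    have h1 : a ∈ T := hT (by rw [hperf]; trivial)
    exact h1
  obtain ⟨Y, hY0, hY⟩ := hone
  choose c hc using hY
  exact hY0 (H499.RC.ZU1 h.cube h.ne Y (fun t => (φ (c t) : V8 F ≃ₗ[F] V8 F)) (fun t => hall _) hc)

theorem m_end [Finite F] [Finite G] [Finite ι] (h : T3 hG N κ s Ω x₁ x r g)
    (hIH : IH (Nat.card N)) (hN : NoN Ω N) [Finite X] (hperf : commutator X = ⊤)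
    (h1 : IsSimpleGroup (X ⧸ Subgroup.center X)) (h2 : ¬ IsMulCommutative (X ⧸ Subgroup.center X))
    (h3 : Cl (X ⧸ Subgroup.center X)) (h4 : ¬ Exc (X ⧸ Subgroup.center X)) (φ : X →* ↥(E (plusForm 4 F)))
    (hφ : Function.Injective φ) (i : ι) (hodd : r i ≠ 2)
    (hcomm : ∀ s, ((φ s : ↥(E (plusForm 4 F))) : V8 F ≃ₗ[F] V8 F) * g i = g i * (φ s : V8 F ≃ₗ[F] V8 F))
    (hder : ∀ a b : ↥(E (plusForm 4 F)), (a : V8 F ≃ₗ[F] V8 F) * g i = g i * a →
      (b : V8 F ≃ₗ[F] V8 F) * g i = g i * b → ⁅a, b⁆ ∈ φ.range)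
    (hone : ∃ Y : V8 F →ₗ[F] V8 F, Y ≠ 0 ∧ ∀ t : F, ∃ s, ∀ v, (φ s : V8 F ≃ₗ[F] V8 F) v = v + t • Y v)
    (h3e : ∃ s : X, s ^ 3 = 1 ∧ s ≠ 1) : False := by
  have hker0 : ∀ a : X, up κ (φ a) = 1 → φ a ∈ Subgroup.center ↥(E (plusForm 4 F)) := by
    intro a ha
    have e1 : ((1 : ↥(E (plusForm 4 F))) : P8 F) = ((φ a : ↥(E (plusForm 4 F))) : P8 F) := by
      apply h.up_eq
      rw [ha, map_one]
    have e2 := QuotientGroup.eq.1 e1
    rwa [inv_one, one_mul] at e2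
  have hker : ((up κ).comp φ).ker ≤ Subgroup.center X := by
    intro a ha
    have e1 := hker0 a ha
    rw [Subgroup.mem_center_iff] at e1 ⊢
    intro b
    apply hφ
    rw [map_mul, map_mul, e1]
  obtain ⟨hMp, π, hπ, hπk⟩ := exists_pi_gen hperf ((up κ).comp φ) hker
  have hxi : ∀ m ∈ ((up κ).comp φ).range, x i * m = m * x i := by
    rintro _ ⟨a, rfl⟩
    change x i * up κ (φ a) = up κ (φ a) * x i
    rw [h.x_eq, ← map_mul, ← map_mul]
    congr 1
    exact Subtype.ext (hcomm a).symm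
  have hMN : ((up κ).comp φ).range ≤ N := by
    rintro _ ⟨a, rfl⟩
    exact h.up_mem _
  have hne : ((up κ).comp φ).range ≠ N := by
    intro hMN'
    have e1 : x i ∈ Subgroup.centralizer (N : Set G) := by
      rw [Subgroup.mem_centralizer_iff]
      intro m hm
      rw [SetLike.mem_coe, ← hMN'] at hm
      exact (hxi m hm).symm
    rw [h.env.cent, Subgroup.mem_bot] at e1
    exact h.x_ne i e1
  obtain ⟨t, ht3, ht1⟩ := h3e
  refine n2 h hIH hN (M := ((up κ).comp φ).range) hMN hne hMp π hπ hπk h1 h2 h3 h4 ?_ ?_ ?_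
    (y := up κ (φ t)) ⟨t, rfl⟩ ?_ ?_
  · exact mem_norm_pow' (by norm_num) h.x1_cube (conj_range h i hodd hperf φ hcomm hder (h.x1_comm i))
  · intro j
    exact mem_norm_pow' (h.prime j).pos (h.x_pow j) (conj_range h i hodd hperf φ hcomm hder (h.x_comm j i))
  · exact not_cent h hperf φ hone
  · rw [← map_pow, ← map_pow, ht3, map_one, map_one]
  · intro hy
    have e1 := hker0 t hy
    obtain ⟨a, ha⟩ := center_scalar hG e1
    have e2 : ∀ v, (φ t : V8 F ≃ₗ[F] V8 F) v = a • v := ha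
    apply ht1
    apply hφ
    rw [map_one]
    have e1' : ((1 : ↥(E (plusForm 4 F))) : P8 F) = ((φ t : ↥(E (plusForm 4 F))) : P8 F) := by
      apply h.up_eq
      rw [hy, map_one]
    obtain ⟨e, he, hev⟩ := sign_of_mk_eq hG e1'
    have h3' := pow_of_smul hev 3 (one8 F)
    have e4 : ((φ t : V8 F ≃ₗ[F] V8 F) ^ 3) = 1 := by
      have e5 : (φ t) ^ 3 = 1 := by rw [← map_pow, ht3, map_one]
      exact congrArg Subtype.val e5
    have e6 : (((1 : ↥(E (plusForm 4 F))) : V8 F ≃ₗ[F] V8 F) ^ 3) = 1 := by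
      rw [Subgroup.coe_one, one_pow]
    rw [e4, e6] at h3'
    have e7 : one8 F = e ^ 3 • one8 F := h3'
    have e8 : (1 - e ^ 3) • one8 F = 0 := by rw [sub_smul, one_smul, ← e7, sub_self]
    have e9 : one8 F ≠ 0 := fun h0 => by
      have h6 := norm_one8 (F := F)
      rw [h0, QuadraticMap.map_zero] at h6
      exact zero_ne_one h6
    have e10 := (smul_eq_zero.1 e8).resolve_right e9
    have he1 : e = 1 := eq_one_of_odd he (by decide) (sub_eq_zero.1 e10).symm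
    apply Subtype.ext
    apply LinearEquiv.ext
    intro v
    have := hev v
    rw [he1, one_smul] at this
    exact this

end Cfsg.Agent.H338.RC
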