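import Cfsg.Agent.H338.RC.SLData
import Cfsg.Agent.H338.RC.MEnd

/-!
# S3510, triality type iii, MIXED (b) (helper338, second line)

`dead_sl3` : a member `g i` of odd order with eigenvalues `a, a⁻¹, b, b⁻¹` of multiplicities `3, 3, 1, 1`: contradiction.
-/

set_option autoImplicit false
open Cfsg

namespace Cfsg.Agent.H338.RC

open Module QuadraticMap MulAction
open Cfsg.Agent.LieClassical.OrthCore Cfsg.Agent.LieClassical.OrthTrans
open Cfsg.Agent.LieClassical.OrthSimple Cfsg.Agent.LieClassical.QuadForms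
open Cfsg.Agent.ClassicalGeometry.Triality Cfsg.Agent.H106.RC Cfsg.Agent.H93.RC Cfsg.Agent.H566.RC
open Cfsg.Agent.H198.TriAut Cfsg.Agent.H864.RC
open scoped commutatorElement

variable {F : Type} [Field F] {G Ω ι : Type} [Group G] [MulAction G Ω] {N : Subgroup G}
    {hG : Good (plusForm 4 F)} {κ : P8 F →* G} {s : F ≃+* F} {x₁ : G} {x : ι → G} {r : ι → ℕ}
    {g : ι → (V8 F ≃ₗ[F] V8 F)}

theorem dead_sl3 [Finite F] [Finite G] [Finite ι] [Nonempty Ω] (h : T3 hG N κ s Ω x₁ x r g) (hIH : IH (Nat.card N))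
    (hN : NoN Ω N) (i : ι) (hodd : r i ≠ 2) {a b : F} (ha : a ≠ 0) (hb : b ≠ 0) (haa : a * a ≠ 1) (hbb : b * b ≠ 1)
    (hab : a ≠ b) (hab1 : a * b ≠ 1) (h1 : finrank F (Eg (g i) a) = 3) (h2 : finrank F (Eg (g i) a⁻¹) = 3)
    (h3 : finrank F (Eg (g i) b) = 1) (h4 : finrank F (Eg (g i) b⁻¹) = 1) : False := by
  have hcl : SLD.CL (plusForm 4 F) (g i) a b := by
    refine ⟨E_le_O (h.mem i).1, hG.nondeg, ha, hb, haa, hbb, hab, hab1, h1, h2, h3, h4, ?_⟩
    rw [Module.finrank_fintype_fun_eq_card, Fintype.card_sum, Fintype.card_fin]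
  obtain ⟨φ, hφ, hcomm, hder, hY⟩ := SLD.sl3_data hcl
  obtain ⟨hperf, hS, hSn, hCl, hEx⟩ := SLD.sl3_facts (F := F)
  refine m_end h hIH hN hperf hS hSn hCl hEx φ hφ i hodd (fun s => LinearEquiv.ext (hcomm s)) ?_
    hY SLD.exists_three
  intro a b ha hb
  exact hder a b (fun v => congrArg (fun f : V8 F ≃ₗ[F] V8 F => f v) ha)
    (fun v => congrArg (fun f : V8 F ≃ₗ[F] V8 F => f v) hb)

end Cfsg.Agent.H338.RC
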