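import Cfsg.Agent.H338.RC.SUData
import Cfsg.Agent.H338.RC.MEnd

/-!
# S3510, triality type iii, MIXED (c) (helper338)

`dead_su3` : a member `g i` of odd order with `V = W ⊥ W^⊥`, `g i + (g i)⁻¹ = τ` on the 6-dimensional `W`, `= τ' ≠ τ` on
`W^⊥`, without eigenvalues in `F`: contradiction.
-/

set_option autoImplicit false
open Cfsg

namespace Cfsg.Agent.H338.RC

open Module QuadraticMap MulAction
open Cfsg.Agent.LieClassical.OrthCore Cfsg.Agent.LieClassical.OrthTrans
open Cfsg.Agent.LieClassical.OrthSimple Cfsg.Agent.LieClassical.QuadForms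
open Cfsg.Agent.ClassicalGeometry.Triality Cfsg.Agent.H106.RC Cfsg.Agent.H93.RC Cfsg.Agent.H566.RC
open Cfsg.Agent.H198.TriAut Cfsg.Agent.H864.RC
open scoped commutatorElement

variable {F : Type} [Field F] {G Ω ι : Type} [Group G] [MulAction G Ω] {N : Subgroup G}
    {hG : Good (plusForm 4 F)} {κ : P8 F →* G} {s : F ≃+* F} {x₁ : G} {x : ι → G} {r : ι → ℕ}
    {g : ι → (V8 F ≃ₗ[F] V8 F)}

theorem card_ne_two [Finite F] (h : T3 hG N κ s Ω x₁ x r g) : Nat.card F ≠ 2 := by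
  classical
  intro h2
  have hf := Fintype.ofFinite F
  have h01 : ∀ a : F, a = 0 ∨ a = 1 := by
    intro a
    by_contra hcon
    push Not at hcon
    have h3 : ({0, 1, a} : Finset F).card = 3 := by
      rw [Finset.card_insert_of_notMem, Finset.card_insert_of_notMem, Finset.card_singleton]
      · simpa using hcon.2.symm
      · simp only [Finset.mem_insert, Finset.mem_singleton, not_or]
        exact ⟨zero_ne_one, hcon.1.symm⟩
    have h4 := Finset.card_le_univ ({0, 1, a} : Finset F)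
    rw [h3, ← Nat.card_eq_fintype_card, h2] at h4
    omega
  apply h.ne
  ext a
  rcases h01 a with rfl | rfl
  · rw [map_zero, map_zero]
  · rw [map_one, map_one]

theorem dead_su3 [Finite F] [Finite G] [Finite ι] [Nonempty Ω] (h : T3 hG N κ s Ω x₁ x r g) (hIH : IH (Nat.card N))
    (hN : NoN Ω N) (i : ι) (hodd : r i ≠ 2) (W : Submodule F (V8 F)) (hW : finrank F W = 6)
    (hWn : ∀ v ∈ W, (∀ w ∈ W, polar (plusForm 4 F) v w = 0) → v = 0) (τ τ' : F) (hne : τ ≠ τ')
    (h1 : ∀ v ∈ W, g i (g i v) + v = τ • g i v)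
    (h2 : ∀ v, (∀ w ∈ W, polar (plusForm 4 F) v w = 0) → g i (g i v) + v = τ' • g i v)
    (h3 : ∀ v ∈ W, ∀ a : F, g i v = a • v → v = 0)
    (h4 : ∀ v, (∀ w ∈ W, polar (plusForm 4 F) v w = 0) → ∀ a : F, g i v = a • v → v = 0) : False := by
  have hcw : SUD.CW (plusForm 4 F) (g i) W τ τ' := by
    refine ⟨E_le_O (h.mem i).1, ?_, hne, h1, h2, h3, h4, ?_⟩
    · intro w hw
      apply Subtype.ext
      exact hWn w w.2 (fun v hv => hw ⟨v, hv⟩)
    · rw [hW, Module.finrank_fintype_fun_eq_card, Fintype.card_sum, Fintype.card_fin]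
  obtain ⟨K, _, _, φ, -, hφ, hcomm, hder, ⟨Y, hY0, hY⟩, hperf, hS, hSn, hCl, hEx, hs3⟩ :=
    SUD.su3_data hG hcw hW (card_ne_two h)
  refine m_end h hIH hN hperf hS hSn hCl hEx φ hφ i hodd (fun s => LinearEquiv.ext (hcomm s)) ?_
    ⟨Y, hY0, hY⟩ hs3
  intro a b ha hb
  exact hder a b (fun v => congrArg (fun f : V8 F ≃ₗ[F] V8 F => f v) ha)
    (fun v => congrArg (fun f : V8 F ≃ₗ[F] V8 F => f v) hb)

end Cfsg.Agent.H338.RC
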