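import Cfsg.Agent.H338.RC.HermM
import Cfsg.Agent.H138.RC.Base

/-!
# S3510, row F, box C (helper338)

* `no_herm` : no cover by elements with linear lifts commuting with a quadratic extension field `K` of `F` which acts
  by similitudes with multiplier the norm (hermitian structure), `dim_K V ≥ 3`.
-/

set_option autoImplicit false
set_option linter.unusedSectionVars false
open Cfsg

namespace Cfsg.Agent.H338.RC

open QuadraticMap Module MulAction
open Cfsg.Agent.LieClassical.OrthCore Cfsg.Agent.LieClassical.HermBasic Cfsg.Agent.LieClassical.HermSiegel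
open Cfsg.Agent.LieClassical.OrthTrans Cfsg.Agent.ClassicalGeometry.OrthSemi Cfsg.Agent.ClassicalGeometry.OrthAut1
open Cfsg.Agent.H106.RC Cfsg.Agent.H93.RC Cfsg.Agent.H138.RC

section herm

variable {F K V : Type} [Field F] [Finite F] [Field K] [Fintype K] [Algebra F K] [AddCommGroup V] [Module F V] [Module K V]
  [IsScalarTower F K V] {Q : QuadraticForm F V} {q : ℕ}
  {G Ω : Type} [Group G] [MulAction G Ω] {N : Subgroup G} {ρ : ↥(E Q) →* G} {m : ℕ}

namespace HK

/-- the unitary group in `E Q` -/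
noncomputable def suE (h : HK Q K q) (hG : Good Q) {φ : V ≃ₗ[K] (Fin m → K)}
    (hφ : ∀ v w, h.hm v w = hermForm m K q (φ v) (φ w)) (hperf : commutator (SU m K q) = ⊤) : SU m K q →* ↥(E Q) :=
  (su φ).codRestrict (E Q) (h.su_mem_E hG hφ hperf)

variable (h : HK Q K q) (hG : Good Q) {φ : V ≃ₗ[K] (Fin m → K)}
  (hφ : ∀ v w, h.hm v w = hermForm m K q (φ v) (φ w)) (hperf : commutator (SU m K q) = ⊤)

theorem suE_apply (g : SU m K q) (v : V) : (h.suE hG hφ hperf g : V ≃ₗ[F] V) v = (su (F := F) φ g) v := rfl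

theorem suE_inj : Function.Injective (h.suE hG hφ hperf) := by
  intro g g' hg
  exact su_inj (F := F) φ (congrArg Subtype.val hg)

/-- the homomorphism `SU → G` -/
noncomputable def mu (ρ : ↥(E Q) →* G) : SU m K q →* G := ρ.comp (h.suE hG hφ hperf)

theorem mu_ker (hρ : Rep Q N ρ) : (h.mu hG hφ hperf ρ).ker ≤ Subgroup.center (SU m K q) := by
  intro s hs
  rw [MonoidHom.mem_ker] at hs
  have h1 : h.suE hG hφ hperf s ∈ Subgroup.center ↥(E Q) := by
    rw [← hρ.ker, MonoidHom.mem_ker]
    exact hs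
  rw [Subgroup.mem_center_iff] at h1 ⊢
  intro t
  apply h.suE_inj hG hφ hperf
  rw [map_mul, map_mul, h1]

theorem mu_le (hρ : Rep Q N ρ) : (h.mu hG hφ hperf ρ).range ≤ N := by
  rw [← hρ.range]
  rintro _ ⟨s, rfl⟩
  exact ⟨_, rfl⟩

/-- conjugation in `G` -/
theorem conj_mu [FiniteDimensional K V] {x : G} {M : Gam Q} {c : F} (hl : Lf ρ x M)
    (hM : IsSS Q (RingEquiv.refl F) c M.1) (hlin : ∀ (a : K) v, M.1 (a • v) = a • M.1 v) (s : SU m K q) :
    x * h.mu hG hφ hperf ρ s * x⁻¹ ∈ (h.mu hG hφ hperf ρ).range := by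
  obtain ⟨s', hs'⟩ := h.exists_conj hφ hM hlin s
  refine ⟨s', ?_⟩
  change ρ _ = x * ρ _ * x⁻¹
  rw [hl]
  congr 1
  apply Subtype.ext
  rw [coe_conjE]
  ext v
  obtain ⟨v, rfl⟩ := M.1.surjective v
  rw [conjLin_apply']
  exact (hs' v).symm

/-- a generator of `K` as a similitude -/
theorem exists_T : ∃ T : Gam Q, ∀ v, T.1 v = h.th • v := by
  obtain ⟨c, hc⟩ := h.norm_mem h.th
  have hth : h.th ≠ 0 := by
    intro h0
    apply h.th_ne
    rw [h0, zero_pow h.q_ne]
  refine ⟨⟨(LinearEquiv.smulOfNeZero K V h.th hth).toEquiv, RingEquiv.refl F, c, ⟨?_, ?_, ?_, ?_⟩⟩, fun v => rfl⟩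
  · rintro rfl
    rw [map_zero] at hc
    exact mul_ne_zero hth (pow_ne_zero _ hth) hc.symm
  · intro u v
    exact smul_add _ _ _
  · intro a v
    exact smul_algebra_smul_comm _ _ _
  · intro v
    apply (algebraMap F K).injective
    change algebraMap F K (Q (h.th • v)) = _
    rw [h.form, map_mul, hc]
    rfl

theorem nt (hG : Good Q) : Nontrivial V := by
  have := hG.dim
  exact Module.nontrivial_of_finrank_pos (R := F) (by omega)

theorem mu_ne (hρ : Rep Q N ρ) : (h.mu hG hφ hperf ρ).range ≠ N := by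
  intro hN
  obtain ⟨T, hT⟩ := h.exists_T
  have h1 : conjE Q T = 1 := by
    ext t : 1
    rw [MulAut.one_apply]
    have h2 : ρ t ∈ (h.mu hG hφ hperf ρ).range := by
      rw [hN, ← hρ.range]
      exact ⟨t, rfl⟩
    obtain ⟨s, hs⟩ := h2
    change ρ (h.suE hG hφ hperf s) = ρ t at hs
    have h3 : t * (h.suE hG hφ hperf s)⁻¹ ∈ Subgroup.center ↥(E Q) := by
      rw [← hρ.ker, MonoidHom.mem_ker, map_mul, map_inv, hs, mul_inv_cancel]
    obtain ⟨a, ha⟩ := center_scalar hG h3
    have h4 : ∀ v, (t : V ≃ₗ[F] V) v = a • (su (F := F) φ s) v := by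
      intro v
      have h5 := ha ((su (F := F) φ s) v)
      rw [← h5]
      have h6 : (t * (h.suE hG hφ hperf s)⁻¹ : ↥(E Q)) * h.suE hG hφ hperf s = t := by group
      conv_lhs => rw [← h6]
      rfl
    apply Subtype.ext
    rw [coe_conjE]
    ext v
    obtain ⟨v, rfl⟩ := T.1.surjective v
    rw [conjLin_apply', hT, hT, h4, h4, su_smul, smul_algebra_smul_comm]
  obtain ⟨a, -, ha⟩ := exists_scalar_of_conjE hG T h1
  have := nt hG
  obtain ⟨v, hv⟩ := exists_ne (0 : V)
  have h2 := ha v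
  rw [hT, ← algebraMap_smul K a, ← sub_eq_zero, ← sub_smul] at h2
  rcases smul_eq_zero.1 h2 with h3 | h3
  · apply h.th_ne
    rw [sub_eq_zero.1 h3, h.base]
  · exact hv h3

/-! ### transvections -/

theorem sing_th {e : V} (he : Q e = 0) : Q (h.th • e) = 0 := by
  apply (algebraMap F K).injective
  rw [h.form, he, map_zero, mul_zero]

theorem polar_th {e : V} (he : Q e = 0) : polar Q e (h.th • e) = 0 := by
  apply (algebraMap F K).injective
  rw [← h.hm_trace, h.hm_smul_right, h.hm_self, he, map_zero, mul_zero, zero_pow h.q_ne, add_zero]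

/-- the unitary transvection with centre `e` -/
theorem exists_tv {e : V} (he : Q e = 0) : ∃ s : SU m K q,
    (∀ v, (su (F := F) φ s) v = v + ((h.th - h.th ^ q) * h.hm v e) • e) ∧
      h.suE hG hφ hperf s = AutOrth.SemiSim.sg Q e (h.th • e) he (h.polar_th he) := by
  have hs : IsSiegel q (φ e) 0 (h.th - h.th ^ q) := by
    refine ⟨?_, ?_, ?_⟩
    · rw [← hφ, h.hm_self, he, map_zero]
    · rw [herm_zero_left]
    · rw [herm_zero_left, sub_pow_q h.card, pow_q_pow_q h.card]
      ring
  have h1 : ∀ v, (su (F := F) φ (Cfsg.Agent.LieClassical.HermSiegel.siegel h.card (φ e) 0 (h.th - h.th ^ q) hs)) v =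
      v + ((h.th - h.th ^ q) * h.hm v e) • e := by
    intro v
    apply φ.injective
    rw [phi_su, act_siegel, ← hφ, smul_zero, add_zero, herm_zero_right h.card, sub_zero, map_add, map_smul]
  refine ⟨_, h1, ?_⟩
  apply Subtype.ext
  ext v
  rw [suE_apply, h1, AutOrth.SemiSim.sg_apply, h.sing_th he, zero_mul, zero_smul, sub_zero, add_sub_assoc]
  congr 1
  have h2 : algebraMap F K (polar Q e v) = h.hm v e + (h.hm v e) ^ q := by
    rw [QuadraticMap.polar_comm, h.hm_trace]
  have h3 : algebraMap F K (polar Q (h.th • e) v) = h.th * (h.hm v e) ^ q + h.th ^ q * h.hm v e := by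
    rw [← h.hm_trace, h.hm_smul_left, h.hm_symm v e, mul_pow, pow_q_pow_q h.card]
  rw [← algebraMap_smul K (polar Q e v), ← algebraMap_smul K (polar Q (h.th • e) v), h2, h3, smul_smul, ← sub_smul]
  congr 1
  ring

/-- a lift of an element centralising the image of `SU` fixes the `K`-lines of the singular vectors -/
theorem eig_of_cent {x : G} {M : Gam Q} {c : F} (hρ : Rep Q N ρ) (hl : Lf ρ x M)
    (hM : IsSS Q (RingEquiv.refl F) c M.1) (hlin : ∀ (a : K) v, M.1 (a • v) = a • M.1 v)
    (hcen : ∀ y ∈ (h.mu hG hφ hperf ρ).range, x * y = y * x) {e : V} (he : Q e = 0) (he0 : e ≠ 0) :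
    ∃ a : K, M.1 e = a • e := by
  obtain ⟨s, hs, -⟩ := h.exists_tv hG hφ hperf he
  have hth : h.th - h.th ^ q ≠ 0 := h.sub_ne
  have h1 := hl (h.suE hG hφ hperf s)
  have h2 := hcen _ ⟨s, rfl⟩
  change x * ρ (h.suE hG hφ hperf s) = ρ (h.suE hG hφ hperf s) * x at h2
  rw [h2, mul_inv_cancel_right] at h1
  have h3 : conjE Q M (h.suE hG hφ hperf s) * (h.suE hG hφ hperf s)⁻¹ ∈ Subgroup.center ↥(E Q) := by
    rw [← hρ.ker, MonoidHom.mem_ker, map_mul, map_inv, ← h1, mul_inv_cancel]
  obtain ⟨a, ha⟩ := center_scalar hG h3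
  have h4 : ∀ v, M.1 ((su (F := F) φ s) v) = a • (su (F := F) φ s) (M.1 v) := by
    intro v
    have h5 := ha ((su (F := F) φ s) (M.1 v))
    rw [← h5]
    have h6 : (conjE Q M (h.suE hG hφ hperf s) * (h.suE hG hφ hperf s)⁻¹ : ↥(E Q)) * h.suE hG hφ hperf s =
      conjE Q M (h.suE hG hφ hperf s) := by group
    have h7 : ((conjE Q M (h.suE hG hφ hperf s) : ↥(E Q)) : V ≃ₗ[F] V) (M.1 v) = M.1 ((su (F := F) φ s) v) := by
      rw [coe_conjE, conjLin_apply']
      rfl
    rw [← h7]
    conv_lhs => rw [← h6]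
    rfl
  have hMe0 : M.1 e ≠ 0 := by
    intro h0
    rw [← hM.map_zero] at h0
    exact he0 (M.1.injective h0)
  have hee : h.hm e e = 0 := by rw [h.hm_self, he, map_zero]
  have hse : (su (F := F) φ s) e = e := by rw [hs, hee, mul_zero, zero_smul, add_zero]
  -- `a = 1`
  have ha1 : a = 1 := by
    have h5 := h4 e
    rw [hse, hs] at h5
    by_cases h6 : h.hm (M.1 e) e = 0
    · rw [h6, mul_zero, zero_smul, add_zero] at h5
      have h7 : ((1 : F) - a) • M.1 e = 0 := by rw [sub_smul, one_smul, ← h5, sub_self]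
      rcases smul_eq_zero.1 h7 with h8 | h8
      · exact (sub_eq_zero.1 h8).symm
      · exact (hMe0 h8).elim
    · exfalso
      have ha0 : a ≠ 0 := by
        rintro rfl
        rw [zero_smul] at h5
        exact hMe0 h5
      -- take the form with `e`
      have h7 : h.hm (M.1 e) e = h.hm (a • (M.1 e + ((h.th - h.th ^ q) * h.hm (M.1 e) e) • e)) e :=
        congrArg (fun w => h.hm w e) h5
      rw [h.hm_base_left, h.hm_add_left, h.hm_smul_left, hee, mul_zero, add_zero] at h7
      have h8 : algebraMap F K a = 1 := by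
        have : algebraMap F K a * h.hm (M.1 e) e = 1 * h.hm (M.1 e) e := by rw [one_mul, ← h7]
        exact mul_right_cancel₀ h6 this
      have h9 : a = 1 := (algebraMap F K).injective (by rw [h8, map_one])
      rw [h9, one_smul] at h5
      have h10 : ((h.th - h.th ^ q) * h.hm (M.1 e) e) • e = 0 := (left_eq_add).1 h5
      rcases smul_eq_zero.1 h10 with h11 | h11
      · exact (mul_ne_zero hth h6) h11
      · exact he0 h11
  -- a vector with `h(v,e) = 1`
  obtain ⟨w, hw⟩ : ∃ w, h.hm w e ≠ 0 := by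
    by_contra hcon
    push Not at hcon
    apply he0
    apply h.nondeg
    intro w
    apply (algebraMap F K).injective
    rw [QuadraticMap.polar_comm, ← h.hm_trace, hcon, zero_pow h.q_ne, add_zero, map_zero]
  have h5 := h4 w
  have hadd : M.1 (w + ((h.th - h.th ^ q) * h.hm w e) • e) = M.1 w + ((h.th - h.th ^ q) * h.hm w e) • M.1 e := by
    rw [hM.add, hlin]
  rw [ha1, one_smul, hs, hs, hadd, add_right_inj] at h5
  refine ⟨((h.th - h.th ^ q) * h.hm w e)⁻¹ * ((h.th - h.th ^ q) * h.hm (M.1 w) e), ?_⟩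
  rw [mul_smul, ← h5, inv_smul_smul₀ (mul_ne_zero hth hw)]

end HK

/-- a semisimilitude commuting with `K` is linear -/
theorem isSS_of_lin [Nontrivial V] {M : Gam Q} (hlin : ∀ (a : K) v, M.1 (a • v) = a • M.1 v) :
    ∃ c : F, IsSS Q (RingEquiv.refl F) c M.1 := by
  obtain ⟨σ, c, hM⟩ := M.2
  refine ⟨c, hM.ne, hM.add, fun a v => ?_, fun v => ?_⟩
  · rw [RingEquiv.refl_apply, ← algebraMap_smul K a v, hlin, algebraMap_smul]
  · obtain ⟨w, hw⟩ := exists_ne (0 : V)
    have hw' : M.1 w ≠ 0 := by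
      intro h0
      rw [← hM.map_zero] at h0
      exact hw (M.1.injective h0)
    have hσ : ∀ a : F, σ a = a := by
      intro a
      have h1 := hM.smul a w
      rw [← algebraMap_smul K a w, hlin, algebraMap_smul, ← sub_eq_zero, ← sub_smul] at h1
      rcases smul_eq_zero.1 h1 with h2 | h2
      · exact (sub_eq_zero.1 h2).symm
      · exact (hw' h2).elim
    rw [hM.form, hσ]
    rfl

/-- **box C** (`K` given) -/
theorem no_herm [FiniteDimensional F V] [Finite G] [Nonempty Ω] (h : HK Q K q) (hG : Good Q) (hE : Env G Ω N)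
    (hρ : Rep Q N ρ) {p : ℕ} [CharP F p] (hLR : LR Q Ω ρ p) {ι : Type} [Finite ι] {x : ι → G} {M : ι → Gam Q}
    {r : ι → ℕ} (hx : PF x r) (hcov : Cov Ω x) (hl : ∀ i, Lf ρ (x i) (M i)) (hm3 : 3 ≤ finrank K V)
    (h32 : ¬ (finrank K V = 3 ∧ q = 2)) (hlin : ∀ i (a : K) v, (M i).1 (a • v) = a • (M i).1 v)
    (hIH : IH (Nat.card N)) : False := by
  classical
  have := HK.nt hG
  have hKV : FiniteDimensional K V := Module.finite_of_finrank_pos (by omega)
  have hpp : p.Prime := CharP.char_is_prime F p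
  have : Fact p.Prime := ⟨hpp⟩
  have : CharP K p := charP_of_injective_algebraMap (algebraMap F K).injective p
  obtain ⟨φ, hφ⟩ := h.exists_phi
  have hperf : commutator (SU (finrank K V) K q) = ⊤ :=
    Cfsg.Agent.LieClassical.HermPerfect.commutator_SU_eq_top h.card hm3 h32
  have hS : IsSimpleGroup (PSU (finrank K V) K q) :=
    Cfsg.Agent.LieClassical.HermSimple.isSimpleGroup_of_perfect h.card hm3 hperf
  have hSn : ¬ IsMulCommutative (PSU (finrank K V) K q) :=
    not_comm_of_perf' hperf (QuotientGroup.mk' _) (QuotientGroup.mk'_surjective _) hS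
  set μ := h.mu hG hφ hperf ρ with hμ
  obtain ⟨hMp, π, hπ, hπk⟩ := exists_pi_gen hperf μ (h.mu_ker hG hφ hperf hρ)
  have hss := fun i => isSS_of_lin (K := K) (hlin i)
  have hnorm : ∀ i, x i ∈ Subgroup.normalizer (μ.range : Set G) := by
    intro i
    obtain ⟨c, hc⟩ := hss i
    refine mem_norm_pow' (hx.prime i).pos (hx.pow i) ?_
    rintro _ ⟨s, rfl⟩
    exact h.conj_mu hG hφ hperf (hl i) hc (hlin i) s
  have hRC : RC (PSU (finrank K V) K q) := by
    refine hIH.use (S := N) (MulEquiv.refl N) (h.mu_le hG hφ hperf hρ) (h.mu_ne hG hφ hperf hρ) π hπ hS hSn ?_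
      (psu_not_exc h.card hm3 h32)
    right; right; left
    exact ⟨K, inferInstance, inferInstance, finrank K V, q, h.card, hm3, h32, ⟨MulEquiv.refl _⟩⟩
  have hrule : ∀ ω : Ω, μ.range ≤ stabilizer G ω ∨ ∃ j, (∀ m ∈ μ.range, x j * m = m * x j) ∧ x j • ω = ω :=
    fun ω => mrule_RC hS hSn x r hx.prime hx.inj hx.pow hx.comm μ.range hMp π hπ hπk hnorm hRC ω fun m _ => hcov _
  -- the members centralising `M` are `p'`-elements
  have hrp : ∀ j, (∀ m ∈ μ.range, x j * m = m * x j) → r j ≠ p := by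
    intro j hj hrj
    obtain ⟨c, hc⟩ := hss j
    obtain ⟨a₀, ha₀, hpow⟩ := (hl j).pow_scal hG hρ (hx.pow j)
    obtain ⟨b, hb⟩ : ∃ b : F, b ^ p = a₀ := by
      have h1 : Function.Surjective (frobenius F p) := Finite.injective_iff_surjective.1 (frobenius_inj F p)
      exact h1 a₀
    have hsing : ∀ e : V, Q e = 0 → (M j).1 e = b • e := by
      intro e he
      by_cases he0 : e = 0
      · rw [he0, smul_zero, hc.map_zero]
      obtain ⟨a, ha⟩ := h.eig_of_cent hG hφ hperf hρ (hl j) hc (hlin j) hj he he0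
      have hk : ∀ k : ℕ, ((M j) ^ k).1 e = a ^ k • e := by
        intro k
        induction k with
        | zero => rw [pow_zero, pow_zero, one_smul]; rfl
        | succ k ih =>
          rw [pow_succ']
          change (M j).1 (((M j) ^ k).1 e) = _
          rw [ih, hlin, ha, smul_smul, pow_succ]
      have h1 := hpow e
      rw [hk, hrj, ← algebraMap_smul K a₀ e, ← sub_eq_zero, ← sub_smul] at h1
      have h2 : a ^ p = algebraMap F K b ^ p := by
        rcases smul_eq_zero.1 h1 with h3 | h3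
        · rw [← map_pow, hb]
          exact sub_eq_zero.1 h3
        · exact (he0 h3).elim
      have h3 : a = algebraMap F K b := frobenius_inj K p h2
      rw [ha, h3, algebraMap_smul]
    have hall : ∀ v : V, (M j).1 v = b • v := by
      obtain ⟨e, f, hef⟩ := hG.exists_hyp
      exact sing_induction hef (fun a c ha hc' => by rw [hc.add, ha, hc', smul_add]) hsing
    have hb0 : b ≠ 0 := by
      rintro rfl
      rw [zero_pow hpp.ne_zero] at hb
      exact ha₀ hb.symm
    exact hx.ne j (((hl j).eq_one_iff hG hE hρ).2 ⟨b, hb0, hall⟩)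
  -- the long root element
  obtain ⟨e, he0, he⟩ := hG.sing
  obtain ⟨s, -, hs⟩ := h.exists_tv hG hφ hperf he
  refine hLR {j : ι // ∀ m ∈ μ.range, x j * m = m * x j} (y := fun j => x j.1) (L := fun j => M j.1)
    (s := fun j => r j.1) (fun j => hl j.1) (fun j => hx.prime j.1) (fun j => hrp j.1 j.2) (fun j => hx.pow j.1)
    (fun j => hx.ne j.1) (fun i j => hx.comm i.1 j.1) he (h.sing_th he) (h.polar_th he) he0 ?_ ?_ ?_
  · intro a ha
    rw [← algebraMap_smul K a e, ← sub_eq_zero, ← sub_smul] at ha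
    rcases smul_eq_zero.1 ha with h1 | h1
    · apply h.th_ne
      rw [sub_eq_zero.1 h1, h.base]
    · exact he0 h1
  · rintro ⟨j, hj⟩ v hv
    obtain ⟨c, hc⟩ := hss j
    obtain ⟨a, ha⟩ := h.eig_of_cent hG hφ hperf hρ (hl j) hc (hlin j) hj he he0
    have hKe : ∀ b : K, b • e ∈ Submodule.span F {e, h.th • e} := by
      intro b
      obtain ⟨c, d, rfl⟩ := h.decomp b
      rw [add_smul, mul_smul, algebraMap_smul, algebraMap_smul]
      exact Submodule.add_mem _ (Submodule.smul_mem _ _ (Submodule.subset_span (by simp)))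
        (Submodule.smul_mem _ _ (Submodule.subset_span (by simp)))
    obtain ⟨c1, c2, rfl⟩ := Submodule.mem_span_pair.1 hv
    have h2 : c1 • e + c2 • h.th • e = (algebraMap F K c1 + algebraMap F K c2 * h.th) • e := by
      rw [add_smul, mul_smul, algebraMap_smul, algebraMap_smul]
    change (M j).1 _ ∈ _
    rw [h2, hlin, ha, smul_smul]
    exact hKe _
  · intro ω
    rcases hrule ω with h1 | ⟨j, hj, h1⟩
    · left
      have h2 : ρ (AutOrth.SemiSim.sg Q e (h.th • e) he (h.polar_th he)) ∈ μ.range := by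
        rw [← hs]
        exact ⟨s, rfl⟩
      exact h1 h2
    · exact Or.inr ⟨⟨j, hj⟩, h1⟩

end herm

end Cfsg.Agent.H338.RC
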