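import Cfsg.Agent.H338.RC.ExtY
import Cfsg.Agent.H106.RC.Use
import Cfsg.Agent.H106.RC.Ari

/-!
# Irreducible covers in composite dimension (helper338, S3510, row A, box B)

* `no_irr_comp` : no minimal cover by commuting linear elements which act irreducibly on `V`, if `dim V` is composite
  (induction hypothesis included).
-/

set_option autoImplicit false
open Cfsg

namespace Cfsg.Agent.H338.RC

open MulAction Cfsg.Agent.H106.RC Cfsg.Agent.H202.RC Module
open scoped commutatorElement

/-- intermediate fields of a finite field -/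
theorem exists_sub {F E : Type*} [Field F] [Field E] [Algebra F E] [Finite E] {d m : ℕ} (hd : 0 < d)
    (h : finrank F E = d * m) : ∃ K : IntermediateField F E, finrank F K = d ∧ finrank K E = m ∧
      ∀ b : E, b ∈ K ↔ b ^ (Nat.card F ^ d) = b := by
  have hF : Finite F := Finite.of_injective _ (algebraMap F E).injective
  have : Fintype F := Fintype.ofFinite F
  have hfin : FiniteDimensional F E := Module.Finite.of_finite
  let σ : Gal(E/F) := FiniteField.frobeniusAlgEquivOfAlgebraic F E ^ d
  have h0 : 0 < finrank F E := finrank_pos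
  have hm : 0 < m := Nat.pos_of_ne_zero (by rintro rfl; simp at h; omega)
  let H := Subgroup.zpowers σ
  have hH : Nat.card H = m := by
    change Nat.card (Subgroup.zpowers σ) = m
    rw [Nat.card_zpowers, orderOf_pow' _ hd.ne', FiniteField.orderOf_frobeniusAlgEquivOfAlgebraic, h,
      Nat.gcd_eq_right (Dvd.intro _ rfl), Nat.mul_div_cancel_left _ hd]
  have hK : finrank (IntermediateField.fixedField H) E = m := by
    rw [IntermediateField.finrank_fixedField_eq_card, hH]
  refine ⟨IntermediateField.fixedField H, ?_, hK, ?_⟩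
  · have h1 := Module.finrank_mul_finrank F (IntermediateField.fixedField H) E
    rw [hK, h] at h1
    exact Nat.eq_of_mul_eq_mul_right hm h1
  · intro b
    have hσ : ∀ b : E, σ b = b ^ (Nat.card F ^ d) := by
      intro b
      change (FiniteField.frobeniusAlgEquivOfAlgebraic F E ^ d) b = _
      rw [AlgEquiv.coe_pow, FiniteField.coe_frobeniusAlgEquivOfAlgebraic_iterate, Nat.card_eq_fintype_card]
    rw [IntermediateField.mem_fixedField_iff, ← hσ]
    constructor
    · intro h1
      exact h1 σ (Subgroup.mem_zpowers σ)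
    · intro h1 f hf
      have h2 : Subgroup.zpowers σ ≤ MulAction.stabilizer Gal(E/F) b := by
        rw [Subgroup.zpowers_le]
        exact h1
      exact h2 hf

section main

variable {F E V : Type} [Field F] [Field E] [Algebra F E] [AddCommGroup V] [Module F V] [Module E V]
  [IsScalarTower F E V] {G Ω : Type} [Group G] [MulAction G Ω] {N : Subgroup G} {κ : SLV F V →* G}
  {ι : Type} {x : ι → G} {r : ι → ℕ} {a : ι → V ≃ₗ[F] V} [Finite E] [Finite ι] [Finite G]

theorem no_irr_field (h : LinCov Ω N κ x r a) (hE : finrank E V = 1) (e : ι → E)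
    (he : ∀ i v, a i v = e i • v) (hn : 3 ≤ finrank F V) (hne : ¬ (Nat.card F = 2 ∧ finrank F V = 4))
    (hc : ¬ (finrank F V).Prime) (hIH : IH (Nat.card N))
    (hirr : ∀ W : Submodule F V, (∀ i, ∀ w ∈ W, a i w ∈ W) → W = ⊥ ∨ W = ⊤) : False := by
  classical
  have hF : Finite F := Finite.of_injective _ (algebraMap F E).injective
  have hFE : FiniteDimensional F E := Module.Finite.of_finite
  have hEV : Module.Finite E V := Module.finite_of_finrank_pos (by omega)
  have hFV : FiniteDimensional F V := Module.Finite.trans E V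
  have hnE : finrank F E = finrank F V := by rw [← Module.finrank_mul_finrank F E V, hE, mul_one]
  obtain ⟨d, ⟨m, hdm⟩, hd2, hdn⟩ := Nat.exists_dvd_of_not_prime2 (by omega : 2 ≤ finrank F V) hc
  have hm2 : 2 ≤ m := by
    by_contra hcon
    have : m = 0 ∨ m = 1 := by omega
    rcases this with rfl | rfl <;> omega
  obtain ⟨K, hK1, hK2, hK3⟩ := exists_sub (F := F) (E := E) (d := d) (m := m) (by omega) (by rw [hnE, hdm])
  have hKfin : Finite K := Finite.of_injective _ K.val.injective
  have : Fintype K := Fintype.ofFinite K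
  have hT : IsScalarTower F K V := ⟨fun c k v => by
    change ((c • (k : E)) : E) • v = c • (k : E) • v
    exact smul_assoc _ _ _⟩
  have hKV : finrank K V = m := by
    rw [← Module.finrank_mul_finrank K E V, hK2, hE, mul_one]
  have hlin : ∀ (i : ι) (c : K) (v : V), a i (c • v) = c • a i v := by
    intro i c v
    rw [he, he]
    change e i • (c : E) • v = (c : E) • e i • v
    rw [smul_smul, smul_smul, mul_comm]
  obtain ⟨v₀, hv₀⟩ : ∃ v : V, v ≠ 0 := by
    by_contra hcon
    push Not at hcon
    have : Subsingleton V := ⟨fun a b => by rw [hcon a, hcon b]⟩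
    rw [finrank_zero_of_subsingleton] at hn
    omega
  -- some `a i` is not a `K`-scalar
  have hns : ∃ i, ¬ ∃ c : K, ∀ v, a i v = c • v := by
    by_contra hcon
    push Not at hcon
    let W : Submodule F V := (Submodule.span K {v₀}).restrictScalars F
    have hW : ∀ i, ∀ w ∈ W, a i w ∈ W := by
      intro i w hw
      obtain ⟨c, hc⟩ := hcon i
      rw [hc]
      exact (Submodule.span K {v₀}).smul_mem c hw
    have hdim : finrank F W = d := by
      have h1 := Module.finrank_mul_finrank F K (Submodule.span K {v₀})
      rw [hK1, finrank_span_singleton hv₀, mul_one] at h1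
      exact h1.symm
    rcases hirr W hW with h1 | h1
    · rw [h1, finrank_bot] at hdim
      omega
    · rw [h1, finrank_top] at hdim
      omega
  have hcardK : Nat.card K = Nat.card F ^ d := by
    rw [Module.natCard_eq_pow_finrank (K := F) (V := K), hK1]
  have hq2 : 2 ≤ Nat.card F := Finite.one_lt_card
  obtain ⟨hS, hSn, hMperf, π, hπ, hπk⟩ := exists_pi (L := K) h.fr (by omega) (four_le (F := F) (by omega))
  refine no_ext (L := K) h (by omega) (by omega) hne hlin hns ?_
  by_cases hexc : Exc (Matrix.ProjectiveSpecialLinearGroup (Fin (finrank K V)) K)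
  · right
    have h1 := psl_exc (by omega) hexc
    rw [hKV, ← Nat.card_eq_fintype_card, hcardK] at h1
    set q := Nat.card F with hq
    have hq3 : q ≤ 3 := by
      by_contra hcon
      have h2 : 4 ^ 2 ≤ q ^ d :=
        (Nat.pow_le_pow_left (by omega : 4 ≤ q) 2).trans (Nat.pow_le_pow_right (by omega) hd2)
      omega
    have h2d : d ≤ 3 := by
      by_contra hcon
      have h2 : 2 ^ 4 ≤ q ^ d :=
        (Nat.pow_le_pow_left hq2 4).trans (Nat.pow_le_pow_right (by omega) (by omega))
      omega
    have h3 : q = 3 ∧ d = 2 ∧ m = 2 := by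
      have hne' : ¬ (q = 2 ∧ d * m = 4) := by rwa [← hdm]
      interval_cases q <;> interval_cases d <;> simp at h1 hne' ⊢ <;> omega
    obtain ⟨hq3, hd, hm⟩ := h3
    rw [hm, hd] at hdm
    -- the order of `e i` divides `2 r i` and `80`
    have hcardE : Nat.card E = 81 := by
      rw [Module.natCard_eq_pow_finrank (K := F) (V := E), hnE, hdm, ← hq, hq3]
      norm_num
    have hcardF : ∀ c : F, c ≠ 0 → c ^ 2 = 1 := by
      intro c hc
      have : Fintype F := Fintype.ofFinite F
      have h4 := FiniteField.pow_card_sub_one_eq_one c hc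
      rwa [← Nat.card_eq_fintype_card, ← hq, hq3] at h4
    have hei0 : ∀ i, e i ≠ 0 := by
      intro i h0
      have h4 := he i v₀
      rw [h0, zero_smul] at h4
      exact hv₀ ((a i).map_eq_zero_iff.1 h4)
    have hei : ∀ i, e i ^ (2 * r i) = 1 := by
      intro i
      obtain ⟨c, hc⟩ := pow_scalar h (by omega) i
      have h4 : ∀ (k : ℕ) (v : V), (a i ^ k) v = e i ^ k • v := by
        intro k
        induction k with
        | zero => intro v; simp
        | succ k ih =>
          intro v
          rw [pow_succ', LinearEquiv.mul_apply, ih, he, smul_smul, pow_succ']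
      have h5 : e i ^ r i = algebraMap F E c := by
        have h6 := hc v₀
        rw [h4, ← algebraMap_smul E c, ← sub_eq_zero, ← sub_smul] at h6
        rcases smul_eq_zero.1 h6 with h7 | h7
        · exact sub_eq_zero.1 h7
        · exact (hv₀ h7).elim
      have hc0 : c ≠ 0 := by
        rintro rfl
        rw [map_zero] at h5
        exact pow_ne_zero _ (hei0 i) h5
      rw [mul_comm, pow_mul, h5, ← map_pow, hcardF c hc0, map_one]
    have h80 : ∀ i, e i ^ 80 = 1 := by
      intro i
      have : Fintype E := Fintype.ofFinite E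
      have h4 := FiniteField.pow_card_sub_one_eq_one _ (hei0 i)
      rwa [← Nat.card_eq_fintype_card, hcardE] at h4
    have hK5 : ∀ i, r i ≠ 5 → ∃ c : K, ∀ v, a i v = c • v := by
      intro i hi
      have h4 : e i ∈ K := by
        rw [hK3, hq3, hd]
        have h5 : e i ^ 8 = 1 := by
          have h6 : orderOf (e i) ∣ 2 * r i := orderOf_dvd_of_pow_eq_one (hei i)
          have h7 : orderOf (e i) ∣ 80 := orderOf_dvd_of_pow_eq_one (h80 i)
          apply orderOf_dvd_iff_pow_eq_one.1
          have h8 : Nat.gcd (2 * r i) 80 ∣ 8 := by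
            by_cases h2 : r i = 2
            · rw [h2]
              decide
            · have h9 : Nat.Coprime (r i) 40 := by
                have h10 : (r i).Coprime 8 :=
                  Nat.Coprime.pow_right 3 ((Nat.coprime_primes (h.pf.prime i) Nat.prime_two).2 h2)
                have h11 : (r i).Coprime 5 := (Nat.coprime_primes (h.pf.prime i) Nat.prime_five).2 hi
                exact Nat.Coprime.mul_right h10 h11
              have h10 : Nat.gcd (2 * r i) (2 * 40) = 2 * Nat.gcd (r i) 40 := Nat.gcd_mul_left 2 (r i) 40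
              rw [h9] at h10
              rw [show (80 : ℕ) = 2 * 40 from rfl, h10]
              decide
          exact (Nat.dvd_gcd h6 h7).trans h8
        calc e i ^ 3 ^ 2 = e i ^ 8 * e i := by rw [← pow_succ]; norm_num
          _ = e i := by rw [h5, one_mul]
      exact ⟨⟨e i, h4⟩, fun v => he i v⟩
    obtain ⟨i₀, hi₀⟩ := hns
    have hr0 : r i₀ = 5 := by
      by_contra hcon
      exact hi₀ (hK5 i₀ hcon)
    refine ⟨i₀, fun i hi => hK5 i fun h5 => hi ?_⟩
    exact h.pf.inj (h5.trans hr0.symm)
  · left
    refine hIH.use (S := N) (MulEquiv.refl N) (ML_le (L := K) h.fr) (ML_ne h.fr (by omega) (by omega)) π hπ hS hSn ?_ hexc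
    left
    refine ⟨K, inferInstance, inferInstance, finrank K V, by omega, fun _ => ?_, ⟨MulEquiv.refl _⟩⟩
    rw [← Nat.card_eq_fintype_card]
    exact four_le (F := F) (by omega)

end main

/-- the field generated by an irreducible commuting family -/
theorem exists_field {F V ι : Type} [Field F] [Finite F] [AddCommGroup V] [Module F V] [FiniteDimensional F V]
    {a : ι → V ≃ₗ[F] V} (hcomm : ∀ i j, a i * a j = a j * a i) {v₀ : V} (hv₀ : v₀ ≠ 0)
    (hirr : ∀ W : Submodule F V, (∀ i, ∀ w ∈ W, a i w ∈ W) → W = ⊥ ∨ W = ⊤) :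
    ∃ (E : Type) (_ : Field E) (_ : Finite E) (_ : Algebra F E) (_ : Module E V) (_ : IsScalarTower F E V)
      (e : ι → E), finrank E V = 1 ∧ ∀ i v, a i v = e i • v := by
  classical
  let s : Set (Module.End F V) := Set.range fun i => (a i : V →ₗ[F] V)
  let A : Subalgebra F (Module.End F V) := Algebra.adjoin F s
  have hs : ∀ x ∈ s, ∀ y ∈ s, x * y = y * x := by
    rintro _ ⟨i, rfl⟩ _ ⟨j, rfl⟩
    have := congrArg (fun f : V ≃ₗ[F] V => (f : V →ₗ[F] V)) (hcomm i j)
    exact this
  let cr : CommRing A := Algebra.adjoinCommRingOfComm F hs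
  have hcommA : ∀ x y : A, x * y = y * x := fun x y => cr.mul_comm x y
  have hmem : ∀ i, (a i : V →ₗ[F] V) ∈ A := fun i => Algebra.subset_adjoin ⟨i, rfl⟩
  have hfinV : Finite V := Module.finite_of_finite F
  have hfinE : Finite (Module.End F V) := DFunLike.finite _
  have hfinA : Finite A := Subtype.finite
  -- no zero divisors
  have hker : ∀ b : A, (b : Module.End F V) ≠ 0 → ∀ v, (b : Module.End F V) v = 0 → v = 0 := by
    intro b hb v hv
    rcases hirr (LinearMap.ker (b : Module.End F V)) (by
      intro i w hw
      rw [LinearMap.mem_ker] at hw ⊢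
      have h1 := congrArg (fun f : A => (f : Module.End F V) w) (hcommA b ⟨_, hmem i⟩)
      have h2 : (b : Module.End F V) (a i w) = a i ((b : Module.End F V) w) := h1
      rw [h2, hw, map_zero]) with h1 | h1
    · have : v ∈ LinearMap.ker (b : Module.End F V) := hv
      rw [h1] at this
      exact this
    · exact (hb (LinearMap.ker_eq_top.1 h1)).elim
  have hnt : Nontrivial A := ⟨⟨0, 1, fun h => by
    have h1 := congrArg (fun f : A => (f : Module.End F V) v₀) h
    exact hv₀ h1.symm⟩⟩
  have hnz : NoZeroDivisors A := ⟨by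
    intro b c hbc
    by_cases hb : (b : Module.End F V) = 0
    · left
      exact Subtype.ext hb
    · right
      apply Subtype.ext
      refine LinearMap.ext fun v => ?_
      apply hker b hb
      have h1 := congrArg (fun f : A => (f : Module.End F V) v) hbc
      exact h1⟩
  have hdom : IsDomain A := NoZeroDivisors.to_isDomain A
  have : Fintype A := Fintype.ofFinite A
  let fld : Field A := Fintype.fieldOfDomain A
  refine ⟨A, fld, hfinA, Subalgebra.algebra A, Subalgebra.moduleLeft A, ⟨fun c b v => ?_⟩, fun i => ⟨_, hmem i⟩, ?_,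
    fun i v => rfl⟩
  · rfl
  · rw [finrank_eq_one_iff_of_nonzero' v₀ hv₀]
    intro w
    let W : Submodule F V := (Subalgebra.toSubmodule A).map (LinearMap.applyₗ v₀)
    have hW : W = ⊥ ∨ W = ⊤ := by
      apply hirr
      rintro i _ ⟨b, hb, rfl⟩
      exact ⟨_, A.mul_mem (hmem i) hb, rfl⟩
    rcases hW with hW | hW
    · exfalso
      apply hv₀
      have : v₀ ∈ W := ⟨1, A.one_mem, rfl⟩
      rw [hW] at this
      exact this
    · have : w ∈ W := by
        rw [hW]
        trivial
      obtain ⟨b, hb, hbw⟩ := this
      exact ⟨⟨b, hb⟩, hbw⟩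

/-- irreducible covers in composite dimension -/
theorem no_irr_comp {F V : Type} [Field F] [Finite F] [AddCommGroup V] [Module F V]
    {G Ω : Type} [Group G] [MulAction G Ω] {N : Subgroup G} {κ : SLV F V →* G}
    {ι : Type} {x : ι → G} {r : ι → ℕ} {a : ι → V ≃ₗ[F] V} [Finite ι] [Finite G]
    (h : LinCov Ω N κ x r a) (hn : 3 ≤ finrank F V) (hne : ¬ (Nat.card F = 2 ∧ finrank F V = 4))
    (hc : ¬ (finrank F V).Prime) (hIH : IH (Nat.card N))
    (hirr : ∀ W : Submodule F V, (∀ i, ∀ w ∈ W, a i w ∈ W) → W = ⊥ ∨ W = ⊤) : False := by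
  have hfin : FiniteDimensional F V := Module.finite_of_finrank_pos (by omega)
  obtain ⟨v₀, hv₀⟩ : ∃ v : V, v ≠ 0 := by
    by_contra hcon
    push Not at hcon
    have : Subsingleton V := ⟨fun a b => by rw [hcon a, hcon b]⟩
    rw [finrank_zero_of_subsingleton] at hn
    omega
  obtain ⟨E, _, _, _, _, _, e, hE, he⟩ := exists_field h.comm hv₀ hirr
  exact no_irr_field h hE e he hn hne hc hIH hirr

end Cfsg.Agent.H338.RC
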