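import Cfsg.Agent.H510.Tri3.SUTwo

/-!
# S3510, triality type iii, MIXED (c) (helper338): the subgroup `SU₃` of the centraliser of `c`

`V = W ⊥ W^⊥`, `W = ker (c + c⁻¹ - τ)` of dimension 6, `W^⊥ = ker (c + c⁻¹ - τ')` of dimension 2, `c` has no
eigenvalues in `F`: the derived group of the centraliser of `c` is `SU₃(K)`, `K = F[c|W]`.
-/

set_option autoImplicit false
set_option linter.unusedSectionVars false
open Cfsg

namespace Cfsg.Agent.H338.RC.SUD

open QuadraticMap Module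
open Cfsg.Agent.LieClassical.OrthCore Cfsg.Agent.LieClassical.HermBasic Cfsg.Agent.LieClassical.HermSiegel
open Cfsg.Agent.LieClassical.OrthTrans Cfsg.Agent.ClassicalGeometry.OrthSemi Cfsg.Agent.ClassicalGeometry.OrthAut1
open Cfsg.Agent.H106.RC Cfsg.Agent.H93.RC Cfsg.Agent.H188.RC Cfsg.Agent.GenOrth Cfsg.Agent.H338.RC
open Cfsg.Agent.H510.Tri3
open scoped commutatorElement

section lin

variable {F V : Type} [Field F] [Finite F] [AddCommGroup V] [Module F V] [FiniteDimensional F V]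

/-- the situation -/
structure CW (Q : QuadraticForm F V) (c : V ≃ₗ[F] V) (W : Submodule F V) (τ τ' : F) : Prop where
  iso : c ∈ O Q
  nd : Nondeg (Q.comp W.subtype)
  ne : τ ≠ τ'
  h1 : ∀ v ∈ W, c (c v) + v = τ • c v
  h2 : ∀ v, (∀ w ∈ W, polar Q v w = 0) → c (c v) + v = τ' • c v
  h3 : ∀ v ∈ W, ∀ a : F, c v = a • v → v = 0
  h4 : ∀ v, (∀ w ∈ W, polar Q v w = 0) → ∀ a : F, c v = a • v → v = 0
  two : finrank F V = finrank F W + 2

variable {Q : QuadraticForm F V} {c : V ≃ₗ[F] V} {W : Submodule F V} {τ τ' : F}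

theorem perp_sub_π (hW : Nondeg (Q.comp W.subtype)) (v : V) :
    ∀ w ∈ W, polar Q (v - (embW hW).j ((embW hW).π v)) w = 0 := by
  intro w hw
  have h1 := (embW hW).adj ⟨w, hw⟩ v
  rw [embW_j, embW_c, one_mul] at h1
  rw [polar_comm, polar_sub_right, h1, embW_j]
  exact sub_self _

theorem π_eq_zero_iff (hW : Nondeg (Q.comp W.subtype)) (v : V) :
    (embW hW).π v = 0 ↔ ∀ w ∈ W, polar Q v w = 0 := by
  constructor
  · intro h w hw
    have h1 := perp_sub_π hW v w hw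
    rwa [h, map_zero, sub_zero] at h1
  · intro h
    apply hW
    intro y
    have h1 := (embW hW).adj y v
    rw [embW_j, embW_c, one_mul] at h1
    have h2 : polar (Q.comp W.subtype) y ((embW hW).π v) = 0 := by
      rw [← h1, polar_comm]
      exact h y y.2
    rw [polar_comm]
    exact h2

namespace CW

variable (h : CW Q c W τ τ')
include h

theorem eig_ne {v : V} (hv : c (c v) + v = τ • c v) (hv' : c (c v) + v = τ' • c v) : v = 0 := by
  have h1 : (τ - τ') • c v = 0 := by rw [sub_smul, ← hv, ← hv', sub_self]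
  rcases smul_eq_zero.1 h1 with h2 | h2
  · exact (h.ne (sub_eq_zero.1 h2)).elim
  · exact (LinearEquiv.map_eq_zero_iff c).1 h2

theorem mem_iff (v : V) : v ∈ W ↔ c (c v) + v = τ • c v := by
  refine ⟨h.h1 v, fun hv => ?_⟩
  set u : V := (embW h.nd).j ((embW h.nd).π v) with hu
  have huW : u ∈ W := ((embW h.nd).π v).2
  have hp := perp_sub_π h.nd v
  have e1 := h.h2 _ hp
  have e2 := h.h1 u huW
  have e3 : c (c (v - u)) + (v - u) = τ • c (v - u) := by
    rw [map_sub, map_sub, smul_sub, ← hv, ← e2]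
    abel
  have e4 := h.eig_ne e3 e1
  rw [sub_eq_zero.1 e4]
  exact huW

theorem perp_iff (v : V) : (∀ w ∈ W, polar Q v w = 0) ↔ c (c v) + v = τ' • c v := by
  refine ⟨h.h2 v, fun hv => ?_⟩
  set u : V := (embW h.nd).j ((embW h.nd).π v) with hu
  have huW : u ∈ W := ((embW h.nd).π v).2
  have hp := perp_sub_π h.nd v
  have e1 := h.h2 _ hp
  have e2 := h.h1 u huW
  have e3 : c (c u) + u = τ' • c u := by
    have e4 : c (c v) + v - (c (c (v - u)) + (v - u)) = τ' • c v - τ' • c (v - u) := by rw [hv, e1]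
    rw [map_sub, map_sub] at e4
    have e5 : c (c u) + u = c (c v) + v - (c (c v) - c (c u) + (v - u)) := by abel
    rw [e5, e4, ← smul_sub]
    congr 1
    abel
  have e4 := h.eig_ne e2 e3
  rw [← hu, e4, sub_zero] at hp
  exact hp

variable {a b : V ≃ₗ[F] V}

theorem map_mem (ha : ∀ v, a (c v) = c (a v)) {v : V} (hv : v ∈ W) : a v ∈ W := by
  rw [h.mem_iff] at hv ⊢
  rw [← ha, ← ha, ← map_add, ← map_smul, hv]

theorem map_perp (ha : ∀ v, a (c v) = c (a v)) {v : V} (hv : ∀ w ∈ W, polar Q v w = 0) :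
    ∀ w ∈ W, polar Q (a v) w = 0 := by
  rw [h.perp_iff] at hv ⊢
  rw [← ha, ← ha, ← map_add, ← map_smul, hv]

theorem exists_coeff {p p' : V} (hp : ∀ w ∈ W, polar Q p w = 0) (hp' : ∀ w ∈ W, polar Q p' w = 0) (h0 : p ≠ 0) :
    ∃ x y : F, p' = x • p + y • c p := by
  have hk : finrank F (LinearMap.ker (embW h.nd).π) = 2 := by
    have e1 := LinearMap.finrank_range_add_finrank_ker (embW h.nd).π
    have e2 : LinearMap.range (embW h.nd).π = ⊤ := by
      rw [LinearMap.range_eq_top]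
      intro w
      exact ⟨_, (embW h.nd).π_j w⟩
    rw [e2, finrank_top, h.two] at e1
    omega
  have hpk : p ∈ LinearMap.ker (embW h.nd).π := (π_eq_zero_iff h.nd p).2 hp
  have hcp : c p ∈ LinearMap.ker (embW h.nd).π :=
    (π_eq_zero_iff h.nd _).2 (h.map_perp (fun _ => rfl) hp)
  have hpk' : p' ∈ LinearMap.ker (embW h.nd).π := (π_eq_zero_iff h.nd p').2 hp'
  have hind : LinearIndependent F ![(⟨p, hpk⟩ : LinearMap.ker (embW h.nd).π), ⟨c p, hcp⟩] := by
    rw [LinearIndependent.pair_iff]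
    intro x y hxy
    have h1 : x • p + y • c p = 0 := congrArg Subtype.val hxy
    have hy : y = 0 := by
      by_contra hy
      apply h0
      apply h.h4 p hp (-(y⁻¹ * x))
      have h2 : y • c p = -(x • p) := by
        rw [eq_neg_iff_add_eq_zero, add_comm]
        exact h1
      calc c p = y⁻¹ • (y • c p) := by rw [inv_smul_smul₀ hy]
        _ = _ := by rw [h2, smul_neg, smul_smul, neg_smul]
    rw [hy, zero_smul, add_zero] at h1
    exact ⟨(smul_eq_zero.1 h1).resolve_right h0, hy⟩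
  have hspan := hind.span_eq_top_of_card_eq_finrank' (by rw [hk]; rfl)
  have h1 : (⟨p', hpk'⟩ : LinearMap.ker (embW h.nd).π) ∈ Submodule.span F (Set.range
      ![(⟨p, hpk⟩ : LinearMap.ker (embW h.nd).π), ⟨c p, hcp⟩]) := by rw [hspan]; trivial
  rw [Matrix.range_cons, Matrix.range_cons, Matrix.range_empty, Set.union_empty, Set.singleton_union,
    Submodule.mem_span_pair] at h1
  obtain ⟨x, y, hxy⟩ := h1
  exact ⟨x, y, (congrArg Subtype.val hxy).symm⟩

theorem comm_perp (ha : ∀ v, a (c v) = c (a v)) (hb : ∀ v, b (c v) = c (b v)) {p : V}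
    (hp : ∀ w ∈ W, polar Q p w = 0) : a (b p) = b (a p) := by
  by_cases h0 : p = 0
  · rw [h0, map_zero, map_zero, map_zero]
  obtain ⟨x, y, hxy⟩ := h.exists_coeff hp (h.map_perp ha hp) h0
  obtain ⟨x', y', hxy'⟩ := h.exists_coeff hp (h.map_perp hb hp) h0
  rw [hxy', hxy, map_add, map_add, map_smul, map_smul, map_smul, map_smul, ha, hb, hxy, hxy', map_add, map_add,
    map_smul, map_smul, map_smul, map_smul]
  module

theorem commutator_perp (ha : ∀ v, a (c v) = c (a v)) (hb : ∀ v, b (c v) = c (b v)) {p : V}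
    (hp : ∀ w ∈ W, polar Q p w = 0) : (a * b * a⁻¹ * b⁻¹) p = p := by
  have ha' : ∀ v, a⁻¹ (c v) = c (a⁻¹ v) := by
    intro v
    apply a.injective
    rw [ha]
    change (a * a⁻¹) (c v) = c ((a * a⁻¹) v)
    rw [mul_inv_cancel]
    rfl
  have hb' : ∀ v, b⁻¹ (c v) = c (b⁻¹ v) := by
    intro v
    apply b.injective
    rw [hb]
    change (b * b⁻¹) (c v) = c ((b * b⁻¹) v)
    rw [mul_inv_cancel]
    rfl
  change a (b (a⁻¹ (b⁻¹ p))) = p
  rw [h.comm_perp ha hb (h.map_perp ha' (h.map_perp hb' hp))]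
  change b ((a * a⁻¹) (b⁻¹ p)) = p
  rw [mul_inv_cancel]
  change (b * b⁻¹) p = p
  rw [mul_inv_cancel]
  rfl

end CW

end lin

section herm

variable {F K V : Type} [Field F] [Finite F] [Field K] [Fintype K] [Algebra F K] [AddCommGroup V] [Module F V]
  [FiniteDimensional F V] {Q : QuadraticForm F V} {W : Submodule F V} [Module K W] [IsScalarTower F K W] {q : ℕ}
  {m : ℕ}

/-- restriction to `W` -/
theorem exists_lin {a : V ≃ₗ[F] V} (haW : ∀ v ∈ W, a v ∈ W)
    (hlin : ∀ (k : K) (w : W), a ((k • w : W) : V) = ((k • (⟨a w, haW w w.2⟩ : W) : W) : V)) :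
    ∃ A : W ≃ₗ[K] W, ∀ w : W, ((A w : W) : V) = a w := by
  have hVf : Finite V := Module.finite_of_finite F
  let f : W →ₗ[K] W :=
    { toFun := fun w => ⟨a w, haW w w.2⟩
      map_add' := fun u v => Subtype.ext (by
        change a ((u : V) + v) = _
        rw [map_add]; rfl)
      map_smul' := fun k w => Subtype.ext (hlin k w) }
  have hinj : Function.Injective f := fun u v huv => Subtype.ext (a.injective (congrArg Subtype.val huv))
  exact ⟨LinearEquiv.ofBijective f (Finite.injective_iff_bijective.1 hinj), fun w => rfl⟩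

variable (h : HK (Q.comp W.subtype) K q) {φ : W ≃ₗ[K] (Fin m → K)}
  (hφ : ∀ v w, h.hm v w = hermForm m K q (φ v) (φ w))

include hφ in
/-- elements of `SU` from isometries of determinant one -/
theorem exists_su {A : W ≃ₗ[K] W} (hA : ∀ u v, h.hm (A u) (A v) = h.hm u v) (hdet : LinearEquiv.det A = 1) :
    ∃ s : SU m K q, ∀ v, (HK.su (F := F) φ s) v = A v := by
  let L : (Fin m → K) ≃ₗ[K] (Fin m → K) := (φ.symm.trans A).trans φ
  have hL : ∀ v, L (φ v) = φ (A v) := by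
    intro v
    change φ (A (φ.symm (φ v))) = _
    rw [LinearEquiv.symm_apply_apply]
  have hd : (LinearMap.toMatrix' (L : (Fin m → K) →ₗ[K] (Fin m → K))).det = 1 := by
    rw [LinearMap.det_toMatrix']
    have h1 : LinearMap.det (L : (Fin m → K) →ₗ[K] (Fin m → K)) = LinearMap.det (A : W →ₗ[K] W) :=
      LinearMap.det_conj (A : W →ₗ[K] W) φ
    rw [h1, ← LinearEquiv.coe_det, hdet]
    rfl
  have hv : ∀ v, (LinearMap.toMatrix' (L : (Fin m → K) →ₗ[K] (Fin m → K))).mulVec v = L v := by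
    intro v
    rw [LinearMap.toMatrix'_mulVec]
    rfl
  refine ⟨mkSU _ hd ?_, ?_⟩
  · intro u v
    obtain ⟨u, rfl⟩ := φ.surjective u
    obtain ⟨v, rfl⟩ := φ.surjective v
    rw [hv, hv, hL, hL, ← hφ, ← hφ, hA]
  · intro v
    apply φ.injective
    rw [HK.phi_su, ← hL]
    exact hv _

theorem hm_iso {a : V ≃ₗ[F] V} (ha : a ∈ O Q) {A : W ≃ₗ[K] W} (hA : ∀ w : W, ((A w : W) : V) = a w) (u v : W) :
    h.hm (A u) (A v) = h.hm u v := by
  have hp : ∀ u v : W, polar (Q.comp W.subtype) (A u) (A v) = polar (Q.comp W.subtype) u v := by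
    intro u v
    change Q (((A u + A v : W)) : V) - Q ((A u : W) : V) - Q ((A v : W) : V) = Q ((u + v : W) : V) - Q (u : V) - Q (v : V)
    rw [← map_add, hA, hA, hA, ha, ha, ha]
  rw [HK.hm_def, HK.hm_def, ← map_smul A, hp, hp]

include h in
/-- an element of order three -/
theorem exists_three : ∃ s : SU 3 K q, s ^ 3 = 1 ∧ s ≠ 1 := by
  let M : Matrix (Fin 3) (Fin 3) K := !![0, 1, 0; 0, 0, 1; 1, 0, 0]
  have hM : ∀ v, M.mulVec v = ![v 1, v 2, v 0] := by
    intro v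
    funext i
    fin_cases i <;> simp [M, Matrix.mulVec, dotProduct, Fin.sum_univ_three]
  have hd : M.det = 1 := by
    rw [Matrix.det_fin_three]
    simp [M]
  have hf : ∀ u v, hermForm 3 K q (M.mulVec u) (M.mulVec v) = hermForm 3 K q u v := by
    intro u v
    rw [hM, hM, herm_def, herm_def, Fin.sum_univ_three, Fin.sum_univ_three]
    simp
    ring
  refine ⟨mkSU M hd hf, ?_, ?_⟩
  · apply ext_act
    intro v
    rw [pow_three, act_mul, act_mul, act_one]
    change M.mulVec (M.mulVec (M.mulVec v)) = v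
    rw [hM, hM, hM]
    funext i
    fin_cases i <;> rfl
  · intro h1
    have h2 := congrArg (fun s : SU 3 K q => act s ![1, 0, 0] 0) h1
    change M.mulVec ![1, 0, 0] 0 = act 1 ![1, 0, 0] 0 at h2
    rw [hM, act_one] at h2
    exact zero_ne_one h2

variable (hG : Good Q) (hperf : commutator (SU m K q) = ⊤)

/-- the one-parameter group of unitary transvections -/
theorem exists_one (hW4 : 5 ≤ finrank F W) :
    ∃ Y : V →ₗ[F] V, Y ≠ 0 ∧ ∀ t : F, ∃ s, ∀ v, ((suW h hG hφ hperf s : ↥(E Q)) : V ≃ₗ[F] V) v = v + t • Y v := by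
  obtain ⟨e, he, he0⟩ : ∃ e : W, Q.comp W.subtype e = 0 ∧ e ≠ 0 := by
    obtain ⟨w, hw, hw0, hws⟩ := LieClassical.OrthFinite.exists_sing_mem (Q := Q) W (by omega)
    exact ⟨⟨w, hw⟩, hws, fun h0 => hw0 (congrArg Subtype.val h0)⟩
  set θ : K := h.th - h.th ^ q with hθ
  have hθ0 : θ ≠ 0 := h.sub_ne
  let Y : V →ₗ[F] V :=
    { toFun := fun v => ((((θ * h.hm ((embW h.nondeg).π v) e) • e : W)) : V)
      map_add' := fun u v => by
        rw [map_add, h.hm_add_left, mul_add, add_smul]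
        rfl
      map_smul' := fun t v => by
        rw [map_smul, h.hm_base_left, mul_left_comm, mul_smul, algebraMap_smul]
        rfl }
  have hY : ∀ v, Y v = ((((θ * h.hm ((embW h.nondeg).π v) e) • e : W)) : V) := fun v => rfl
  refine ⟨Y, ?_, ?_⟩
  · intro h0
    obtain ⟨w, hw⟩ : ∃ w, h.hm w e ≠ 0 := by
      by_contra hcon
      push Not at hcon
      apply he0
      apply h.nondeg
      intro w
      apply (algebraMap F K).injective
      rw [QuadraticMap.polar_comm, ← h.hm_trace, hcon, zero_pow h.q_ne, add_zero, map_zero]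
    have h1 := congrArg (fun f : V →ₗ[F] V => f ((embW h.nondeg).j w)) h0
    change Y _ = 0 at h1
    rw [hY, Emb.π_j] at h1
    have h2 : (θ * h.hm w e) • e = 0 := Subtype.ext h1
    rcases smul_eq_zero.1 h2 with h3 | h3
    · exact mul_ne_zero hθ0 hw h3
    · exact he0 h3
  · intro t
    have hs : IsSiegel q (φ e) 0 (algebraMap F K t * θ) := by
      refine ⟨?_, ?_, ?_⟩
      · rw [← hφ, h.hm_self, he, map_zero]
      · rw [herm_zero_left]
      · rw [herm_zero_left, mul_pow, h.base, hθ, sub_pow_q h.card, pow_q_pow_q h.card]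
        ring
    refine ⟨Cfsg.Agent.LieClassical.HermSiegel.siegel h.card (φ e) 0 (algebraMap F K t * θ) hs, fun v => ?_⟩
    have h1 : ∀ w : W, (HK.su (F := F) φ (Cfsg.Agent.LieClassical.HermSiegel.siegel h.card (φ e) 0
        (algebraMap F K t * θ) hs)) w = w + t • ((θ * h.hm w e) • e) := by
      intro w
      apply φ.injective
      rw [HK.phi_su, act_siegel, ← hφ, smul_zero, add_zero, herm_zero_right h.card, sub_zero, map_add,
        ← algebraMap_smul K t, map_smul, map_smul, smul_smul, mul_assoc]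
    rw [suW_coe, Emb.ext_apply, h1, add_sub_cancel_left, hY]
    rfl

/-- conjugation by `c` -/
theorem suW_comm {c : V ≃ₗ[F] V} (hG : Good Q) (hperf : commutator (SU m K q) = ⊤)
    (hcO : c ∈ O Q) (hcW : ∀ v ∈ W, c v ∈ W) (α : K) (hα : ∀ w : W, ((α • w : W) : V) = c w) (s : SU m K q) (v : V) :
    ((suW h hG hφ hperf s : ↥(E Q)) : V ≃ₗ[F] V) (c v) = c (((suW h hG hφ hperf s : ↥(E Q)) : V ≃ₗ[F] V) v) := by
  have hVf : Finite V := Module.finite_of_finite F
  have hc : IsSS Q (RingEquiv.refl F) 1 (c.toEquiv) :=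
    ⟨one_ne_zero, fun u v => map_add c u v, fun a v => map_smul c a v, fun v => by
      rw [one_mul]; exact hcO v⟩
  obtain ⟨L, hL, hLc⟩ := exists_restr (W := W) hc hcW
  have hπ := π_restr h.nondeg hc hL hLc v
  have hLα : ∀ w, L w = α • w := by
    intro w
    apply Subtype.ext
    rw [hLc, hα]
    rfl
  have hπ' : (embW h.nondeg).π (c v) = α • (embW h.nondeg).π v := by
    rw [← hLα]
    exact hπ
  rw [suW_coe, Emb.ext_apply, Emb.ext_apply, hπ', HK.su_smul, ← smul_sub, map_add]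
  congr 1
  rw [embW_j, embW_j]
  exact hα _

end herm

section main

variable {F V : Type} [Field F] [Finite F] [AddCommGroup V] [Module F V] [FiniteDimensional F V]
  {Q : QuadraticForm F V} {c : V ≃ₗ[F] V} {W : Submodule F V} {τ τ' : F}

theorem inv_comm {a : V ≃ₗ[F] V} (ha : ∀ v, a (c v) = c (a v)) (v : V) : a⁻¹ (c v) = c (a⁻¹ v) := by
  apply a.injective
  rw [ha]
  change (a * a⁻¹) (c v) = c ((a * a⁻¹) v)
  rw [mul_inv_cancel]
  rfl

/-- the group `SU₃` in the centraliser of `c` -/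
theorem su3_data (hG : Good Q) (h : CW Q c W τ τ') (h6 : finrank F W = 6) (hq2 : Nat.card F ≠ 2) :
    ∃ (K : Type) (_ : Field K) (_ : Fintype K) (φ : SU 3 K (Nat.card F) →* ↥(E Q)),
      Fintype.card K = Nat.card F ^ 2 ∧ Function.Injective φ ∧
      (∀ s v, ((φ s : ↥(E Q)) : V ≃ₗ[F] V) (c v) = c (((φ s : ↥(E Q)) : V ≃ₗ[F] V) v)) ∧
      (∀ a b : ↥(E Q), (∀ v, (a : V ≃ₗ[F] V) (c v) = c ((a : V ≃ₗ[F] V) v)) →
        (∀ v, (b : V ≃ₗ[F] V) (c v) = c ((b : V ≃ₗ[F] V) v)) → ⁅a, b⁆ ∈ φ.range) ∧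
      (∃ Y : V →ₗ[F] V, Y ≠ 0 ∧ ∀ t : F, ∃ s, ∀ v, ((φ s : ↥(E Q)) : V ≃ₗ[F] V) v = v + t • Y v) ∧
      commutator (SU 3 K (Nat.card F)) = ⊤ ∧ IsSimpleGroup (PSU 3 K (Nat.card F)) ∧
      ¬ IsMulCommutative (PSU 3 K (Nat.card F)) ∧ Cl (PSU 3 K (Nat.card F)) ∧ ¬ Exc (PSU 3 K (Nat.card F)) ∧
      ∃ s : SU 3 K (Nat.card F), s ^ 3 = 1 ∧ s ≠ 1 := by
  have hcW : ∀ v ∈ W, c v ∈ W := fun v hv => h.map_mem (fun _ => rfl) hv
  let k : W →ₗ[F] W := ((c : V ≃ₗ[F] V) : V →ₗ[F] V).restrict hcW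
  have hk : ∀ w : W, ((k w : W) : V) = c w := fun w => rfl
  have hkk : ∀ v, k (k v) = τ • k v - (1 : F) • v := by
    intro v
    apply Subtype.ext
    have h1 := h.h1 v v.2
    change c (c v) = τ • c v - (1 : F) • (v : V)
    rw [one_smul, ← h1, add_sub_cancel_right]
  have hirr : ∀ a : F, a * a - τ * a + 1 ≠ 0 := by
    intro a ha
    have : Nontrivial W := Module.nontrivial_of_finrank_pos (R := F) (by omega)
    obtain ⟨w, hw⟩ := exists_ne (0 : W)
    have ha0 : a ≠ 0 := by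
      rintro rfl
      simp at ha
    have hta : τ = a + a⁻¹ := by
      field_simp
      linear_combination -ha
    have h1 : k (k w - a⁻¹ • w) = a • (k w - a⁻¹ • w) := by
      rw [map_sub, map_smul, hkk, hta]
      rw [smul_sub, smul_smul, mul_inv_cancel₀ ha0]
      module
    have h2 := h.h3 _ (k w - a⁻¹ • w).2 a (congrArg Subtype.val h1)
    have h3 : k w = a⁻¹ • w := sub_eq_zero.1 (Subtype.ext h2)
    have h4 := h.h3 _ w.2 a⁻¹ (congrArg Subtype.val h3)
    exact hw (Subtype.ext h4)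
  have hQk : ∀ v, (Q.comp W.subtype) (k v) = 1 * (Q.comp W.subtype) v := by
    intro v
    rw [one_mul]
    exact h.iso v
  obtain ⟨K, _, _, _, _, _, α, hHK, hα, hFK, hdec⟩ := exists_HK h.nd k τ 1 hkk hirr hQk
  have h3 : finrank K W = 3 := by
    have h1 := Module.finrank_mul_finrank F K W
    rw [hFK, h6] at h1
    omega
  have hKW : FiniteDimensional K W := Module.finite_of_finrank_pos (by omega)
  obtain ⟨φ, hφ⟩ : ∃ φ : W ≃ₗ[K] (Fin 3 → K), ∀ v w, hHK.hm v w = hermForm 3 K (Nat.card F) (φ v) (φ w) := by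
    have h4 := hHK.exists_phi
    rw [h3] at h4
    exact h4
  have hperf : commutator (SU 3 K (Nat.card F)) = ⊤ :=
    Cfsg.Agent.LieClassical.HermPerfect.commutator_SU_eq_top hHK.card le_rfl (fun h => hq2 h.2)
  have hS : IsSimpleGroup (PSU 3 K (Nat.card F)) :=
    Cfsg.Agent.LieClassical.HermSimple.isSimpleGroup_of_perfect hHK.card le_rfl hperf
  have hSn : ¬ IsMulCommutative (PSU 3 K (Nat.card F)) :=
    not_comm_of_perf' hperf (QuotientGroup.mk' _) (QuotientGroup.mk'_surjective _) hS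
  refine ⟨K, inferInstance, inferInstance, suW hHK hG hφ hperf, hHK.card, suW_inj hHK hG hφ hperf, ?_, ?_,
    exists_one hHK hφ hG hperf (by omega), hperf, hS, hSn, ?_, psu_not_exc hHK.card le_rfl (fun h => hq2 h.2),
    exists_three hHK⟩
  · intro s v
    exact suW_comm hHK hφ hG hperf h.iso hcW α (fun w => by rw [hα, hk]) s v
  · intro a b ha hb
    -- the restrictions
    have key : ∀ a : ↥(E Q), (∀ v, (a : V ≃ₗ[F] V) (c v) = c ((a : V ≃ₗ[F] V) v)) →
        ∃ A : W ≃ₗ[K] W, ∀ w : W, ((A w : W) : V) = (a : V ≃ₗ[F] V) w := by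
      intro a ha
      have haW : ∀ v ∈ W, (a : V ≃ₗ[F] V) v ∈ W := fun v hv => h.map_mem ha hv
      refine exists_lin haW fun x w => ?_
      obtain ⟨u, d, rfl⟩ := hdec x
      have h1 : ∀ w : W, ((((algebraMap F K u + algebraMap F K d * α) • w : W)) : V) = u • (w : V) + d • c w := by
        intro w
        rw [add_smul, mul_smul, algebraMap_smul, algebraMap_smul, hα]
        rfl
      rw [h1, h1, map_add, map_smul, map_smul, ha]
    obtain ⟨A, hA⟩ := key a ha
    obtain ⟨B, hB⟩ := key b hb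
    have hinv : ∀ {a : ↥(E Q)} {A : W ≃ₗ[K] W}, (∀ w : W, ((A w : W) : V) = (a : V ≃ₗ[F] V) w) →
        ∀ w : W, ((A⁻¹ w : W) : V) = ((a : V ≃ₗ[F] V)⁻¹) w := by
      intro a A hA w
      apply (a : V ≃ₗ[F] V).injective
      rw [← hA]
      change (((A * A⁻¹) w : W) : V) = ((a : V ≃ₗ[F] V) * (a : V ≃ₗ[F] V)⁻¹) w
      rw [mul_inv_cancel, mul_inv_cancel]
      rfl
    have hAB : ∀ w : W, (((A * B * A⁻¹ * B⁻¹) w : W) : V) =
        ((a : V ≃ₗ[F] V) * (b : V ≃ₗ[F] V) * (a : V ≃ₗ[F] V)⁻¹ * (b : V ≃ₗ[F] V)⁻¹) w := by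
      intro w
      change ((A (B (A⁻¹ (B⁻¹ w))) : W) : V) = (a : V ≃ₗ[F] V) ((b : V ≃ₗ[F] V) ((a : V ≃ₗ[F] V)⁻¹ ((b : V ≃ₗ[F] V)⁻¹ w)))
      rw [hA, hB, hinv hA, hinv hB]
    have hO : (a : V ≃ₗ[F] V) * (b : V ≃ₗ[F] V) * (a : V ≃ₗ[F] V)⁻¹ * (b : V ≃ₗ[F] V)⁻¹ ∈ O Q :=
      (O Q).mul_mem ((O Q).mul_mem ((O Q).mul_mem (E_le_O a.2) (E_le_O b.2)) ((O Q).inv_mem (E_le_O a.2)))
        ((O Q).inv_mem (E_le_O b.2))
    have hdet : LinearEquiv.det (A * B * A⁻¹ * B⁻¹) = 1 := by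
      rw [map_mul, map_mul, map_mul, map_inv, map_inv]
      rw [mul_right_comm (LinearEquiv.det A) (LinearEquiv.det B), mul_inv_cancel, one_mul, mul_inv_cancel]
    obtain ⟨s, hs⟩ := exists_su hHK hφ (hm_iso hHK hO hAB) hdet
    refine ⟨s, ?_⟩
    apply Subtype.ext
    apply LinearEquiv.ext
    intro v
    rw [suW_coe, Emb.ext_apply, hs, map_sub, embW_j, hAB, commutatorElement_def]
    change v + (((a : V ≃ₗ[F] V) * (b : V ≃ₗ[F] V) * (a : V ≃ₗ[F] V)⁻¹ * (b : V ≃ₗ[F] V)⁻¹)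
      ((embW hHK.nondeg).π v : W) - (embW hHK.nondeg).j ((embW hHK.nondeg).π v)) =
      ((a : V ≃ₗ[F] V) * (b : V ≃ₗ[F] V) * (a : V ≃ₗ[F] V)⁻¹ * (b : V ≃ₗ[F] V)⁻¹) v
    have h1 := h.commutator_perp ha hb (perp_sub_π hHK.nondeg v)
    rw [map_sub] at h1
    have h2 : ((a : V ≃ₗ[F] V) * (b : V ≃ₗ[F] V) * (a : V ≃ₗ[F] V)⁻¹ * (b : V ≃ₗ[F] V)⁻¹) v =
        v - (embW hHK.nondeg).j ((embW hHK.nondeg).π v) +
          ((a : V ≃ₗ[F] V) * (b : V ≃ₗ[F] V) * (a : V ≃ₗ[F] V)⁻¹ * (b : V ≃ₗ[F] V)⁻¹)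
            ((embW hHK.nondeg).j ((embW hHK.nondeg).π v)) := by
      rw [← h1, sub_add_cancel]
    rw [h2, embW_j]
    abel
  · right; right; left
    exact ⟨K, inferInstance, inferInstance, 3, Nat.card F, hHK.card, le_rfl, fun h => hq2 h.2, ⟨MulEquiv.refl _⟩⟩

end main

end Cfsg.Agent.H338.RC.SUD
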