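import Cfsg.Agent.H179.RC.BoxB
import Cfsg.Agent.H338.RC.SUData

/-!
# S3510, triality type iii, MIXED (b) (helper338, second line): the subgroup `SL₃` of the centraliser of `c`

`c` has the four different eigenvalues `a, a⁻¹, b, b⁻¹` with multiplicities `3, 3, 1, 1`: the derived group of the
centraliser of `c` is `SL₃(F)`.
-/

set_option autoImplicit false
set_option linter.unusedSectionVars false
open Cfsg

namespace Cfsg.Agent.H338.RC.SLD

open QuadraticMap Module Matrix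
open Cfsg.Agent.LieClassical.OrthCore
open Cfsg.Agent.LieClassical.OrthTrans Cfsg.Agent.ClassicalGeometry.OrthSemi Cfsg.Agent.ClassicalGeometry.OrthAut1
open Cfsg.Agent.H106.RC Cfsg.Agent.H93.RC Cfsg.Agent.H188.RC Cfsg.Agent.GenOrth Cfsg.Agent.H338.RC
open Cfsg.Agent.H510.Tri3 Cfsg.Agent.H179.RC Cfsg.Agent.LieClassical.SLGen
open scoped commutatorElement

variable {F V : Type} [Field F] [Finite F] [AddCommGroup V] [Module F V] [FiniteDimensional F V]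

/-- eigenspace -/
abbrev Eg (c : V ≃ₗ[F] V) (z : F) : Submodule F V := Module.End.eigenspace (c : V →ₗ[F] V) z

theorem mem_Eg {c : V ≃ₗ[F] V} {z : F} {v : V} : v ∈ Eg c z ↔ c v = z • v := Module.End.mem_eigenspace_iff

/-- the situation -/
structure CL (Q : QuadraticForm F V) (c : V ≃ₗ[F] V) (a b : F) : Prop where
  iso : c ∈ O Q
  nd : Nondeg Q
  ha : a ≠ 0
  hb : b ≠ 0
  haa : a * a ≠ 1
  hbb : b * b ≠ 1
  hab : a ≠ b
  hab1 : a * b ≠ 1
  h1 : finrank F (Eg c a) = 3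
  h2 : finrank F (Eg c a⁻¹) = 3
  h3 : finrank F (Eg c b) = 1
  h4 : finrank F (Eg c b⁻¹) = 1
  h8 : finrank F V = 8

variable {Q : QuadraticForm F V} {c : V ≃ₗ[F] V} {a b : F}

theorem polar_eig (hc : c ∈ O Q) {x y : F} (hxy : x * y ≠ 1) {v w : V} (hv : v ∈ Eg c x) (hw : w ∈ Eg c y) :
    polar Q v w = 0 := by
  have h1 := polar_map hc v w
  rw [mem_Eg.1 hv, mem_Eg.1 hw, polar_smul_left, polar_smul_right, smul_eq_mul, smul_eq_mul] at h1
  have h2 : (x * y - 1) * polar Q v w = 0 := by linear_combination h1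
  exact (mul_eq_zero.1 h2).resolve_left (sub_ne_zero.2 hxy)

theorem sing_eig (hc : c ∈ O Q) {x : F} (hx : x * x ≠ 1) {v : V} (hv : v ∈ Eg c x) : Q v = 0 := by
  have h1 : Q (c v) = Q v := hc v
  rw [mem_Eg.1 hv, QuadraticMap.map_smul, smul_eq_mul] at h1
  have h2 : (x * x - 1) * Q v = 0 := by linear_combination h1
  exact (mul_eq_zero.1 h2).resolve_left (sub_ne_zero.2 hx)

theorem disj_eig {x y : F} (hxy : x ≠ y) : Disjoint (Eg c x) (Eg c y) := by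
  rw [Submodule.disjoint_def]
  intro v hv hw
  rw [mem_Eg] at hv hw
  rw [hv, ← sub_eq_zero, ← sub_smul] at hw
  exact (smul_eq_zero.1 hw).resolve_left (sub_ne_zero.2 hxy)

theorem map_eig {f : V ≃ₗ[F] V} (hf : ∀ v, f (c v) = c (f v)) {x : F} {v : V} (hv : v ∈ Eg c x) : f v ∈ Eg c x := by
  rw [mem_Eg] at hv ⊢
  rw [← hf, hv, map_smul]

theorem comm_one {f g : V ≃ₗ[F] V} (hf : ∀ v, f (c v) = c (f v)) (hg : ∀ v, g (c v) = c (g v)) {x : F}
    (h1 : finrank F (Eg c x) = 1) {v : V} (hv : v ∈ Eg c x) : (f * g * f⁻¹ * g⁻¹) v = v := by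
  have key : ∀ w ∈ Eg c x, f (g w) = g (f w) := by
    intro w hw
    by_cases h0 : w = 0
    · rw [h0, map_zero, map_zero, map_zero]
    have h2 := (finrank_eq_one_iff_of_nonzero' (⟨w, hw⟩ : Eg c x) (fun h => h0 (congrArg Subtype.val h))).1 h1
    obtain ⟨y, hy⟩ := h2 ⟨f w, map_eig hf hw⟩
    obtain ⟨z, hz⟩ := h2 ⟨g w, map_eig hg hw⟩
    have hy' : f w = y • w := (congrArg Subtype.val hy).symm
    have hz' : g w = z • w := (congrArg Subtype.val hz).symm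
    rw [hy', hz', map_smul, map_smul, hy', hz', smul_comm]
  have hf' := fun v => SUD.inv_comm hf v
  have hg' := fun v => SUD.inv_comm hg v
  change f (g (f⁻¹ (g⁻¹ v))) = v
  rw [key _ (map_eig hf' (map_eig hg' hv))]
  change g ((f * f⁻¹) (g⁻¹ v)) = v
  rw [mul_inv_cancel]
  change (g * g⁻¹) v = v
  rw [mul_inv_cancel]
  rfl

namespace CL

variable (h : CL Q c a b)
include h

theorem a_ne : a ≠ a⁻¹ := fun h1 => h.haa (by nth_rw 2 [h1]; exact mul_inv_cancel₀ h.ha)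

theorem b_ne : b ≠ b⁻¹ := fun h1 => h.hbb (by nth_rw 2 [h1]; exact mul_inv_cancel₀ h.hb)

theorem aa' : a⁻¹ * a⁻¹ ≠ 1 := by
  intro h1
  apply h.haa
  have h2 : (a * a) * (a⁻¹ * a⁻¹) = 1 := by
    have := h.ha
    field_simp
  rwa [h1, mul_one] at h2

theorem quad {x : F} (hx : x ≠ 0) {v : V} (hv : v ∈ Eg c x) : c (c v) + v = (x + x⁻¹) • c v := by
  rw [mem_Eg.1 hv, map_smul, mem_Eg.1 hv, smul_smul, smul_smul, add_mul, inv_mul_cancel₀ hx, add_smul, one_smul]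

/-- the 6-dimensional space -/
abbrev W (_ : CL Q c a b) : Submodule F V := Eg c a ⊔ Eg c a⁻¹

/-- the plane -/
abbrev P (_ : CL Q c a b) : Submodule F V := Eg c b ⊔ Eg c b⁻¹

theorem quadW {v : V} (hv : v ∈ h.W) : c (c v) + v = (a + a⁻¹) • c v := by
  obtain ⟨u, hu, w, hw, rfl⟩ := Submodule.mem_sup.1 hv
  have h1 := h.quad h.ha hu
  have h2 := h.quad (inv_ne_zero h.ha) hw
  rw [inv_inv, add_comm a⁻¹ a] at h2
  rw [map_add, map_add, smul_add, ← h1, ← h2]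
  abel

theorem quadP {v : V} (hv : v ∈ h.P) : c (c v) + v = (b + b⁻¹) • c v := by
  obtain ⟨u, hu, w, hw, rfl⟩ := Submodule.mem_sup.1 hv
  have h1 := h.quad h.hb hu
  have h2 := h.quad (inv_ne_zero h.hb) hw
  rw [inv_inv, add_comm b⁻¹ b] at h2
  rw [map_add, map_add, smul_add, ← h1, ← h2]
  abel

theorem tau_ne : a + a⁻¹ - (b + b⁻¹) ≠ 0 := by
  intro h1
  have ha := h.ha
  have hb := h.hb
  have h2 : (a - b) * (a * b - 1) = 0 := by
    field_simp at h1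
    linear_combination h1
  rcases mul_eq_zero.1 h2 with h3 | h3
  · exact h.hab (sub_eq_zero.1 h3)
  · exact h.hab1 (sub_eq_zero.1 h3)

theorem disjWP : Disjoint h.W h.P := by
  rw [Submodule.disjoint_def]
  intro v hv hw
  have h1 : (a + a⁻¹ - (b + b⁻¹)) • c v = 0 := by rw [sub_smul, ← h.quadW hv, ← h.quadP hw, sub_self]
  exact (LinearEquiv.map_eq_zero_iff c).1 ((smul_eq_zero.1 h1).resolve_left h.tau_ne)

theorem finrank_W : finrank F h.W = 6 := by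
  have h1 := Submodule.finrank_sup_add_finrank_inf_eq (Eg c a) (Eg c a⁻¹)
  rw [(disj_eig h.a_ne).eq_bot, finrank_bot, h.h1, h.h2] at h1
  exact h1

theorem finrank_P : finrank F h.P = 2 := by
  have h1 := Submodule.finrank_sup_add_finrank_inf_eq (Eg c b) (Eg c b⁻¹)
  rw [(disj_eig h.b_ne).eq_bot, finrank_bot, h.h3, h.h4] at h1
  exact h1

theorem sup_top : h.W ⊔ h.P = ⊤ := by
  have h1 := Submodule.finrank_sup_add_finrank_inf_eq h.W h.P
  rw [h.disjWP.eq_bot, finrank_bot, h.finrank_W, h.finrank_P] at h1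
  apply Submodule.eq_top_of_finrank_eq
  rw [h.h8]
  exact h1

theorem polarWP {v w : V} (hv : v ∈ h.W) (hw : w ∈ h.P) : polar Q v w = 0 := by
  obtain ⟨u, hu, u', hu', rfl⟩ := Submodule.mem_sup.1 hv
  obtain ⟨p, hp, p', hp', rfl⟩ := Submodule.mem_sup.1 hw
  have ha := h.ha
  have hb := h.hb
  have e1 : a * b⁻¹ ≠ 1 := fun h1 => h.hab (by rw [mul_inv_eq_one₀ hb] at h1; exact h1)
  have e2 : a⁻¹ * b ≠ 1 := fun h1 => h.hab (by rw [inv_mul_eq_one₀ ha] at h1; exact h1)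
  have e3 : a⁻¹ * b⁻¹ ≠ 1 := fun h1 => h.hab1 (by
    rw [← mul_inv, inv_eq_one] at h1
    exact h1)
  rw [polar_add_left, polar_add_right, polar_add_right, polar_eig h.iso h.hab1 hu hp, polar_eig h.iso e1 hu hp',
    polar_eig h.iso e2 hu' hp, polar_eig h.iso e3 hu' hp']
  simp

theorem ndW : Nondeg (Q.comp (h.W).subtype) := by
  intro w hw
  apply Subtype.ext
  apply h.nd
  intro v
  have hv : v ∈ h.W ⊔ h.P := by rw [h.sup_top]; trivial
  obtain ⟨u, hu, p, hp, rfl⟩ := Submodule.mem_sup.1 hv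
  rw [polar_add_right, h.polarWP w.2 hp, add_zero]
  exact hw ⟨u, hu⟩

/-- hyperbolic coordinates -/
theorem exists_coord : ∃ Φ : h.W ≃ₗ[F] (Fin 3 → F) × (Fin 3 → F), HC (Q.comp (h.W).subtype) Φ ∧
    (∀ v : h.W, (v : V) ∈ Eg c a ↔ (Φ v).2 = 0) ∧ ∀ v : h.W, (v : V) ∈ Eg c a⁻¹ ↔ (Φ v).1 = 0 := by
  have hcompl : IsCompl ((Eg c a).comap (h.W).subtype) ((Eg c a⁻¹).comap (h.W).subtype) := by
    constructor
    · rw [Submodule.disjoint_def]
      intro v hv hw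
      apply Subtype.ext
      exact (Submodule.disjoint_def.1 (disj_eig (c := c) h.a_ne)) (v : V) hv hw
    · rw [codisjoint_iff, eq_top_iff]
      intro v _
      obtain ⟨u, hu, w, hw, hv⟩ := Submodule.mem_sup.1 v.2
      refine Submodule.mem_sup.2 ⟨⟨u, Submodule.mem_sup_left hu⟩, hu, ⟨w, Submodule.mem_sup_right hw⟩, hw, ?_⟩
      exact Subtype.ext hv
  obtain ⟨k, Φ, hΦ, hk, h1, h2⟩ := exists_HC h.ndW _ _ hcompl (fun v hv => sing_eig h.iso h.haa hv)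
    (fun v hv => sing_eig h.iso h.aa' hv)
  have hk3 : k = 3 := by
    have := h.finrank_W
    omega
  subst hk3
  exact ⟨Φ, hΦ, h1, h2⟩

end CL

section ext

variable {W : Submodule F V}

/-- extension commutes with `c` -/
theorem ext_comm (hnd : Nondeg (Q.comp W.subtype)) (hcO : c ∈ O Q) (hcW : ∀ v ∈ W, c v ∈ W) (f : W ≃ₗ[F] W)
    (hf : ∀ w : W, ((f ⟨c w, hcW w w.2⟩ : W) : V) = c (f w)) (v : V) :
    (embW hnd).ext f (c v) = c ((embW hnd).ext f v) := by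
  have hVf : Finite V := Module.finite_of_finite F
  have hc : IsSS Q (RingEquiv.refl F) 1 (c.toEquiv) :=
    ⟨one_ne_zero, fun u v => map_add c u v, fun a v => map_smul c a v, fun v => by
      rw [one_mul]; exact hcO v⟩
  obtain ⟨L, hL, hLc⟩ := exists_restr (W := W) hc hcW
  have hπ := π_restr hnd hc hL hLc v
  have hLα : ∀ w : W, L w = ⟨c w, hcW w w.2⟩ := by
    intro w
    apply Subtype.ext
    rw [hLc]
    rfl
  have hπ' : (embW hnd).π (c v) = ⟨c ((embW hnd).π v), hcW _ ((embW hnd).π v).2⟩ := by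
    rw [← hLα]
    exact hπ
  rw [Emb.ext_apply, Emb.ext_apply, hπ', map_add, map_sub, map_sub, map_sub]
  congr 1
  rw [embW_j, embW_j, embW_j, embW_j, hf]

end ext

/-- the group theoretic facts about `SL₃` -/
theorem sl3_facts : commutator (SpecialLinearGroup (Fin 3) F) = ⊤ ∧
    IsSimpleGroup (SpecialLinearGroup (Fin 3) F ⧸ Subgroup.center (SpecialLinearGroup (Fin 3) F)) ∧
    ¬ IsMulCommutative (SpecialLinearGroup (Fin 3) F ⧸ Subgroup.center (SpecialLinearGroup (Fin 3) F)) ∧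
    Cl (SpecialLinearGroup (Fin 3) F ⧸ Subgroup.center (SpecialLinearGroup (Fin 3) F)) ∧
    ¬ Exc (SpecialLinearGroup (Fin 3) F ⧸ Subgroup.center (SpecialLinearGroup (Fin 3) F)) := by
  have hcard : 3 ≤ Fintype.card (Fin 3) := by rw [Fintype.card_fin]
  have hperf : commutator (SpecialLinearGroup (Fin 3) F) = ⊤ := commutator_eq_top hcard
  have hsimp : IsSimpleGroup (SpecialLinearGroup (Fin 3) F ⧸ Subgroup.center (SpecialLinearGroup (Fin 3) F)) :=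
    psl_isSimpleGroup hcard
  have hfin : Fintype F := Fintype.ofFinite F
  refine ⟨hperf, hsimp, not_comm_of_perf' hperf (QuotientGroup.mk' _) (QuotientGroup.mk'_surjective _) hsimp, ?_, ?_⟩
  · exact Or.inl ⟨F, inferInstance, hfin, 3, by omega, fun h => by omega, ⟨MulEquiv.refl _⟩⟩
  · intro h
    rcases psl_exc (F := F) (n := 3) (by omega) h with ⟨h1, -⟩ | ⟨h1, -⟩ <;> omega

/-- an element of order three -/
theorem exists_three : ∃ s : SpecialLinearGroup (Fin 3) F, s ^ 3 = 1 ∧ s ≠ 1 := by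
  let M : Matrix (Fin 3) (Fin 3) F := !![0, 1, 0; 0, 0, 1; 1, 0, 0]
  have hd : M.det = 1 := by
    rw [Matrix.det_fin_three]
    simp [M]
  let s : SpecialLinearGroup (Fin 3) F := ⟨M, hd⟩
  refine ⟨s, ?_, ?_⟩
  · rw [pow_three]
    apply Subtype.ext
    change M * (M * M) = 1
    ext i j
    fin_cases i <;> fin_cases j <;> simp [M, Matrix.mul_apply, Fin.sum_univ_three]
  · intro h1
    have h2 := congrArg (fun s : SpecialLinearGroup (Fin 3) F => s.1 0 0) h1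
    change (0 : F) = 1 at h2
    exact zero_ne_one h2

/-- the one-parameter group -/
theorem exists_one {W : Submodule F V} (hnd : Nondeg (Q.comp W.subtype))
    {Φ : W ≃ₗ[F] (Fin 3 → F) × (Fin 3 → F)} (hΦ : HC (Q.comp W.subtype) Φ) :
    ∃ Y : V →ₗ[F] V, Y ≠ 0 ∧ ∀ t : F, ∃ s, ∀ v,
      ((((embW hnd).extE.comp (slE hΦ)) s : ↥(E Q)) : V ≃ₗ[F] V) v = v + t • Y v := by
  have h01 : (0 : Fin 3) ≠ 1 := by decide
  let Z : W →ₗ[F] W :=
    { toFun := fun w => Φ.symm ((Φ w).1 1 • Pi.single 0 (1 : F), -((Φ w).2 0 • Pi.single 1 (1 : F)))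
      map_add' := fun u v => by
        rw [← map_add]
        congr 1
        rw [map_add, Prod.mk_add_mk]
        refine Prod.ext ?_ ?_
        · simp only [Prod.fst_add, Pi.add_apply, add_smul]
        · simp only [Prod.snd_add, Pi.add_apply, add_smul, neg_add]
      map_smul' := fun t v => by
        rw [RingHom.id_apply, ← map_smul Φ.symm, map_smul Φ]
        congr 1
        refine Prod.ext ?_ ?_
        · simp only [Prod.smul_fst, Pi.smul_apply, smul_eq_mul, mul_smul]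
        · simp only [Prod.smul_snd, Pi.smul_apply, smul_eq_mul, mul_smul, smul_neg] }
  have hZ : ∀ w, Φ (Z w) = ((Φ w).1 1 • Pi.single 0 (1 : F), -((Φ w).2 0 • Pi.single 1 (1 : F))) :=
    fun w => LinearEquiv.apply_symm_apply _ _
  refine ⟨(embW hnd).j ∘ₗ Z ∘ₗ (embW hnd).π, ?_, ?_⟩
  · intro h0
    have h1 := congrArg (fun f : V →ₗ[F] V => f ((embW hnd).j (Φ.symm (Pi.single 1 1, 0)))) h0
    change (embW hnd).j (Z ((embW hnd).π ((embW hnd).j _))) = 0 at h1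
    rw [Emb.π_j] at h1
    have h2 : Z (Φ.symm (Pi.single 1 1, 0)) = 0 := (embW hnd).j_injective (by rw [h1, map_zero])
    have h3 := congrArg (fun w => (Φ w).1 0) h2
    change (Φ (Z _)).1 0 = (Φ 0).1 0 at h3
    rw [hZ, LinearEquiv.apply_symm_apply, map_zero] at h3
    simp at h3
  · intro t
    refine ⟨SpecialLinearGroup.transvection h01 t, fun v => ?_⟩
    change (((embW hnd).extE (slE hΦ (SpecialLinearGroup.transvection h01 t)) : ↥(E Q)) : V ≃ₗ[F] V) v = _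
    rw [Emb.extE_coe, Emb.ext_apply]
    congr 1
    change (embW hnd).j _ = t • (embW hnd).j (Z ((embW hnd).π v))
    rw [← map_smul]
    congr 1
    set w := (embW hnd).π v
    apply Φ.injective
    rw [map_sub, slE_apply, trans_mulVec, trans_inv_mulVec, map_smul, hZ]
    refine Prod.ext ?_ ?_
    · simp only [Prod.fst_sub, Prod.smul_fst, mul_smul, add_sub_cancel_left]
    · simp only [Prod.snd_sub, Prod.smul_snd, mul_smul, smul_neg]
      abel

namespace CL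

variable (h : CL Q c a b)
include h

theorem hcW {f : V ≃ₗ[F] V} (hf : ∀ v, f (c v) = c (f v)) : ∀ v ∈ h.W, f v ∈ h.W := by
  intro v hv
  obtain ⟨u, hu, w, hw, rfl⟩ := Submodule.mem_sup.1 hv
  rw [map_add]
  exact Submodule.add_mem _ (Submodule.mem_sup_left (map_eig hf hu)) (Submodule.mem_sup_right (map_eig hf hw))

/-- the image of `SL₃` commutes with `c` -/
theorem slE_comm {Φ : h.W ≃ₗ[F] (Fin 3 → F) × (Fin 3 → F)} (hΦ : HC (Q.comp (h.W).subtype) Φ)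
    (hΦ1 : ∀ v : h.W, (v : V) ∈ Eg c a ↔ (Φ v).2 = 0) (hΦ2 : ∀ v : h.W, (v : V) ∈ Eg c a⁻¹ ↔ (Φ v).1 = 0)
    (s : SpecialLinearGroup (Fin 3) F) (v : V) :
    ((((embW h.ndW).extE.comp (slE hΦ)) s : ↥(E Q)) : V ≃ₗ[F] V) (c v) =
      c (((((embW h.ndW).extE.comp (slE hΦ)) s : ↥(E Q)) : V ≃ₗ[F] V) v) := by
  change (((embW h.ndW).extE (slE hΦ s) : ↥(E Q)) : V ≃ₗ[F] V) (c v) =
    c ((((embW h.ndW).extE (slE hΦ s) : ↥(E Q)) : V ≃ₗ[F] V) v)
  rw [Emb.extE_coe]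
  have hcW := h.hcW (f := c) (fun _ => rfl)
  -- `c` in coordinates
  have hc : ∀ w : h.W, Φ ⟨c w, hcW w w.2⟩ = (a • (Φ w).1, a⁻¹ • (Φ w).2) := by
    intro w
    have e1 : ((Φ.symm ((Φ w).1, 0) : h.W) : V) ∈ Eg c a := (hΦ1 _).2 (by rw [LinearEquiv.apply_symm_apply])
    have e2 : ((Φ.symm (0, (Φ w).2) : h.W) : V) ∈ Eg c a⁻¹ := (hΦ2 _).2 (by rw [LinearEquiv.apply_symm_apply])
    have e3 : (⟨c w, hcW w w.2⟩ : h.W) = a • Φ.symm ((Φ w).1, 0) + a⁻¹ • Φ.symm (0, (Φ w).2) := by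
      apply Subtype.ext
      change c (w : V) = a • ((Φ.symm ((Φ w).1, 0) : h.W) : V) + a⁻¹ • ((Φ.symm (0, (Φ w).2) : h.W) : V)
      rw [← mem_Eg.1 e1, ← mem_Eg.1 e2, ← map_add]
      congr 1
      exact congrArg Subtype.val (split Φ w)
    rw [e3, map_add, map_smul, map_smul, LinearEquiv.apply_symm_apply, LinearEquiv.apply_symm_apply, Prod.smul_mk,
      Prod.smul_mk, smul_zero, smul_zero, Prod.mk_add_mk, add_zero, zero_add]
  refine ext_comm h.ndW h.iso hcW _ (fun w => ?_) v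
  have e4 : (slE hΦ s : h.W ≃ₗ[F] h.W) ⟨c w, hcW w w.2⟩ = ⟨c ((slE hΦ s : h.W ≃ₗ[F] h.W) w), hcW _ (Subtype.mem _)⟩ := by
    apply Φ.injective
    rw [slE_apply, hc, hc, slE_apply, Matrix.mulVec_smul, Matrix.mulVec_smul]
  exact congrArg Subtype.val e4

/-- commutators of the centraliser of `c` -/
theorem der {Φ : h.W ≃ₗ[F] (Fin 3 → F) × (Fin 3 → F)} (hΦ : HC (Q.comp (h.W).subtype) Φ)
    (hΦ1 : ∀ v : h.W, (v : V) ∈ Eg c a ↔ (Φ v).2 = 0) (hΦ2 : ∀ v : h.W, (v : V) ∈ Eg c a⁻¹ ↔ (Φ v).1 = 0)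
    (f g : ↥(E Q)) (hf : ∀ v, (f : V ≃ₗ[F] V) (c v) = c ((f : V ≃ₗ[F] V) v))
    (hg : ∀ v, (g : V ≃ₗ[F] V) (c v) = c ((g : V ≃ₗ[F] V) v)) :
    ⁅f, g⁆ ∈ ((embW h.ndW).extE.comp (slE hΦ)).range := by
  have hVf : Finite V := Module.finite_of_finite F
  set k : V ≃ₗ[F] V := (f : V ≃ₗ[F] V) * (g : V ≃ₗ[F] V) * (f : V ≃ₗ[F] V)⁻¹ * (g : V ≃ₗ[F] V)⁻¹ with hk
  have hkO : k ∈ O Q :=
    (O Q).mul_mem ((O Q).mul_mem ((O Q).mul_mem (E_le_O f.2) (E_le_O g.2)) ((O Q).inv_mem (E_le_O f.2)))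
      ((O Q).inv_mem (E_le_O g.2))
  have hkc : ∀ v, k (c v) = c (k v) := by
    intro v
    change (f : V ≃ₗ[F] V) ((g : V ≃ₗ[F] V) ((f : V ≃ₗ[F] V)⁻¹ ((g : V ≃ₗ[F] V)⁻¹ (c v)))) =
      c ((f : V ≃ₗ[F] V) ((g : V ≃ₗ[F] V) ((f : V ≃ₗ[F] V)⁻¹ ((g : V ≃ₗ[F] V)⁻¹ v))))
    rw [SUD.inv_comm hg, SUD.inv_comm hf, hg, hf]
  have hkP : ∀ v ∈ h.P, k v = v := by
    intro v hv
    obtain ⟨u, hu, w, hw, rfl⟩ := Submodule.mem_sup.1 hv
    rw [map_add, comm_one hf hg h.h3 hu, comm_one hf hg h.h4 hw]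
  -- the restrictions to the eigenspace
  have key : ∀ f : V ≃ₗ[F] V, (∀ v, f (c v) = c (f v)) → ∃ A : Eg c a ≃ₗ[F] Eg c a, ∀ w, ((A w : Eg c a) : V) = f w := by
    intro f hf
    let m : Eg c a →ₗ[F] Eg c a := (f : V →ₗ[F] V).restrict (fun v hv => map_eig hf hv)
    have hm : Function.Injective m := fun u v huv => Subtype.ext (f.injective (congrArg Subtype.val huv))
    exact ⟨LinearEquiv.ofInjectiveEndo m hm, fun w => rfl⟩
  obtain ⟨A, hA⟩ := key f hf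
  obtain ⟨B, hB⟩ := key g hg
  have hinv : ∀ {f : V ≃ₗ[F] V} {A : Eg c a ≃ₗ[F] Eg c a}, (∀ w, ((A w : Eg c a) : V) = f w) →
      ∀ w, ((A⁻¹ w : Eg c a) : V) = f⁻¹ w := by
    intro f A hA w
    apply f.injective
    rw [← hA]
    change (((A * A⁻¹) w : Eg c a) : V) = (f * f⁻¹) w
    rw [mul_inv_cancel, mul_inv_cancel]
    rfl
  have hAB : ∀ w, (((A * B * A⁻¹ * B⁻¹) w : Eg c a) : V) = k w := by
    intro w
    change ((A (B (A⁻¹ (B⁻¹ w))) : Eg c a) : V) =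
      (f : V ≃ₗ[F] V) ((g : V ≃ₗ[F] V) ((f : V ≃ₗ[F] V)⁻¹ ((g : V ≃ₗ[F] V)⁻¹ w)))
    rw [hA, hB, hinv hA, hinv hB]
  have hdet : LinearEquiv.det (A * B * A⁻¹ * B⁻¹) = 1 := by
    rw [map_mul, map_mul, map_mul, map_inv, map_inv]
    rw [mul_right_comm (LinearEquiv.det A) (LinearEquiv.det B), mul_inv_cancel, one_mul, mul_inv_cancel]
  -- the coordinates of the eigenspace
  let e : (Fin 3 → F) →ₗ[F] Eg c a :=
    { toFun := fun x => ⟨((Φ.symm (x, 0) : h.W) : V), (hΦ1 _).2 (by rw [LinearEquiv.apply_symm_apply])⟩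
      map_add' := fun x y => by
        apply Subtype.ext
        change ((Φ.symm (x + y, 0) : h.W) : V) = ((Φ.symm (x, 0) + Φ.symm (y, 0) : h.W) : V)
        rw [← map_add, Prod.mk_add_mk, add_zero]
      map_smul' := fun t x => by
        apply Subtype.ext
        change ((Φ.symm (t • x, 0) : h.W) : V) = ((t • Φ.symm (x, 0) : h.W) : V)
        rw [← map_smul, Prod.smul_mk, smul_zero] }
  have heinj : Function.Injective e := by
    intro x y hxy
    have h0 : ((Φ.symm (x, 0) : h.W) : V) = ((Φ.symm (y, 0) : h.W) : V) := congrArg (fun w : Eg c a => (w : V)) hxy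
    have h1 : Φ.symm (x, 0) = Φ.symm (y, 0) := Subtype.ext h0
    exact congrArg Prod.fst (Φ.symm.injective h1)
  let ee : (Fin 3 → F) ≃ₗ[F] Eg c a := LinearEquiv.ofInjectiveOfFinrankEq e heinj (by
    rw [h.h1, Module.finrank_fin_fun])
  have hee : ∀ x, ((ee x : Eg c a) : V) = ((Φ.symm (x, 0) : h.W) : V) := fun x => rfl
  let M : Matrix (Fin 3) (Fin 3) F := LinearMap.toMatrix' ((ee.symm : Eg c a →ₗ[F] (Fin 3 → F)) ∘ₗ
    ((A * B * A⁻¹ * B⁻¹ : Eg c a ≃ₗ[F] Eg c a) : Eg c a →ₗ[F] Eg c a) ∘ₗ (ee : (Fin 3 → F) →ₗ[F] Eg c a))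
  have hMd : M.det = 1 := by
    rw [LinearMap.det_toMatrix']
    have h1 := LinearMap.det_conj ((A * B * A⁻¹ * B⁻¹ : Eg c a ≃ₗ[F] Eg c a) : Eg c a →ₗ[F] Eg c a) ee.symm
    rw [LinearEquiv.symm_symm] at h1
    rw [h1, ← LinearEquiv.coe_det, hdet]
    rfl
  have hMv : ∀ x, M *ᵥ x = ee.symm ((A * B * A⁻¹ * B⁻¹) (ee x)) := by
    intro x
    rw [LinearMap.toMatrix'_mulVec]
    rfl
  let S : SpecialLinearGroup (Fin 3) F := ⟨M, hMd⟩
  have hcW' := h.hcW hkc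
  -- the restriction of `k` to `W`
  let kl : h.W →ₗ[F] h.W := (k : V →ₗ[F] V).restrict hcW'
  have hkl : Function.Injective kl := fun u v huv => Subtype.ext (k.injective (congrArg Subtype.val huv))
  let kW : h.W ≃ₗ[F] h.W := LinearEquiv.ofInjectiveEndo kl hkl
  have hkW : ∀ w, ((kW w : h.W) : V) = k w := fun w => rfl
  have hkWO : kW ∈ O (Q.comp (h.W).subtype) := by
    intro w
    change Q ((kW w : h.W) : V) = Q (w : V)
    rw [hkW]
    exact hkO w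
  have hkey : (slE hΦ S : h.W ≃ₗ[F] h.W)⁻¹ * kW = 1 := by
    apply eq_one_of_fix hΦ
    · exact (O _).mul_mem ((O _).inv_mem (E_le_O (slE hΦ S).2)) hkWO
    · intro x
      have e1 : kW (Φ.symm (x, 0)) = (slE hΦ S : h.W ≃ₗ[F] h.W) (Φ.symm (x, 0)) := by
        rw [slE_symm1]
        apply Subtype.ext
        rw [hkW, ← hee, ← hee, ← hAB]
        change _ = ((ee (M *ᵥ x) : Eg c a) : V)
        rw [hMv, LinearEquiv.apply_symm_apply]
      change (slE hΦ S : h.W ≃ₗ[F] h.W)⁻¹ (kW (Φ.symm (x, 0))) = _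
      rw [e1]
      exact LinearEquiv.symm_apply_apply _ _
    · intro y
      have e1 : (Φ (kW (Φ.symm (0, y)))).1 = 0 := by
        rw [← hΦ2, hkW]
        apply map_eig hkc
        rw [hΦ2, LinearEquiv.apply_symm_apply]
      have e2 : kW (Φ.symm (0, y)) = Φ.symm (0, (Φ (kW (Φ.symm (0, y)))).2) := by
        apply Φ.injective
        rw [LinearEquiv.apply_symm_apply]
        exact Prod.ext e1 rfl
      change (Φ ((slE hΦ S : h.W ≃ₗ[F] h.W)⁻¹ (kW (Φ.symm (0, y))))).1 = 0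
      have e3 : (slE hΦ S : h.W ≃ₗ[F] h.W)⁻¹ = (slE hΦ S⁻¹ : h.W ≃ₗ[F] h.W) := by
        rw [map_inv]
        rfl
      rw [e2, e3, slE_symm2, LinearEquiv.apply_symm_apply]
  have hkey' : kW = (slE hΦ S : h.W ≃ₗ[F] h.W) := by
    rw [inv_mul_eq_one] at hkey
    exact hkey.symm
  refine ⟨S, ?_⟩
  apply Subtype.ext
  apply LinearEquiv.ext
  intro v
  change (((embW h.ndW).extE (slE hΦ S) : ↥(E Q)) : V ≃ₗ[F] V) v = k v
  rw [Emb.extE_coe, ← hkey']
  have hv : v ∈ h.W ⊔ h.P := by rw [h.sup_top]; trivial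
  obtain ⟨u, hu, p, hp, rfl⟩ := Submodule.mem_sup.1 hv
  have e1 : (embW h.ndW).ext kW u = k u := by
    have e2 := (embW h.ndW).ext_j kW ⟨u, hu⟩
    rw [embW_j, embW_j, hkW] at e2
    exact e2
  have e3 : (embW h.ndW).ext kW p = p := by
    apply (embW h.ndW).ext_of_π_eq_zero
    rw [SUD.π_eq_zero_iff]
    intro w hw
    rw [polar_comm]
    exact h.polarWP hw hp
  rw [map_add, map_add, e1, e3, hkP p hp]

end CL

/-- the group `SL₃` in the centraliser of `c` -/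
theorem sl3_data (h : CL Q c a b) :
    ∃ φ : SpecialLinearGroup (Fin 3) F →* ↥(E Q), Function.Injective φ ∧
      (∀ s v, ((φ s : ↥(E Q)) : V ≃ₗ[F] V) (c v) = c (((φ s : ↥(E Q)) : V ≃ₗ[F] V) v)) ∧
      (∀ f g : ↥(E Q), (∀ v, (f : V ≃ₗ[F] V) (c v) = c ((f : V ≃ₗ[F] V) v)) →
        (∀ v, (g : V ≃ₗ[F] V) (c v) = c ((g : V ≃ₗ[F] V) v)) → ⁅f, g⁆ ∈ φ.range) ∧
      ∃ Y : V →ₗ[F] V, Y ≠ 0 ∧ ∀ t : F, ∃ s, ∀ v, ((φ s : ↥(E Q)) : V ≃ₗ[F] V) v = v + t • Y v := by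
  obtain ⟨Φ, hΦ, hΦ1, hΦ2⟩ := h.exists_coord
  exact ⟨(embW h.ndW).extE.comp (slE hΦ), (embW h.ndW).extE_injective.comp (slE_injective hΦ),
    h.slE_comm hΦ hΦ1 hΦ2, h.der hΦ hΦ1 hΦ2, exists_one h.ndW hΦ⟩

end Cfsg.Agent.H338.RC.SLD
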