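import Cfsg.Agent.H198.TriDia

/-!
# S3510, triality type (i), box iS (helper338)

A family of commuting linear octonion automorphisms of order prime to `p` whose common fixed space `A` is a plane,
and an octonion automorphism `U ≠ 1` of order `p` commuting with them: `U` is trivial on `A`, and `A` contains an
element `b` of norm one with `polar b 1 ^ 2 ≠ 4`.
-/

set_option autoImplicit false

namespace Cfsg.Agent.H338.RC.TriS

open Module QuadraticMap Cfsg.Agent.LieClassical.OrthCore Cfsg.Agent.LieClassical.OrthTrans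
  Cfsg.Agent.ClassicalGeometry.OrthSemi Cfsg.Agent.H198.Classes
  Cfsg.Agent.LieClassical.QuadForms Cfsg.Agent.H198.ClassesPlus
  Cfsg.Agent.ClassicalGeometry.TrialityOct Cfsg.Agent.ClassicalGeometry.Triality
  Cfsg.Agent.ClassicalGeometry.TrialitySpaces Cfsg.Agent.H198.TriBase Cfsg.Agent.H198.TriDia

universe u

variable {F : Type u} [Field F]

/-- A linear octonion automorphism. -/
structure OL (g : V8 F ≃ₗ[F] V8 F) : Prop where
  mul : ∀ x y, g (omul x y) = omul (g x) (g y)
  nm : ∀ x, plusForm 4 F (g x) = plusForm 4 F x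
  one : g (one8 F) = one8 F

theorem exists_OL {M : G8 F} (hT : TriS M M M) (hl : IsLin M) :
    ∃ g : V8 F ≃ₗ[F] V8 F, OL g ∧ ∀ x, g x = M.1 x := by
  obtain ⟨c, hs⟩ := hl
  have hc := aut_mult hT hs
  refine ⟨{ M.1 with
    map_add' := hs.add
    map_smul' := hs.smul }, ⟨hT, fun x => ?_, aut_one hT⟩, fun _ => rfl⟩
  have := hs.form x
  rw [hc, one_mul] at this
  exact this

theorem OL.pol {g : V8 F ≃ₗ[F] V8 F} (h : OL g) (x y : V8 F) :
    polar (plusForm 4 F) (g x) (g y) = polar (plusForm 4 F) x y := by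
  rw [polar, polar, ← map_add, h.nm, h.nm, h.nm]

theorem OL.pow_apply {g : V8 F ≃ₗ[F] V8 F} {M : G8 F} (h : ∀ x, g x = M.1 x) (n : ℕ) (x : V8 F) :
    (g ^ n) x = (M ^ n).1 x := by
  induction n generalizing x with
  | zero => rfl
  | succ n ih =>
    rw [pow_succ, pow_succ]
    change (g ^ n) (g x) = (M ^ n).1 (M.1 x)
    rw [ih, h]

/-! ### Octonion identities -/

theorem oct_sq (x : V8 F) : omul x x = polar (plusForm 4 F) x (one8 F) • x - plusForm 4 F x • one8 F := by
  rw [polar8, norm8]
  apply ext8 <;>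
  · simp only [omul_l0, omul_l1, omul_l2, omul_l3, omul_r0, omul_r1, omul_r2, omul_r3, Pi.sub_apply, Pi.smul_apply,
      smul_eq_mul, one8, Sum.elim_inl, Sum.elim_inr, Matrix.cons_val_zero, Matrix.cons_val_one, Matrix.cons_val]
    ring

theorem left_alt (x y : V8 F) : omul x (omul x y) = omul (omul x x) y := by
  coord8

theorem right_alt (x y : V8 F) : omul (omul y x) x = omul y (omul x x) := by
  coord8

theorem flex (x y : V8 F) : omul (omul x y) x = omul x (omul y x) := by
  coord8

theorem polar_one_one : polar (plusForm 4 F) (one8 F) (one8 F) = 2 := by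
  rw [polar8]
  simp [one8]
  norm_num

theorem polar_self' (x : V8 F) : polar (plusForm 4 F) x x = 2 * plusForm 4 F x := by
  rw [polar8, norm8]
  ring

theorem sub_omul' (x x' y : V8 F) : omul (x - x') y = omul x y - omul x' y := by
  have h := add_omul (x - x') x' y
  rw [sub_add_cancel] at h
  rw [h, add_sub_cancel_right]

theorem omul_sub' (x y y' : V8 F) : omul x (y - y') = omul x y - omul x y' := by
  have h := omul_add x (y - y') y'
  rw [sub_add_cancel] at h
  rw [h, add_sub_cancel_right]

/-! ### The fixed space is nondegenerate -/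

theorem exists_avg {κ : Type*} [Finite κ] (g : κ → (V8 F ≃ₗ[F] V8 F)) (hg : ∀ j, OL (g j)) (r : κ → ℕ)
    (hr : ∀ j, ((r j : ℕ) : F) ≠ 0) (hM : ∀ j, g j ^ r j = 1) (hc : ∀ i j, g i * g j = g j * g i) (v : V8 F) :
    ∃ v' : V8 F, ∃ c : F, c ≠ 0 ∧ (∀ j, g j v' = v') ∧
      ∀ x : V8 F, (∀ j, g j x = x) → polar (plusForm 4 F) x v' = c * polar (plusForm 4 F) x v := by
  classical
  have := Fintype.ofFinite κ
  have key : ∀ s : Finset κ, ∃ v' : V8 F, ∃ c : F, c ≠ 0 ∧ (∀ j ∈ s, g j v' = v') ∧
      ∀ x : V8 F, (∀ j, g j x = x) → polar (plusForm 4 F) x v' = c * polar (plusForm 4 F) x v := by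
    intro s
    induction s using Finset.induction_on with
    | empty => exact ⟨v, 1, one_ne_zero, by simp, fun x _ => (one_mul _).symm⟩
    | insert j s hj ih =>
      obtain ⟨w, c, hc0, hw, hx⟩ := ih
      refine ⟨∑ i ∈ Finset.range (r j), (g j ^ i) w, (r j : F) * c, mul_ne_zero (hr j) hc0, ?_, ?_⟩
      · intro k hk
        rcases Finset.mem_insert.1 hk with rfl | hk
        · rw [map_sum]
          have e1 : ∀ i, g k ((g k ^ i) w) = (g k ^ (i + 1)) w := fun i => by rw [pow_succ']; rfl
          simp only [e1]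
          have e2 := Finset.sum_range_succ' (fun i => (g k ^ i) w) (r k)
          have e3 := Finset.sum_range_succ (fun i => (g k ^ i) w) (r k)
          rw [e2, hM k, pow_zero] at e3
          exact add_right_cancel e3
        · rw [map_sum]
          refine Finset.sum_congr rfl fun i _ => ?_
          have hcm : Commute (g k) (g j ^ i) := Commute.pow_right (hc k j) i
          have : g k ((g j ^ i) w) = (g j ^ i) (g k w) := by
            have := congrArg (fun f : V8 F ≃ₗ[F] V8 F => f w) hcm.eq
            exact this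
          rw [this, hw k hk]
      · intro x hxf
        have e1 : ∀ i, (g j ^ i) x = x := by
          intro i
          induction i with
          | zero => rfl
          | succ i ih =>
            rw [pow_succ]
            change (g j ^ i) (g j x) = x
            rw [hxf j, ih]
        have e2 : ∀ i, ∀ y z, polar (plusForm 4 F) ((g j ^ i) y) ((g j ^ i) z) = polar (plusForm 4 F) y z := by
          intro i
          induction i with
          | zero => intro y z; rfl
          | succ i ih =>
            intro y z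
            rw [pow_succ]
            change polar (plusForm 4 F) ((g j ^ i) (g j y)) ((g j ^ i) (g j z)) = _
            rw [ih, (hg j).pol]
        have e3 : ∀ i, polar (plusForm 4 F) x ((g j ^ i) w) = polar (plusForm 4 F) x w := by
          intro i
          conv_lhs => rw [← e1 i]
          exact e2 i x w
        have e4 : polar (plusForm 4 F) x (∑ i ∈ Finset.range (r j), (g j ^ i) w) =
            ∑ i ∈ Finset.range (r j), polar (plusForm 4 F) x ((g j ^ i) w) :=
          map_sum (polarBilin (plusForm 4 F) x) _ _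
        rw [e4]
        simp only [e3]
        rw [Finset.sum_const, Finset.card_range, hx x hxf, nsmul_eq_mul, mul_assoc]
  obtain ⟨v', c, h1, h2, h3⟩ := key Finset.univ
  exact ⟨v', c, h1, fun j => h2 j (Finset.mem_univ j), h3⟩

/-- The radical of the fixed space is zero. -/
theorem fix_nondeg {κ : Type*} [Finite κ] (g : κ → (V8 F ≃ₗ[F] V8 F)) (hg : ∀ j, OL (g j)) (r : κ → ℕ)
    (hr : ∀ j, ((r j : ℕ) : F) ≠ 0) (hM : ∀ j, g j ^ r j = 1) (hc : ∀ i j, g i * g j = g j * g i) {x : V8 F}
    (hx : ∀ j, g j x = x) (h : ∀ y : V8 F, (∀ j, g j y = y) → polar (plusForm 4 F) x y = 0) : x = 0 := by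
  apply ClassicalGeometry.Triality.nondeg8
  intro v
  obtain ⟨v', c, hc0, hf, he⟩ := exists_avg g hg r hr hM hc v
  have h1 := he x hx
  rw [h v' hf] at h1
  exact (mul_eq_zero.1 h1.symm).resolve_left hc0

/-! ### The swap case -/

/-- An alternating form on a space of dimension three has a radical. -/
theorem exists_radical {W : Type*} [AddCommGroup W] [Module F W] (hW : finrank F W = 3) (B : W →ₗ[F] W →ₗ[F] F)
    (hB : ∀ x, B x x = 0) : ∃ x : W, x ≠ 0 ∧ ∀ y, B x y = 0 := by
  have : FiniteDimensional F W := FiniteDimensional.of_finrank_pos (by rw [hW]; norm_num)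
  have hs : ∀ x y, B x y = - B y x := by
    intro x y
    have h := hB (x + y)
    simp only [map_add, LinearMap.add_apply, hB, zero_add, add_zero] at h
    exact eq_neg_of_add_eq_zero_left (by rw [add_comm]; exact h)
  let b := finBasisOfFinrankEq F W hW
  by_cases h0 : B (b 1) (b 2) = 0 ∧ B (b 0) (b 2) = 0 ∧ B (b 0) (b 1) = 0
  · refine ⟨b 0, b.ne_zero 0, fun y => ?_⟩
    have h1 : B (b 0) = 0 := by
      apply b.ext
      intro i
      fin_cases i
      · exact hB _
      · exact h0.2.2
      · exact h0.2.1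
    rw [h1, LinearMap.zero_apply]
  · refine ⟨B (b 1) (b 2) • b 0 - B (b 0) (b 2) • b 1 + B (b 0) (b 1) • b 2, ?_, fun y => ?_⟩
    · intro h
      apply h0
      have h1 : ∑ i : Fin 3, (![B (b 1) (b 2), - B (b 0) (b 2), B (b 0) (b 1)] i) • b i = 0 := by
        rw [Fin.sum_univ_three]
        simp only [Matrix.cons_val_zero, Matrix.cons_val_one, Matrix.cons_val]
        rw [neg_smul, ← sub_eq_add_neg]
        exact h
      have h2 := Fintype.linearIndependent_iff.1 b.linearIndependent _ h1
      exact ⟨h2 0, neg_eq_zero.1 (h2 1), h2 2⟩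
    · have h1 : B (B (b 1) (b 2) • b 0 - B (b 0) (b 2) • b 1 + B (b 0) (b 1) • b 2) = 0 := by
        apply b.ext
        intro i
        rw [map_add, map_sub, map_smul, map_smul, map_smul]
        simp only [LinearMap.add_apply, LinearMap.sub_apply, LinearMap.smul_apply, LinearMap.zero_apply, smul_eq_mul]
        fin_cases i
        · change B (b 1) (b 2) * B (b 0) (b 0) - B (b 0) (b 2) * B (b 1) (b 0) + B (b 0) (b 1) * B (b 2) (b 0) = 0
          rw [hB, hs (b 1) (b 0), hs (b 2) (b 0)]
          ring
        · change B (b 1) (b 2) * B (b 0) (b 1) - B (b 0) (b 2) * B (b 1) (b 1) + B (b 0) (b 1) * B (b 2) (b 1) = 0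
          rw [hB, hs (b 2) (b 1)]
          ring
        · change B (b 1) (b 2) * B (b 0) (b 2) - B (b 0) (b 2) * B (b 1) (b 2) + B (b 0) (b 1) * B (b 2) (b 2) = 0
          rw [hB]
          ring
      rw [h1, LinearMap.zero_apply]

/-- `polar (a x) (a y) = Q a * polar x y`. -/
theorem polar_omul_left (a x y : V8 F) :
    polar (plusForm 4 F) (omul a x) (omul a y) = plusForm 4 F a * polar (plusForm 4 F) x y := by
  rw [polar, ← omul_add, norm_omul, norm_omul, norm_omul, polar]
  ring

theorem polar_omul_self (a x : V8 F) :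
    polar (plusForm 4 F) (omul a x) x = plusForm 4 F x * polar (plusForm 4 F) a (one8 F) := by
  have h := omul_omul_oconj x (one8 F)
  rw [one_omul] at h
  rw [polar_omul, h, polar_smul_right, smul_eq_mul]

theorem polar_omul_one (a x : V8 F) : polar (plusForm 4 F) (omul a x) (one8 F) =
    polar (plusForm 4 F) x (one8 F) * polar (plusForm 4 F) a (one8 F) - polar (plusForm 4 F) a x := by
  rw [polar_omul, one_omul, oconj_eq, polar_sub_right, polar_smul_right, smul_eq_mul]

/-- In characteristic two, an involutory automorphism which commutes with the family cannot conjugate the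
common fixed plane. -/
theorem no_swap [Finite F] (h2 : (2 : F) = 0) {κ : Type*} (g : κ → (V8 F ≃ₗ[F] V8 F)) (hg : ∀ j, OL (g j))
    (U : V8 F ≃ₗ[F] V8 F) (hU : OL U) (hUU : ∀ x, U (U x) = x) (hUc : ∀ j, U * g j = g j * U) (a : V8 F)
    (ha : polar (plusForm 4 F) a (one8 F) = 1) (haU : U a = a + one8 F)
    (hA : ∀ x, (∀ j, g j x = x) → ∃ c d : F, x = c • one8 F + d • a) : False := by
  have hch : CharP F 2 := by
    have : ((2 : ℕ) : F) = 0 := by exact_mod_cast h2
    exact CharTwo.of_one_ne_zero_of_two_eq_zero one_ne_zero h2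
  have hpos := polar_self' (F := F)
  have hps : ∀ x : V8 F, polar (plusForm 4 F) x x = 0 := fun x => by rw [polar_self', h2, zero_mul]
  have hneg : ∀ x : F, -x = x := fun x => CharTwo.neg_eq x
  have hself : ∀ x : F, x + x = 0 := fun x => CharTwo.add_self_eq_zero x
  have hself' : ∀ x : V8 F, x + x = 0 := fun x => by
    funext i
    exact hself _
  have hcU : ∀ j x, U (g j x) = g j (U x) := fun j x =>
    congrArg (fun f : V8 F ≃ₗ[F] V8 F => f x) (hUc j)
  -- the additive form `f x = polar x (U x)`
  have hf : ∃ w : V8 F, (∀ j, g j w = w) ∧ ∀ x, polar (plusForm 4 F) x (U x) = polar (plusForm 4 F) w x ^ 2 := by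
    have hinj : Function.Injective (frobenius F 2) := (frobenius F 2).injective
    have hbij : Function.Bijective (frobenius F 2) := ⟨hinj, Finite.surjective_of_injective hinj⟩
    have hsq : ∀ c : F, ∃ d : F, d ^ 2 = c := fun c => hbij.2 c
    choose sq hsq using hsq
    have huniq : ∀ c d : F, c ^ 2 = d ^ 2 → c = d := fun c d h => hinj h
    have hadd : ∀ x y, polar (plusForm 4 F) (x + y) (U (x + y)) =
        polar (plusForm 4 F) x (U x) + polar (plusForm 4 F) y (U y) := by
      intro x y
      have e : polar (plusForm 4 F) y (U x) = polar (plusForm 4 F) x (U y) := by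
        rw [polar_comm, ← hU.pol, hUU]
      rw [map_add, polar_add_left, polar_add_right, polar_add_right, e]
      have := hself (polar (plusForm 4 F) x (U y))
      linear_combination this
    have hsmul : ∀ (c : F) x, polar (plusForm 4 F) (c • x) (U (c • x)) = c ^ 2 * polar (plusForm 4 F) x (U x) := by
      intro c x
      rw [map_smul, polar_smul_left, polar_smul_right, smul_eq_mul, smul_eq_mul]
      ring
    let ℓ : V8 F →ₗ[F] F :=
      { toFun := fun x => sq (polar (plusForm 4 F) x (U x))
        map_add' := fun x y => huniq _ _ (by rw [hsq, hadd, add_pow_two, hsq, hsq, h2]; ring)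
        map_smul' := fun c x => huniq _ _ (by rw [hsq, hsmul, RingHom.id_apply, smul_eq_mul, mul_pow, hsq]) }
    have hℓ : ∀ x, ℓ x ^ 2 = polar (plusForm 4 F) x (U x) := fun x => hsq _
    have hnd := polarBilin_nondegenerate (F := F)
    let w := (LinearMap.BilinForm.toDual (polarBilin (plusForm 4 F)) hnd).symm ℓ
    have hw : ∀ x, polar (plusForm 4 F) w x = ℓ x := by
      intro x
      have := LinearMap.BilinForm.apply_toDual_symm_apply (hB := hnd) ℓ x
      exact this
    refine ⟨w, fun j => ?_, fun x => ?_⟩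
    · rw [← sub_eq_zero]
      apply ClassicalGeometry.Triality.nondeg8
      intro y
      obtain ⟨y, rfl⟩ := (g j).surjective y
      rw [polar_sub_left, (hg j).pol, hw, hw, sub_eq_zero]
      apply huniq
      rw [hℓ, hℓ, hcU, (hg j).pol]
    · rw [hw, hℓ]
  obtain ⟨w, hwf, hw⟩ := hf
  obtain ⟨α, β, hwe⟩ := hA w hwf
  -- `N = U + 1`
  let N : V8 F →ₗ[F] V8 F := U.toLinearMap + LinearMap.id
  have hN : ∀ x, N x = U x + x := fun _ => rfl
  have hfix : ∀ x, N x = 0 ↔ U x = x := by
    intro x
    rw [hN]
    constructor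
    · intro h
      have h3 := congrArg (· + x) h
      beta_reduce at h3
      rwa [add_assoc, hself', add_zero, zero_add] at h3
    · intro h
      rw [h, hself']
  have hNN : ∀ x, U (N x) = N x := by
    intro x
    rw [hN, map_add, hUU, add_comm]
  have hNa : ∀ x, U x = x → N (omul a x) = x := by
    intro x hx
    rw [hN, hU.mul, haU, hx, add_omul, one_omul, add_comm (omul a x) x, add_assoc, hself', add_zero]
  have hrk : LinearMap.range N = LinearMap.ker N := by
    ext x
    rw [LinearMap.mem_ker, hfix]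
    constructor
    · rintro ⟨y, rfl⟩
      exact hNN y
    · intro hx
      exact ⟨_, hNa x hx⟩
  have hd4 : finrank F (LinearMap.ker N) = 4 := by
    have h1 := LinearMap.finrank_range_add_finrank_ker N
    have h8 : finrank F (V8 F) = 8 := by simp
    rw [hrk, h8] at h1
    omega
  -- the fixed space is totally isotropic
  have hiso : ∀ x y, U x = x → U y = y → polar (plusForm 4 F) x y = 0 := by
    intro x y hx hy
    have h1 := hU.pol (omul a x) y
    rw [hU.mul, haU, hx, hy, add_omul, one_omul, polar_add_left] at h1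
    exact add_eq_left.1 h1
  have hone : U (one8 F) = one8 F := hU.one
  -- the space `U0`
  let l : LinearMap.ker N →ₗ[F] F := (polarBilin (plusForm 4 F) a).comp (LinearMap.ker N).subtype
  have hl : ∀ x, l x = polar (plusForm 4 F) a x.1 := fun _ => rfl
  have hmem : ∀ x : LinearMap.ker l, U x.1.1 = x.1.1 ∧ polar (plusForm 4 F) a x.1.1 = 0 := fun x =>
    ⟨(hfix _).1 x.1.2, x.2⟩
  have hd3 : finrank F (LinearMap.ker l) = 3 := by
    have h1 := LinearMap.finrank_range_add_finrank_ker l
    have h3 : LinearMap.range l = ⊤ := by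
      rw [LinearMap.range_eq_top]
      intro c
      refine ⟨c • ⟨one8 F, (hfix _).2 hone⟩, ?_⟩
      rw [map_smul, hl, ha, smul_eq_mul, mul_one]
    rw [h3, finrank_top, finrank_self, hd4] at h1
    omega
  let B : LinearMap.ker l →ₗ[F] LinearMap.ker l →ₗ[F] F :=
    LinearMap.mk₂ F (fun x y => polar (plusForm 4 F) (omul a x.1.1) y.1.1)
      (fun x x' y => by
        change polar (plusForm 4 F) (omul a (x.1.1 + x'.1.1)) y.1.1 = _
        rw [omul_add, polar_add_left])
      (fun c x y => by
        change polar (plusForm 4 F) (omul a (c • x.1.1)) y.1.1 = _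
        rw [omul_smul, polar_smul_left])
      (fun x y y' => by
        change polar (plusForm 4 F) (omul a x.1.1) (y.1.1 + y'.1.1) = _
        rw [polar_add_right])
      (fun c x y => by
        change polar (plusForm 4 F) (omul a x.1.1) (c • y.1.1) = _
        rw [polar_smul_right])
  have hBe : ∀ x y, B x y = polar (plusForm 4 F) (omul a x.1.1) y.1.1 := fun _ _ => rfl
  have hBalt : ∀ x, B x x = 0 := by
    intro x
    obtain ⟨hx, hx'⟩ := hmem x
    rw [hBe]
    have h1 := hw (omul a x.1.1)
    have h3 : polar (plusForm 4 F) (one8 F) (omul a x.1.1) = 0 := by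
      rw [polar_comm, polar_omul_one, hiso _ _ hx hone, hx', zero_mul, sub_zero]
    have h4 : polar (plusForm 4 F) a (omul a x.1.1) = 0 := by
      have h5 := polar_omul_left a (one8 F) x.1.1
      rw [omul_one, hiso _ _ hone hx, mul_zero] at h5
      exact h5
    rw [hwe, polar_add_left, polar_smul_left, polar_smul_left, h3, h4, smul_zero, smul_zero, add_zero] at h1
    rw [hU.mul, haU, hx, add_omul, one_omul, polar_add_right, hps, zero_add] at h1
    rw [h1]
    norm_num
  obtain ⟨x, hx0, hx⟩ := exists_radical (W := ↥(LinearMap.ker l)) hd3 B hBalt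
  apply hx0
  have hBs : ∀ x y, B x y = B y x := by
    intro x y
    have h := hBalt (x + y)
    simp only [map_add, LinearMap.add_apply, hBalt, zero_add, add_zero] at h
    rw [← hneg (B y x)]
    exact eq_neg_of_add_eq_zero_left (by rw [add_comm]; exact h)
  obtain ⟨hxU, hxa⟩ := hmem x
  apply Subtype.ext
  apply Subtype.ext
  apply ClassicalGeometry.Triality.nondeg8
  intro z
  -- `z = z' + a (N z)`
  have h1 : ∀ y, U y = y → polar (plusForm 4 F) x.1.1 (omul a y) = 0 := by
    intro y hy
    set c := polar (plusForm 4 F) a y with hc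
    have hy' : U (y - c • one8 F) = y - c • one8 F := by rw [map_sub, map_smul, hone, hy]
    have hya : polar (plusForm 4 F) a (y - c • one8 F) = 0 := by
      rw [polar_sub_right, polar_smul_right, ha, ← hc, smul_eq_mul, mul_one, sub_self]
    let y0 : LinearMap.ker l := ⟨⟨y - c • one8 F, (hfix _).2 hy'⟩, hya⟩
    have h3 := hx y0
    rw [hBs, hBe] at h3
    have h4 : y = y0.1.1 + c • one8 F := by
      change y = (y - c • one8 F) + c • one8 F
      rw [sub_add_cancel]
    rw [h4, omul_add, omul_smul, omul_one, polar_add_right, polar_smul_right, polar_comm, h3, polar_comm, hxa,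
      smul_zero, add_zero]
  have h3 : U (z + omul a (N z)) = z + omul a (N z) := by
    rw [← hfix, map_add, hNa _ (hNN z), hself']
  have h4 : z = (z + omul a (N z)) + omul a (N z) := by rw [add_assoc, hself', add_zero]
  rw [h4, polar_add_right, hiso _ _ hxU h3, h1 _ (hNN z), add_zero]

/-! ### The split case over the field of two elements -/

theorem omul_omul_self (e x : V8 F) : omul (omul e x) e =
    polar (plusForm 4 F) e (oconj x) • e - plusForm 4 F e • oconj x := by
  rw [polar8, norm8]
  apply ext8 <;>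
  · simp only [omul_l0, omul_l1, omul_l2, omul_l3, omul_r0, omul_r1, omul_r2, omul_r3, Pi.sub_apply, Pi.smul_apply,
      smul_eq_mul, oconj_l0, oconj_l1, oconj_l2, oconj_l3, oconj_r0, oconj_r1, oconj_r2, oconj_r3]
    ring

/-- The space `{x | e x = x, x e = 0}`. -/
def Xe (e : V8 F) : Submodule F (V8 F) :=
  LinearMap.ker (leftMul e - LinearMap.id) ⊓ LinearMap.ker (rightMul e)

theorem mem_Xe {e x : V8 F} : x ∈ Xe e ↔ omul e x = x ∧ omul x e = 0 := by
  rw [Xe, Submodule.mem_inf, LinearMap.mem_ker, LinearMap.mem_ker]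
  constructor
  · rintro ⟨h1, h2⟩
    exact ⟨sub_eq_zero.1 h1, h2⟩
  · rintro ⟨h1, h2⟩
    exact ⟨sub_eq_zero.2 h1, h2⟩

theorem idem {e : V8 F} (heQ : plusForm 4 F e = 0) (het : polar (plusForm 4 F) e (one8 F) = 1) : omul e e = e := by
  rw [oct_sq, heQ, het, one_smul, zero_smul, sub_zero]

theorem finrank_Xe {e : V8 F} (heQ : plusForm 4 F e = 0) (het : polar (plusForm 4 F) e (one8 F) = 1) :
    finrank F (Xe e) ≤ 3 := by
  have he0 : e ≠ 0 := by
    rintro rfl
    rw [polar_zero_left] at het
    exact zero_ne_one het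
  have hee := idem heQ het
  have h1 : finrank F ↥(Xe e ⊔ F ∙ e) ≤ 4 := by
    apply finrank_le_four
    intro w hw
    obtain ⟨x, hx, y, hy, rfl⟩ := Submodule.mem_sup.1 hw
    obtain ⟨c, rfl⟩ := Submodule.mem_span_singleton.1 hy
    obtain ⟨hx1, hx2⟩ := mem_Xe.1 hx
    have h2 : plusForm 4 F x = 0 := by
      rw [← hx1, norm_omul, heQ, zero_mul]
    have h3 : polar (plusForm 4 F) x e = 0 := by
      have := polar_omul_left e x (one8 F)
      rw [hx1, omul_one, heQ, zero_mul] at this
      exact this
    rw [QuadraticMap.map_add (plusForm 4 F), h2, QuadraticMap.map_smul, heQ, polar_smul_right, h3]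
    simp
  have h2 : Xe e ⊓ F ∙ e = ⊥ := by
    rw [eq_bot_iff]
    intro x hx
    obtain ⟨c, rfl⟩ := Submodule.mem_span_singleton.1 hx.2
    obtain ⟨hx1, hx2⟩ := mem_Xe.1 hx.1
    rw [smul_omul, hee] at hx2
    rw [hx2]
    exact Submodule.zero_mem _
  have h3 := Submodule.finrank_sup_add_finrank_inf_eq (Xe e) (F ∙ e)
  rw [h2, finrank_bot, finrank_span_singleton he0] at h3
  omega

theorem split_fix (h2 : (2 : F) = 0) (h01 : ∀ c : F, c = 0 ∨ c = 1) {κ : Type*} (g : κ → (V8 F ≃ₗ[F] V8 F))
    (hg : ∀ j, OL (g j)) (U : V8 F ≃ₗ[F] V8 F) (hU : OL U) (hUU : ∀ x, U (U x) = x)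
    (hUc : ∀ j, U * g j = g j * U) (e : V8 F) (heQ : plusForm 4 F e = 0)
    (het : polar (plusForm 4 F) e (one8 F) = 1) (heU : U e = e) (heg : ∀ j, g j e = e)
    (hA : ∀ x, (∀ j, g j x = x) → ∃ c d : F, x = c • one8 F + d • e) (x : V8 F) :
    U (omul e x) = omul e x := by
  have hch : CharP F 2 := CharTwo.of_one_ne_zero_of_two_eq_zero one_ne_zero h2
  have hself : ∀ x : F, x + x = 0 := fun x => CharTwo.add_self_eq_zero x
  have hself' : ∀ x : V8 F, x + x = 0 := fun x => by
    funext i
    exact hself _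
  have hcU : ∀ j x, U (g j x) = g j (U x) := fun j x =>
    congrArg (fun f : V8 F ≃ₗ[F] V8 F => f x) (hUc j)
  have hee := idem heQ het
  let N : V8 F →ₗ[F] V8 F := U.toLinearMap + LinearMap.id
  have hN : ∀ x, N x = U x + x := fun _ => rfl
  have hfix : ∀ x, N x = 0 ↔ U x = x := by
    intro x
    rw [hN]
    constructor
    · intro h
      have h3 := congrArg (· + x) h
      beta_reduce at h3
      rwa [add_assoc, hself', add_zero, zero_add] at h3
    · intro h
      rw [h, hself']
  have hNN : ∀ x, U (N x) = N x := by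
    intro x
    rw [hN, map_add, hUU, add_comm]
  have hXU : ∀ x ∈ Xe e, N x ∈ Xe e := by
    intro x hx
    obtain ⟨hx1, hx2⟩ := mem_Xe.1 hx
    rw [mem_Xe, hN]
    constructor
    · rw [omul_add, hx1]
      congr 1
      conv_lhs => rw [← heU, ← hU.mul, hx1]
    · rw [add_omul, hx2, add_zero]
      have : omul (U x) e = U (omul x e) := by rw [hU.mul, heU]
      rw [this, hx2, map_zero]
  have hXg : ∀ j, ∀ x ∈ Xe e, g j x ∈ Xe e := by
    intro j x hx
    obtain ⟨hx1, hx2⟩ := mem_Xe.1 hx
    rw [mem_Xe]
    constructor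
    · conv_lhs => rw [← heg j, ← (hg j).mul, hx1]
    · have : omul (g j x) e = g j (omul x e) := by rw [(hg j).mul, heg]
      rw [this, hx2, map_zero]
  let NX : Xe e →ₗ[F] V8 F := N.comp (Xe e).subtype
  have hNX : ∀ x, NX x = N x.1 := fun _ => rfl
  have hle : finrank F (LinearMap.range NX) ≤ 1 := by
    have h1 := LinearMap.finrank_range_add_finrank_ker NX
    have h3 := finrank_Xe heQ het
    have h4 : LinearMap.range NX ≤ (LinearMap.ker NX).map (Xe e).subtype := by
      rintro _ ⟨y, rfl⟩
      exact ⟨⟨N y.1, hXU _ y.2⟩, (hfix _).2 (hNN _), rfl⟩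
    have h5 := Submodule.finrank_mono h4
    have h6 : finrank F ↥((LinearMap.ker NX).map (Xe e).subtype) = finrank F (LinearMap.ker NX) :=
      (Submodule.equivMapOfInjective _ (Xe e).injective_subtype _).finrank_eq.symm
    omega
  have hX0 : ∀ x ∈ Xe e, U x = x := by
    intro x hx
    rw [← hfix]
    by_contra hne
    obtain ⟨v, hv⟩ := finrank_le_one_iff.1 hle
    have hone : ∀ w : LinearMap.range NX, w ≠ 0 → w = v := by
      intro w hw
      obtain ⟨c, hc⟩ := hv w
      rcases h01 c with rfl | rfl
      · rw [zero_smul] at hc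
        exact absurd hc.symm hw
      · rw [one_smul] at hc
        exact hc.symm
    have hfixj : ∀ j, g j (N x) = N x := by
      intro j
      have e1 : g j (N x) = N (g j x) := by rw [hN, hN, map_add, hcU]
      have m1 : N x ∈ LinearMap.range NX := ⟨⟨x, hx⟩, rfl⟩
      have m2 : g j (N x) ∈ LinearMap.range NX := ⟨⟨g j x, hXg j x hx⟩, e1.symm⟩
      have n2 : g j (N x) ≠ 0 := fun h => hne ((g j).map_eq_zero_iff.1 h)
      have k1 := hone ⟨_, m1⟩ (fun h => hne (congrArg Subtype.val h))
      have k2 := hone ⟨_, m2⟩ (fun h => n2 (congrArg Subtype.val h))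
      exact congrArg Subtype.val (k2.trans k1.symm)
    obtain ⟨c, d, hcd⟩ := hA _ hfixj
    obtain ⟨h3, h4⟩ := mem_Xe.1 (hXU x hx)
    have he0 : e ≠ 0 := by
      rintro rfl
      rw [polar_zero_left] at het
      exact zero_ne_one het
    rw [hcd, add_omul, smul_omul, smul_omul, one_omul, hee, ← add_smul] at h4
    have h5 := (smul_eq_zero.1 h4).resolve_right he0
    rw [hcd, omul_add, omul_smul, omul_smul, omul_one, hee, ← add_smul, h5, zero_smul] at h3
    exact hne (hcd.trans h3.symm)
  -- decomposition of `e x`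
  have h3 := omul_omul_self e x
  rw [heQ, zero_smul, sub_zero] at h3
  set c := polar (plusForm 4 F) e (oconj x) with hc
  have h4 : omul e x - c • e ∈ Xe e := by
    rw [mem_Xe, ← h3]
    constructor
    · rw [omul_sub', left_alt, hee, h3, omul_smul, hee]
    · rw [sub_omul', right_alt, hee, h3, sub_self]
  have h5 := hX0 _ h4
  rw [map_sub, map_smul, heU] at h5
  exact sub_left_inj.1 h5

/-! ### The rotation -/

theorem norm_unit {v : V8 F} (hv : plusForm 4 F v ≠ 0) (ht : polar (plusForm 4 F) v (one8 F) ≠ 0)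
    (hd : polar (plusForm 4 F) v (one8 F) ^ 2 ≠ 4 * plusForm 4 F v) :
    plusForm 4 F ((plusForm 4 F v)⁻¹ • omul v v) = 1 ∧
      polar (plusForm 4 F) ((plusForm 4 F v)⁻¹ • omul v v) (one8 F) ^ 2 ≠ 4 := by
  constructor
  · rw [QuadraticMap.map_smul, norm_omul, smul_eq_mul]
    field_simp
  · intro h
    rw [polar_smul_left, oct_sq, polar_sub_left, polar_smul_left, polar_smul_left, polar_one_one, smul_eq_mul,
      smul_eq_mul, smul_eq_mul] at h
    set t := polar (plusForm 4 F) v (one8 F) with ht'
    set n := plusForm 4 F v with hn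
    have h1 : t ^ 2 * (t ^ 2 - 4 * n) = 0 := by
      field_simp at h
      linear_combination h
    rcases mul_eq_zero.1 h1 with h2 | h2
    · exact ht (pow_eq_zero_iff (by norm_num) |>.1 h2)
    · exact hd (sub_eq_zero.1 h2)

/-- The action of an automorphism of order `p` on a plane containing `1`. -/
theorem fix_or_shift {p : ℕ} [Fact p.Prime] [CharP F p] {U : V8 F ≃ₗ[F] V8 F} (hU : OL U) (hUp : U ^ p = 1)
    {a : V8 F} (ha : ∀ c : F, a ≠ c • one8 F) {c d : F} (hUa : U a = c • one8 F + d • a) :
    U a = a + c • one8 F := by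
  have h1 : ∀ n : ℕ, ∃ c' : F, (U ^ n) a = c' • one8 F + d ^ n • a := by
    intro n
    induction n with
    | zero => exact ⟨0, by rw [zero_smul, zero_add, pow_zero, pow_zero, one_smul]; rfl⟩
    | succ n ih =>
      obtain ⟨c', h⟩ := ih
      refine ⟨c' + d ^ n * c, ?_⟩
      rw [pow_succ']
      change U ((U ^ n) a) = _
      rw [h, map_add, map_smul, map_smul, hU.one, hUa, smul_add, smul_smul, smul_smul, pow_succ, add_smul, add_assoc]
  obtain ⟨c', h⟩ := h1 p
  rw [hUp] at h
  have h2 : (1 - d ^ p) • a = c' • one8 F := by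
    rw [sub_smul, one_smul]
    exact sub_eq_iff_eq_add.2 h
  have h3 : 1 - d ^ p = 0 := by
    by_contra hne
    apply ha ((1 - d ^ p)⁻¹ * c')
    rw [mul_smul, ← h2, smul_smul, inv_mul_cancel₀ hne, one_smul]
  have h4 : d = 1 := by
    have h5 : (1 - d) ^ p = 0 := by rw [sub_pow_char, one_pow]; exact h3
    exact (sub_eq_zero.1 (pow_eq_zero_iff (Fact.out : p.Prime).ne_zero |>.1 h5)).symm
  rw [hUa, h4, one_smul, add_comm]

/-- **Box iS** for linear maps. -/
theorem box_iS_lin [Finite F] {p : ℕ} [Fact p.Prime] [CharP F p] (hp3 : p ≠ 3) {κ : Type*} [Finite κ]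
    (g : κ → (V8 F ≃ₗ[F] V8 F)) (hg : ∀ j, OL (g j)) (r : κ → ℕ) (hr : ∀ j, ((r j : ℕ) : F) ≠ 0)
    (hM : ∀ j, g j ^ r j = 1) (hc : ∀ i j, g i * g j = g j * g i) (U : V8 F ≃ₗ[F] V8 F) (hU : OL U)
    (hUp : U ^ p = 1) (hU1 : U ≠ 1) (hUc : ∀ j, U * g j = g j * U) (A : Submodule F (V8 F))
    (hA : ∀ x, x ∈ A ↔ ∀ j, g j x = x) (hd : finrank F A = 2) :
    (∀ x ∈ A, U x = x) ∧ ∃ b, (∀ j, g j b = b) ∧ U b = b ∧ plusForm 4 F b = 1 ∧
      polar (plusForm 4 F) b (one8 F) ^ 2 ≠ 4 := by
  have hcU : ∀ j x, U (g j x) = g j (U x) := fun j x =>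
    congrArg (fun f : V8 F ≃ₗ[F] V8 F => f x) (hUc j)
  have hone : one8 F ∈ A := (hA _).2 fun j => (hg j).one
  have h10 : one8 F ≠ 0 := by
    intro h
    have := norm_one8 (F := F)
    rw [h, QuadraticMap.map_zero] at this
    exact zero_ne_one this
  -- a second basis vector
  obtain ⟨a, haA, ha⟩ : ∃ a ∈ A, ∀ c : F, a ≠ c • one8 F := by
    by_contra hcon
    push Not at hcon
    have h1 : A ≤ F ∙ one8 F := by
      intro x hx
      obtain ⟨c, hc⟩ := hcon x hx
      exact Submodule.mem_span_singleton.2 ⟨c, hc.symm⟩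
    have h2 := Submodule.finrank_mono h1
    rw [hd, finrank_span_singleton h10] at h2
    omega
  have span : ∀ a ∈ A, (∀ c : F, a ≠ c • one8 F) → ∀ x ∈ A, ∃ c d : F, x = c • one8 F + d • a := by
    intro a haA ha x hx
    have hli : LinearIndependent F ![(⟨one8 F, hone⟩ : A), ⟨a, haA⟩] := by
      rw [LinearIndependent.pair_iff]
      intro s t hst
      have hst' : s • one8 F + t • a = 0 := congrArg Subtype.val hst
      have ht : t = 0 := by
        by_contra ht
        apply ha (-(t⁻¹ * s))
        have h5 : t • a = -(s • one8 F) := eq_neg_of_add_eq_zero_right hst'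
        rw [neg_smul, mul_smul, ← smul_neg, ← h5, smul_smul, inv_mul_cancel₀ ht, one_smul]
      refine ⟨?_, ht⟩
      rw [ht, zero_smul, add_zero] at hst'
      exact (smul_eq_zero.1 hst').resolve_right h10
    have hsp := hli.span_eq_top_of_card_eq_finrank (by rw [hd]; rfl)
    have hx' : (⟨x, hx⟩ : A) ∈ Submodule.span F (Set.range ![(⟨one8 F, hone⟩ : A), ⟨a, haA⟩]) := by
      rw [hsp]; trivial
    rw [Matrix.range_cons, Matrix.range_cons, Matrix.range_empty, Set.union_empty,
      Set.singleton_union, Submodule.mem_span_pair] at hx'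
    obtain ⟨c, d, hcd⟩ := hx'
    exact ⟨c, d, (congrArg Subtype.val hcd).symm⟩
  have hnd : ∀ x ∈ A, (∀ y ∈ A, polar (plusForm 4 F) x y = 0) → x = 0 := by
    intro x hx h
    exact fix_nondeg g hg r hr hM hc ((hA x).1 hx) fun y hy => h y ((hA y).2 hy)
  have hUA : ∀ x ∈ A, U x ∈ A := by
    intro x hx
    rw [hA] at hx ⊢
    intro j
    rw [← hcU, hx]
  -- closure under the product
  have hmul : ∀ x ∈ A, ∀ y ∈ A, omul x y ∈ A := by
    intro x hx y hy
    rw [hA] at hx hy ⊢
    intro j
    rw [(hg j).mul, hx, hy]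
  by_cases h2 : (2 : F) = 0
  · have hp2 : p = 2 := by
      have h3 : ((2 : ℕ) : F) = 0 := by exact_mod_cast h2
      rw [CharP.cast_eq_zero_iff F p] at h3
      exact (Nat.prime_dvd_prime_iff_eq Fact.out Nat.prime_two).1 h3
    have hUU : ∀ x, U (U x) = x := by
      intro x
      have := congrArg (fun f : V8 F ≃ₗ[F] V8 F => f x) hUp
      rw [hp2, pow_two] at this
      exact this
    have h11 : polar (plusForm 4 F) (one8 F) (one8 F) = 0 := by rw [polar_one_one, h2]
    -- normalise `a`
    obtain ⟨v, hvA, hv1⟩ : ∃ v ∈ A, polar (plusForm 4 F) v (one8 F) = 1 := by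
      by_contra hcon
      push Not at hcon
      apply h10
      apply hnd _ hone
      intro y hy
      by_contra hne
      apply hcon ((polar (plusForm 4 F) (one8 F) y)⁻¹ • y) (A.smul_mem _ hy)
      rw [polar_smul_left, polar_comm (plusForm 4 F) y, smul_eq_mul, inv_mul_cancel₀ hne]
    have hv : ∀ c : F, v ≠ c • one8 F := by
      rintro c rfl
      rw [polar_smul_left, h11, smul_zero] at hv1
      exact zero_ne_one hv1
    have hvs := span v hvA hv
    have hUv : U v = v := by
      obtain ⟨c, d, hcd⟩ := hvs _ (hUA v hvA)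
      have h3 := fix_or_shift hU hUp hv hcd
      have h4 := hU.nm v
      rw [h3, QuadraticMap.map_add (plusForm 4 F), QuadraticMap.map_smul, polar_smul_right, hv1, norm_one8,
        smul_eq_mul, smul_eq_mul, mul_one, mul_one] at h4
      have h5 : c * (c + 1) = 0 := by linear_combination h4
      rcases mul_eq_zero.1 h5 with h6 | h6
      · rw [h3, h6, zero_smul, add_zero]
      · exfalso
        have h7 : c = 1 := by linear_combination h6 - h2
        rw [h7, one_smul] at h3
        exact no_swap h2 g hg U hU hUU hUc v hv1 h3 fun x hx => hvs x ((hA x).2 hx)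
    have hUA' : ∀ x ∈ A, U x = x := by
      intro x hx
      obtain ⟨c, d, rfl⟩ := hvs x hx
      rw [map_add, map_smul, map_smul, hU.one, hUv]
    refine ⟨hUA', ?_⟩
    -- an element with trace one and nonzero norm
    obtain ⟨c, hcn⟩ : ∃ c : F, plusForm 4 F (v + c • one8 F) ≠ 0 := by
      by_contra hcon
      push Not at hcon
      have hcon' : ∀ c : F, plusForm 4 F v + (c ^ 2 + c) = 0 := by
        intro c
        have := hcon c
        rw [QuadraticMap.map_add (plusForm 4 F), QuadraticMap.map_smul, polar_smul_right, hv1, norm_one8,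
          smul_eq_mul, smul_eq_mul, mul_one, mul_one] at this
        linear_combination this
      have h0 : plusForm 4 F v = 0 := by
        have := hcon' 0
        simpa using this
      have h01 : ∀ c : F, c = 0 ∨ c = 1 := by
        intro c
        have h3 := hcon' c
        rw [h0, zero_add] at h3
        have h5 : c * (c + 1) = 0 := by linear_combination h3
        rcases mul_eq_zero.1 h5 with h6 | h6
        · exact Or.inl h6
        · exact Or.inr (by linear_combination h6 - h2)
      apply hU1
      apply LinearEquiv.ext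
      intro x
      have hs1 := split_fix h2 h01 g hg U hU hUU hUc v h0 hv1 hUv ((hA v).1 hvA)
        (fun x hx => hvs x ((hA x).2 hx)) x
      have e1 : plusForm 4 F (one8 F - v) = 0 := by
        rw [sub_eq_add_neg, QuadraticMap.map_add (plusForm 4 F), QuadraticMap.map_neg, norm_one8, h0, polar_neg_right,
          polar_comm, hv1]
        ring
      have e2 : polar (plusForm 4 F) (one8 F - v) (one8 F) = 1 := by
        rw [polar_sub_left, h11, hv1]
        linear_combination -h2
      have e3 : U (one8 F - v) = one8 F - v := by rw [map_sub, hU.one, hUv]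
      have hs2 := split_fix h2 h01 g hg U hU hUU hUc (one8 F - v) e1 e2 e3
        (fun j => by rw [map_sub, (hg j).one, (hA v).1 hvA]) (fun x hx => by
          obtain ⟨c, d, hcd⟩ := hvs x ((hA x).2 hx)
          refine ⟨c + d, -d, ?_⟩
          rw [hcd]
          module) x
      have e4 : x = omul v x + omul (one8 F - v) x := by
        rw [sub_omul', one_omul]
        abel
      change U x = x
      conv_rhs => rw [e4]
      conv_lhs => rw [e4]
      rw [map_add, hs1, hs2]
    have hwA : v + c • one8 F ∈ A := A.add_mem hvA (A.smul_mem _ hone)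
    have ht : polar (plusForm 4 F) (v + c • one8 F) (one8 F) = 1 := by
      rw [polar_add_left, polar_smul_left, hv1, h11, smul_zero, add_zero]
    have hb := norm_unit hcn (by rw [ht]; exact one_ne_zero) (by
      rw [ht]
      intro h
      apply one_ne_zero (α := F)
      linear_combination h + 2 * plusForm 4 F (v + c • one8 F) * h2)
    have hbA : (plusForm 4 F (v + c • one8 F))⁻¹ • omul (v + c • one8 F) (v + c • one8 F) ∈ A :=
      A.smul_mem _ (hmul _ hwA _ hwA)
    exact ⟨_, (hA _).1 hbA, hUA' _ hbA, hb.1, hb.2⟩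
  · -- odd characteristic
    have h3 : (3 : F) ≠ 0 := by
      intro h
      have h3 : ((3 : ℕ) : F) = 0 := by exact_mod_cast h
      rw [CharP.cast_eq_zero_iff F p] at h3
      exact hp3 ((Nat.prime_dvd_prime_iff_eq Fact.out Nat.prime_three).1 h3)
    -- a trace zero vector
    set v := a - (polar (plusForm 4 F) a (one8 F) / 2) • one8 F with hvdef
    have hvA : v ∈ A := A.sub_mem haA (A.smul_mem _ hone)
    have hv : ∀ c : F, v ≠ c • one8 F := by
      intro c h
      apply ha (c + polar (plusForm 4 F) a (one8 F) / 2)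
      rw [add_smul, ← h, hvdef, sub_add_cancel]
    have hv1 : polar (plusForm 4 F) v (one8 F) = 0 := by
      rw [hvdef, polar_sub_left, polar_smul_left, polar_one_one, smul_eq_mul, div_mul_cancel₀ _ h2, sub_self]
    have hvs := span v hvA hv
    have hvn : plusForm 4 F v ≠ 0 := by
      intro h0
      apply hv 0
      rw [zero_smul]
      apply hnd v hvA
      intro y hy
      obtain ⟨c, d, rfl⟩ := hvs y hy
      rw [polar_add_right, polar_smul_right, polar_smul_right, hv1, polar_self', h0]
      simp
    have hUv : U v = v := by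
      obtain ⟨c, d, hcd⟩ := hvs _ (hUA v hvA)
      have h5 := fix_or_shift hU hUp hv hcd
      have h4 := hU.pol v (one8 F)
      rw [hU.one, h5, polar_add_left, polar_smul_left, hv1, polar_one_one, zero_add, smul_eq_mul] at h4
      have h6 : c = 0 := (mul_eq_zero.1 h4).resolve_right h2
      rw [h5, h6, zero_smul, add_zero]
    have hUA' : ∀ x ∈ A, U x = x := by
      intro x hx
      obtain ⟨c, d, rfl⟩ := hvs x hx
      rw [map_add, map_smul, map_smul, hU.one, hUv]
    refine ⟨hUA', ?_⟩
    have hn : ∀ c : F, plusForm 4 F (v + c • one8 F) = plusForm 4 F v + c ^ 2 := by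
      intro c
      rw [QuadraticMap.map_add (plusForm 4 F), QuadraticMap.map_smul, polar_smul_right, hv1, norm_one8, smul_eq_mul,
        mul_one, smul_zero, add_zero, pow_two]
    obtain ⟨c, hc0, hcn⟩ : ∃ c : F, c ≠ 0 ∧ plusForm 4 F (v + c • one8 F) ≠ 0 := by
      by_cases h : plusForm 4 F (v + (1 : F) • one8 F) = 0
      · refine ⟨2, h2, fun h' => ?_⟩
        rw [hn] at h h'
        apply h3
        linear_combination h' - h
      · exact ⟨1, one_ne_zero, h⟩
    have hwA : v + c • one8 F ∈ A := A.add_mem hvA (A.smul_mem _ hone)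
    have ht : polar (plusForm 4 F) (v + c • one8 F) (one8 F) = c * 2 := by
      rw [polar_add_left, polar_smul_left, hv1, polar_one_one, zero_add, smul_eq_mul]
    have hb := norm_unit hcn (by rw [ht]; exact mul_ne_zero hc0 h2) (by
      rw [ht, hn]
      intro h
      apply hvn
      have h6 : (2 : F) * (2 * plusForm 4 F v) = 0 := by linear_combination -h
      exact (mul_eq_zero.1 ((mul_eq_zero.1 h6).resolve_left h2)).resolve_left h2)
    have hbA : (plusForm 4 F (v + c • one8 F))⁻¹ • omul (v + c • one8 F) (v + c • one8 F) ∈ A :=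
      A.smul_mem _ (hmul _ hwA _ hwA)
    exact ⟨_, (hA _).1 hbA, hUA' _ hbA, hb.1, hb.2⟩

/-- **Box iS.** -/
theorem box_iS [Finite F] {p : ℕ} [Fact p.Prime] [CharP F p] (hp3 : p ≠ 3) {κ : Type*} [Finite κ] (M : κ → G8 F)
    (hT : ∀ j, TriS (M j) (M j) (M j)) (hl : ∀ j, IsLin (M j)) (r : κ → ℕ) (hr : ∀ j, ((r j : ℕ) : F) ≠ 0)
    (hM : ∀ j, M j ^ r j = 1) (hc : ∀ i j, M i * M j = M j * M i) (U : G8 F) (hU : TriS U U U) (hUl : IsLin U)
    (hUp : U ^ p = 1) (hU1 : U ≠ 1) (hUc : ∀ j, U * M j = M j * U) (A : Submodule F (V8 F))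
    (hA : ∀ x, x ∈ A ↔ ∀ j, (M j).1 x = x) (hd : finrank F A = 2) :
    (∀ x ∈ A, U.1 x = x) ∧ ∃ b, (∀ j, (M j).1 b = b) ∧ U.1 b = b ∧ plusForm 4 F b = 1 ∧
      polar (plusForm 4 F) b (one8 F) ^ 2 ≠ 4 := by
  choose g hg hgM using fun j => exists_OL (hT j) (hl j)
  obtain ⟨u, hu, huU⟩ := exists_OL hU hUl
  have happ : ∀ (M N : G8 F) (x : V8 F), (M * N).1 x = M.1 (N.1 x) := fun _ _ _ => rfl
  have h := box_iS_lin hp3 g hg r hr (fun j => LinearEquiv.ext fun x => by
      rw [OL.pow_apply (hgM j), hM j]; rfl)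
    (fun i j => LinearEquiv.ext fun x => by
      change g i (g j x) = g j (g i x)
      rw [hgM, hgM, hgM, hgM, ← happ, ← happ, hc i j])
    u hu (LinearEquiv.ext fun x => by rw [OL.pow_apply huU, hUp]; rfl)
    (fun h => hU1 (by
      apply Subtype.ext
      ext1 x
      rw [← huU, h]
      rfl))
    (fun j => LinearEquiv.ext fun x => by
      change u (g j x) = g j (u x)
      rw [hgM, hgM, huU, huU, ← happ, ← happ, hUc j])
    A (fun x => by rw [hA]; simp only [hgM]) hd
  simp only [huU, hgM] at h
  exact h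

end Cfsg.Agent.H338.RC.TriS
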